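import Cfsg.Agent.Lib.FFModules.BlockCentralizer.SLFacts
import Cfsg.Agent.Lib.TwoGroupTricks.SL2Natural
import Mathlib.FieldTheory.Fixed
import Mathlib.FieldTheory.Finite.Basic

/-!
Additive maps normalising the derived group of `SL₂(F)` on the natural module are semilinear, and an abelian
group of semilinear maps fixing a vector which is large against its fixed points is linear.
-/

set_option autoImplicit false
set_option linter.style.haveILetI false

open Matrix
open scoped MatrixGroups

namespace CfsgLib.FFModules.BlockNormal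

open CfsgLib.FFModules.BlockCentralizer (sI sJ sI_mem sJ_mem sJ_coe R_eq_top det2)
open CfsgLib.TwoGroupTricks.SL2Natural (xM yM)

variable {F : Type*} [Field F] [Fintype F]

local notation "R₀" => _root_.commutator SL(2, F)

omit [Fintype F] in
theorem natCast_surj [Fintype F] {p : ℕ} [Fact p.Prime] (h : Fintype.card F = p) (c : F) : ∃ k : ℕ, (k : F) = c := by
  set e := ZMod.ringEquivOfPrime F Fact.out h
  obtain ⟨q, rfl⟩ := e.surjective c
  exact ⟨q.val, by rw [← map_natCast e, ZMod.natCast_zmod_val]⟩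

theorem map_smul_of_prime {p : ℕ} [Fact p.Prime] (h : Fintype.card F = p)
    (T : (Fin 2 → F) →+ (Fin 2 → F)) (c : F) (v : Fin 2 → F) : T (c • v) = c • T v := by
  obtain ⟨k, rfl⟩ := natCast_surj h c
  rw [Nat.cast_smul_eq_nsmul, Nat.cast_smul_eq_nsmul, map_nsmul]

/-- The centralizer of the derived group of `SL₂(F)` consists of the scalars. -/
theorem exists_scalar (hcard : Fintype.card F = 3 ∨ 4 ≤ Fintype.card F) (T : (Fin 2 → F) →+ (Fin 2 → F))
    (hcomm : ∀ g ∈ R₀, ∀ v, T ((g : Matrix (Fin 2) (Fin 2) F) *ᵥ v) = (g : Matrix (Fin 2) (Fin 2) F) *ᵥ T v) :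
    ∃ l : F, ∀ v, T v = l • v := by
  have hv : ∀ v : Fin 2 → F, v = ![v 0, 0] + ![0, v 1] := fun v => by
    ext i; fin_cases i <;> simp
  rcases hcard with h3 | h4
  · haveI : Fact (Nat.Prime 3) := ⟨Nat.prime_three⟩
    have h30 : (3 : F) = 0 := by
      have := FiniteField.cast_card_eq_zero F
      rw [h3] at this; exact_mod_cast this
    have hI := hcomm _ (sI_mem h30) ![1, 0]
    have hJ := hcomm _ (sJ_mem h30) ![1, 0]
    rw [sJ_coe h30] at hJ
    have e1 : (sI F : Matrix (Fin 2) (Fin 2) F) *ᵥ ![1, 0] = ![0, 1] := by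
      ext i; fin_cases i <;> simp [sI]
    have e2 : (!![1, 1; 1, -1] : Matrix (Fin 2) (Fin 2) F) *ᵥ ![1, 0] = ![1, 0] + ![0, 1] := by
      ext i; fin_cases i <;> simp
    rw [e1] at hI
    rw [e2, map_add, hI] at hJ
    have hc : T ![1, 0] 1 = 0 := by
      have h := congrFun hJ 0
      simp [sI, Matrix.mulVec, dotProduct, Fin.sum_univ_two] at h
      linear_combination h + T ![1, 0] 1 * h30
    refine ⟨T ![1, 0] 0, fun v => ?_⟩
    rw [show v = v 0 • ![1, 0] + v 1 • ![0, 1] by ext i; fin_cases i <;> simp, map_add,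
      map_smul_of_prime h3 T, map_smul_of_prime h3 T, hI]
    ext i
    fin_cases i <;> simp [sI, Matrix.mulVec, dotProduct, Fin.sum_univ_two, hc, mul_comm]
  · have hall : ∀ g : SL(2, F), g ∈ R₀ := fun g => by rw [R_eq_top h4]; exact Subgroup.mem_top g
    have hx : ∀ t a b : F, (xM t : Matrix (Fin 2) (Fin 2) F) *ᵥ ![a, b] = ![a + t * b, b] := fun t a b => by
      ext i; fin_cases i <;> simp [xM] <;> ring
    have hy : ∀ t a b : F, (yM t : Matrix (Fin 2) (Fin 2) F) *ᵥ ![a, b] = ![a, t * a + b] := fun t a b => by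
      ext i; fin_cases i <;> simp [yM] <;> ring
    have eta : ∀ v : Fin 2 → F, ![v 0, v 1] = v := fun v => by ext i; fin_cases i <;> simp
    have h1 : ∀ a : F, T ![a, 0] 1 = 0 := fun a => by
      have h := hcomm _ (hall (xM 1)) ![a, 0]
      rw [hx, ← eta (T ![a, 0]), hx] at h
      simpa [eta] using congrFun h 0
    have h2 : ∀ b : F, T ![0, b] 0 = 0 := fun b => by
      have h := hcomm _ (hall (yM 1)) ![0, b]
      rw [hy, ← eta (T ![0, b]), hy] at h
      simpa [eta] using congrFun h 1
    set β := T ![0, 1] 1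
    have h3 : ∀ t : F, T ![t, 0] 0 = t * β := fun t => by
      have h := hcomm _ (hall (xM t)) ![0, 1]
      rw [hx, ← eta (T ![0, 1]), hx, show (![0 + t * 1, 1] : Fin 2 → F) = ![t, 0] + ![0, 1] by simp, map_add] at h
      have h0 := congrFun h 0
      simp [h2] at h0
      exact h0
    have h4' : ∀ t : F, T ![0, t] 1 = t * β := fun t => by
      have h := hcomm _ (hall (yM t)) ![1, 0]
      rw [hy, ← eta (T ![1, 0]), hy, show (![1, t * 1 + 0] : Fin 2 → F) = ![1, 0] + ![0, t] by simp, map_add] at h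
      have h0 := congrFun h 1
      simp [h1, h3] at h0
      exact h0
    refine ⟨β, fun v => ?_⟩
    conv_lhs => rw [hv v, map_add]
    ext i
    fin_cases i <;> simp [h1, h2, h3, h4', mul_comm]

omit [Fintype F] in
theorem semi_unique {T : (Fin 2 → F) →+ (Fin 2 → F)} (hT : Function.Injective T) {c s s' : F}
    (h : ∀ v, T (c • v) = s • T v) (h' : ∀ v, T (c • v) = s' • T v) : s = s' := by
  by_contra hne
  have h0 : T ![1, 0] ≠ 0 := fun h0 => by
    simpa using congrFun (hT (h0.trans (map_zero T).symm)) 0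
  exact hne (smul_left_injective F h0 ((h _).symm.trans (h' _)))

/-- An additive automorphism normalising the derived group of `SL₂(F)` is semilinear. -/
theorem exists_semi {p n : ℕ} [Fact p.Prime] (hF : Fintype.card F = p ^ n)
    (T T' : (Fin 2 → F) →+ (Fin 2 → F)) (hTT' : ∀ v, T (T' v) = v) (hT'T : ∀ v, T' (T v) = v)
    (hR : ∀ g ∈ R₀, ∃ g' ∈ R₀, ∀ v, T ((g' : SL(2, F)).1 *ᵥ v) = (g : SL(2, F)).1 *ᵥ T v) :
    ∃ σ : F ≃+* F, ∀ c v, T (c • v) = σ c • T v := by
  classical
  have hTi : Function.Injective T := Function.LeftInverse.injective hT'T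
  have hex : ∀ c : F, ∃ c' : F, ∀ v, T (c • v) = c' • T v := by
    intro c
    by_cases h4 : 4 ≤ Fintype.card F
    · let S : (Fin 2 → F) →+ (Fin 2 → F) :=
        AddMonoidHom.mk' (fun v => T (c • T' v)) fun u v => by rw [map_add, smul_add, map_add]
      have hS : ∀ g ∈ R₀, ∀ v, S ((g : Matrix (Fin 2) (Fin 2) F) *ᵥ v) = (g : Matrix (Fin 2) (Fin 2) F) *ᵥ S v := by
        intro g hg v
        obtain ⟨g', -, hg'⟩ := hR g hg
        show T (c • T' _) = _ *ᵥ T (c • T' v)
        conv_lhs => rw [← hTT' v, ← hg', hT'T]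
        rw [← hg', ← Matrix.mulVec_smul]
      obtain ⟨l, hl⟩ := exists_scalar (Or.inr h4) S hS
      exact ⟨l, fun v => by simpa [S, hT'T] using hl (T v)⟩
    · have hp : Fintype.card F = p := by
        rw [hF] at h4 ⊢
        have hn : n ≠ 0 := fun h => by
          rw [h, pow_zero] at hF; exact Fintype.one_lt_card.ne' hF
        have h1 : n < 2 := by
          by_contra h
          exact h4 (le_trans (Nat.pow_le_pow_left (Fact.out : p.Prime).two_le 2)
            (Nat.pow_le_pow_right (Fact.out : p.Prime).pos (by omega)))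
        rw [show n = 1 by omega, pow_one]
      exact ⟨c, map_smul_of_prime hp T c⟩
  choose σ hσ using hex
  let σh : F →+* F :=
    { toFun := σ
      map_one' := semi_unique hTi (hσ 1) (fun v => by rw [one_smul, one_smul])
      map_mul' := fun a b => semi_unique hTi (hσ (a * b)) (fun v => by rw [mul_smul, hσ, hσ, mul_smul])
      map_zero' := semi_unique hTi (hσ 0) (fun v => by rw [zero_smul, zero_smul, map_zero])
      map_add' := fun a b => semi_unique hTi (hσ (a + b)) (fun v => by rw [add_smul, map_add, hσ, hσ, add_smul]) }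
  exact ⟨RingEquiv.ofBijective σh (Finite.injective_iff_bijective.1 σh.injective), hσ⟩

omit [Fintype F] in
theorem cramer (v w u : Fin 2 → F) : det2 v w • u = det2 u w • v + det2 v u • w := by
  ext i; fin_cases i <;> simp [det2] <;> ring

omit [Fintype F] in
theorem eq_smul_of_det {v u : Fin 2 → F} (hv : v ≠ 0) (h : det2 v u = 0) : ∃ l : F, u = l • v := by
  obtain ⟨w, hw⟩ : ∃ w, det2 v w ≠ 0 := by
    by_contra! hh
    refine hv (funext fun i => ?_)
    fin_cases i
    · simpa [det2] using hh ![0, 1]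
    · simpa [det2] using hh ![1, 0]
  refine ⟨(det2 v w)⁻¹ * det2 u w, ?_⟩
  rw [mul_smul, eq_inv_smul_iff₀ hw, cramer v w u, h, zero_smul, add_zero]

theorem count_aux {q₀ r : ℕ} (hq : 2 ≤ q₀) (hr : 2 ≤ r) : r * q₀ ^ 2 < (q₀ ^ r) ^ 2 := by
  obtain ⟨k, rfl⟩ : ∃ k, r = k + 2 := ⟨r - 2, by omega⟩
  have h1 : k + 2 < q₀ ^ (2 * (k + 1)) :=
    calc k + 2 < 2 ^ (k + 2) := Nat.lt_two_pow_self
      _ ≤ 2 ^ (2 * (k + 1)) := Nat.pow_le_pow_right (by norm_num) (by omega)
      _ ≤ q₀ ^ (2 * (k + 1)) := Nat.pow_le_pow_left hq _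
  calc (k + 2) * q₀ ^ 2 < q₀ ^ (2 * (k + 1)) * q₀ ^ 2 := Nat.mul_lt_mul_of_pos_right h1 (by positivity)
    _ = (q₀ ^ (k + 2)) ^ 2 := by ring

/-- An abelian `p`-group of semilinear maps fixing a vector, large against a set of fixed points, is linear,
and the fixed line is the whole set. -/
theorem linear_of_large {p n : ℕ} [Fact p.Prime] (hF : Fintype.card F = p ^ n)
    {A : Type*} [Group A] [Finite A] (hA : IsPGroup p A) (hcomm : ∀ a b : A, a * b = b * a)
    (T : A → (Fin 2 → F) →+ (Fin 2 → F)) (hmul : ∀ a b v, T (a * b) v = T a (T b v))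
    (hfaith : ∀ a, (∀ v, T a v = v) → a = 1) (h1 : ∀ v, T 1 v = v)
    (hsemi : ∀ a, ∃ σ : F ≃+* F, ∀ c v, T a (c • v) = σ c • T a v) (hne : ∃ a : A, a ≠ 1)
    {v₀ : Fin 2 → F} (hv₀ : v₀ ≠ 0) (hfix₀ : ∀ a, T a v₀ = v₀) (C : Set (Fin 2 → F))
    (hC : ∀ v ∈ C, ∀ a, T a v = v) (hineq : Fintype.card F ^ 2 ≤ Nat.card A * Nat.card C) :
    (∀ (a : A) (c : F) (v : Fin 2 → F), T a (c • v) = c • T a v) ∧ (∀ c : F, c • v₀ ∈ C) ∧
      Nat.card A ≤ Fintype.card F ∧ ∀ v ∈ C, ∃ c : F, v = c • v₀ := by
  classical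
  have hTi : ∀ a, Function.Injective (T a) := fun a =>
    Function.LeftInverse.injective (g := T a⁻¹) fun v => by rw [← hmul, inv_mul_cancel, h1]
  choose σ hσ using hsemi
  have hσu : ∀ a (s : F ≃+* F), (∀ c v, T a (c • v) = s c • T a v) → s = σ a := fun a s h =>
    RingEquiv.ext fun c => semi_unique (hTi a) (h c) (hσ a c)
  let σh : A →* RingAut F :=
    { toFun := σ
      map_one' := (hσu 1 1 fun c v => by rw [h1, h1]; rfl).symm
      map_mul' := fun a b => (hσu _ (σ a * σ b) fun c v => by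
        rw [hmul, hσ, hσ, hmul]; rfl).symm }
  set B := σh.range
  haveI : Finite (RingAut F) := Finite.of_injective (fun f => (f : F → F)) DFunLike.coe_injective
  letI : Fintype B := Fintype.ofFinite _
  set F₀ := FixedPoints.subfield B F
  letI : Fintype F₀ := Fintype.ofFinite _
  haveI : FaithfulSMul B F := ⟨fun {a b} h => Subtype.ext (RingEquiv.ext h)⟩
  set r := Fintype.card B
  have hqr : Fintype.card F = Fintype.card F₀ ^ r := by
    rw [Module.card_eq_pow_finrank (K := F₀) (V := F), FixedPoints.finrank_eq_card B F]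
  set q₀ := Fintype.card F₀
  have hq₀ : 2 ≤ q₀ := Fintype.one_lt_card
  have hmem : ∀ {l : F}, (∀ a, σ a l = l) → l ∈ F₀ := by
    rintro l h ⟨_, a, rfl⟩
    exact h a
  have hAB : Nat.card A = Nat.card σh.ker * r := by
    rw [← Subgroup.card_mul_index σh.ker, Subgroup.index_ker, Nat.card_eq_fintype_card (α := B)]
  have hlin : ∀ a : σh.ker, ∀ c v, T (a : A) (c • v) = c • T (a : A) v := fun a c v => by
    rw [hσ]
    have : σ (a : A) = 1 := a.2
    rw [this]; rfl
  by_cases hind : ∃ w, (∀ a, T a w = w) ∧ det2 v₀ w ≠ 0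
  · -- two independent fixed vectors
    exfalso
    obtain ⟨w, hw, hd⟩ := hind
    have hker : Nat.card σh.ker = 1 := by
      haveI : Subsingleton σh.ker := ⟨fun a b => by
        have key : ∀ x : σh.ker, x = 1 := fun x => Subtype.ext (hfaith _ fun v => by
          apply smul_right_injective _ hd
          show det2 v₀ w • T (x : A) v = det2 v₀ w • v
          rw [← hlin, cramer v₀ w v, map_add, hlin, hlin, hfix₀, hw])
        rw [key a, key b]⟩
      exact Nat.card_unique
    have hr2 : 2 ≤ r := by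
      obtain ⟨a, ha⟩ := hne
      haveI : Nontrivial A := ⟨⟨a, 1, ha⟩⟩
      have h1 : 1 < Nat.card A := Finite.one_lt_card
      rw [hAB, hker, one_mul] at h1
      exact h1
    have hcoef : ∀ u, (∀ a, T a u = u) → det2 u w / det2 v₀ w ∈ F₀ ∧ det2 v₀ u / det2 v₀ w ∈ F₀ := by
      intro u hu
      set α := det2 u w / det2 v₀ w
      set β := det2 v₀ u / det2 v₀ w
      have e : u = α • v₀ + β • w := by
        apply smul_right_injective _ hd
        show det2 v₀ w • u = det2 v₀ w • (α • v₀ + β • w)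
        rw [smul_add, smul_smul, smul_smul, mul_div_cancel₀ _ hd, mul_div_cancel₀ _ hd]
        exact cramer v₀ w u
      have hfixed : ∀ a, σ a α = α ∧ σ a β = β := fun a => by
        have h := hu a
        rw [e, map_add, hσ, hσ, hfix₀, hw] at h
        have hA := congrArg (fun z => det2 z w) h
        have hB := congrArg (fun z => det2 v₀ z) h
        simp only [det2, Pi.add_apply, Pi.smul_apply, smul_eq_mul] at hA hB hd
        constructor
        · apply mul_right_cancel₀ hd; linear_combination hA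
        · apply mul_right_cancel₀ hd; linear_combination hB
      exact ⟨hmem fun a => (hfixed a).1, hmem fun a => (hfixed a).2⟩
    have hCc : Nat.card C ≤ q₀ ^ 2 := by
      rw [sq, show q₀ * q₀ = Nat.card (F₀ × F₀) by rw [Nat.card_prod, Nat.card_eq_fintype_card]]
      refine Nat.card_le_card_of_injective
        (fun u : C => ((⟨_, (hcoef u (hC u u.2)).1⟩, ⟨_, (hcoef u (hC u u.2)).2⟩) : F₀ × F₀)) fun u u' h => ?_
      simp only [Prod.mk.injEq, Subtype.mk.injEq, div_left_inj' hd] at h
      apply Subtype.ext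
      apply smul_right_injective _ hd
      show det2 v₀ w • (u : Fin 2 → F) = det2 v₀ w • (u' : Fin 2 → F)
      rw [cramer v₀ w, cramer v₀ w, h.1, h.2]
    have := lt_of_le_of_lt (hineq.trans (Nat.mul_le_mul_left _ hCc)) (by
      rw [hAB, hker, one_mul]; exact count_aux hq₀ hr2)
    rw [hqr] at this
    exact lt_irrefl _ this
  push Not at hind
  have hline : ∀ u, (∀ a, T a u = u) → ∃ l : F₀, u = (l : F) • v₀ := by
    intro u hu
    obtain ⟨l, rfl⟩ := eq_smul_of_det hv₀ (hind u hu)
    refine ⟨⟨l, hmem fun a => ?_⟩, rfl⟩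
    have h := hu a
    rw [hσ, hfix₀] at h
    exact smul_left_injective F hv₀ h
  -- the classes modulo the line
  obtain ⟨w₁, hw₁⟩ : ∃ w₁, det2 v₀ w₁ = 1 := by
    obtain ⟨w, hw⟩ : ∃ w, det2 v₀ w ≠ 0 := by
      by_contra! hh
      exact hv₀ (funext fun i => by fin_cases i <;> [simpa [det2] using hh ![0, 1]; simpa [det2] using hh ![1, 0]])
    refine ⟨(det2 v₀ w)⁻¹ • w, ?_⟩
    have : det2 v₀ ((det2 v₀ w)⁻¹ • w) = (det2 v₀ w)⁻¹ * det2 v₀ w := by simp [det2]; ring
    rw [this, inv_mul_cancel₀ hw]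
  have hwd : ∀ a u, det2 v₀ (T a u) = det2 v₀ (T a (det2 v₀ u • w₁)) := by
    intro a u
    have e := cramer v₀ w₁ u
    rw [hw₁, one_smul] at e
    conv_lhs => rw [e, map_add, hσ, hfix₀]
    simp [det2]; ring
  letI : MulAction A F :=
    { smul := fun a x => det2 v₀ (T a (x • w₁))
      one_smul := fun x => by
        show det2 v₀ (T 1 (x • w₁)) = x
        rw [h1]
        linear_combination (norm := (simp [det2]; ring)) x * hw₁
      mul_smul := fun a b x => by
        show det2 v₀ (T (a * b) (x • w₁)) = det2 v₀ (T a (det2 v₀ (T b (x • w₁)) • w₁))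
        rw [hmul, hwd] }
  obtain ⟨x, hx, hx0⟩ := hA.exists_fixed_point_of_prime_dvd_card_of_fixed_point F (p := p) (a := 0) (by
    rw [Nat.card_eq_fintype_card, hF]
    exact dvd_pow_self p fun h => by rw [h, pow_zero] at hF; exact Fintype.one_lt_card.ne' hF)
    (fun a => show det2 v₀ (T a ((0 : F) • w₁)) = 0 by simp [det2])
  set w := x • w₁
  have hw : ∀ a, ∃ l, T a w = w + l • v₀ := fun a => by
    obtain ⟨l, hl⟩ := eq_smul_of_det hv₀ (u := T a w - w) (by
      have : det2 v₀ (T a w) = x := hx a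
      simp only [det2, Pi.sub_apply] at this ⊢
      simp only [w, Pi.smul_apply, smul_eq_mul, det2] at this hw₁ ⊢
      linear_combination this - x * hw₁)
    exact ⟨l, by rw [← hl]; abel⟩
  have hdw : det2 v₀ w ≠ 0 := by
    have : det2 v₀ w = x * det2 v₀ w₁ := by simp [w, det2]; ring
    rw [this, hw₁, mul_one]; exact hx0.symm
  clear_value w
  have hker : Nat.card σh.ker ≤ q₀ := by
    have hfixed : ∀ (a : A) (z : σh.ker), T a (T (z : A) w - w) = T (z : A) w - w := by
      intro a z
      obtain ⟨l, hl⟩ := hw a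
      rw [map_sub, ← hmul, hcomm, hmul, hl, map_add, hlin, hfix₀]
      abel
    choose f hf using fun z : σh.ker => hline _ fun a => hfixed a z
    rw [show q₀ = Nat.card F₀ from (Nat.card_eq_fintype_card).symm]
    refine Nat.card_le_card_of_injective f fun z z' h => ?_
    have hzw : T (z : A) w = T (z' : A) w := sub_left_injective (by
      show T (z : A) w - w = T (z' : A) w - w
      rw [hf z, hf z', h])
    refine Subtype.ext (inv_mul_eq_one.1 (hfaith _ fun v => ?_)).symm |>.symm
    refine hTi (z : A) ?_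
    rw [← hmul, mul_inv_cancel_left]
    apply smul_right_injective _ hdw
    show det2 v₀ w • T (z' : A) v = det2 v₀ w • T (z : A) v
    rw [← hlin, ← hlin, cramer v₀ w v, map_add, map_add, hlin, hlin, hlin, hlin, hfix₀, hfix₀, hzw]
  have hCc : Nat.card C ≤ q₀ := by
    choose f hf using fun u : C => hline u (hC u u.2)
    rw [show q₀ = Nat.card F₀ from (Nat.card_eq_fintype_card).symm]
    exact Nat.card_le_card_of_injective f fun u u' h => Subtype.ext (by rw [hf u, hf u', h])
  have hr : r = 1 := by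
    have : 0 < r := Fintype.card_pos
    by_contra h
    have h2 := count_aux hq₀ (show 2 ≤ r by omega)
    have h3 : Fintype.card F ^ 2 ≤ r * q₀ ^ 2 :=
      calc Fintype.card F ^ 2 ≤ Nat.card A * Nat.card C := hineq
        _ ≤ (q₀ * r) * q₀ := Nat.mul_le_mul (hAB ▸ Nat.mul_le_mul_right r hker) hCc
        _ = r * q₀ ^ 2 := by ring
    rw [hqr] at h3
    omega
  rw [hr, pow_one] at hqr
  have hB : ∀ a, σ a = 1 := fun a => by
    haveI : Subsingleton B := Fintype.card_le_one_iff_subsingleton.1 hr.le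
    exact congrArg Subtype.val (Subsingleton.elim (⟨σ a, a, rfl⟩ : B) 1)
  refine ⟨fun a c v => by rw [hσ, hB]; rfl, fun c => ?_, by rw [hAB, hr, mul_one, hqr]; exact hker,
    fun v hv => (hline v (hC v hv)).imp' Subtype.val fun _ h => h⟩
  by_contra hc
  have hlt : Nat.card C < Fintype.card F := by
    have hsub : C ⊆ (fun l : F => l • v₀) '' {l | l ≠ c} := fun u hu => by
      obtain ⟨l, rfl⟩ := hline u (hC u hu)
      exact ⟨_, fun h => hc (h ▸ hu), rfl⟩
    calc Nat.card C ≤ Nat.card ((fun l : F => l • v₀) '' {l | l ≠ c}) := Nat.card_mono (Set.toFinite _) hsub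
      _ ≤ Nat.card {l : F | l ≠ c} := Set.ncard_image_le (Set.toFinite _)
      _ < Fintype.card F := by
        rw [← Nat.card_eq_fintype_card]
        exact Finite.card_subtype_lt (x := c) (by simp)
  have h3 : Fintype.card F ^ 2 ≤ q₀ * Nat.card C := by
    refine hineq.trans (Nat.mul_le_mul_right _ ?_)
    rw [hAB, hr, mul_one]; exact hker
  rw [← hqr, sq] at h3
  exact absurd (Nat.le_of_mul_le_mul_left h3 Fintype.card_pos) (not_le.2 hlt)

/-- Elements of order prime to the characteristic lie in the derived group. -/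
theorem mem_commutator_of_coprime {p n : ℕ} [Fact p.Prime] (hF : Fintype.card F = p ^ n) {g : SL(2, F)}
    (hg : (orderOf g).Coprime p) : g ∈ R₀ := by
  classical
  by_cases h4 : 4 ≤ Fintype.card F
  · rw [R_eq_top h4]; exact Subgroup.mem_top g
  have hn : n ≠ 0 := fun h => by rw [h, pow_zero] at hF; exact Fintype.one_lt_card.ne' hF
  have h1 : 1 < Fintype.card F := Fintype.one_lt_card
  obtain h2 | h3 : Fintype.card F = 2 ∨ Fintype.card F = 3 := by omega
  · have hp : p = 2 := (Nat.prime_dvd_prime_iff_eq Fact.out Nat.prime_two).1 (h2 ▸ hF ▸ dvd_pow_self p hn)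
    subst hp
    set e := Replacement.Block.slEquiv (ZMod.ringEquivOfPrime F Nat.prime_two h2)
    obtain ⟨x, rfl⟩ := e.surjective g
    have h6 : ∀ y : SL(2, ZMod 2), y ^ 6 = 1 := by decide +kernel
    rw [Replacement.Block.mem_commutator_equiv, Replacement.Block.mem_commutator_iff_pow
      Replacement.Block.sl_two_mul Replacement.Block.sl_two_comm Replacement.Block.sl_two_exists]
    rw [MulEquiv.orderOf_eq] at hg
    refine orderOf_dvd_iff_pow_eq_one.1 (hg.dvd_of_dvd_mul_right (?_ : orderOf x ∣ 3 * 2))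
    exact orderOf_dvd_of_pow_eq_one (h6 x)
  · have hp : p = 3 := (Nat.prime_dvd_prime_iff_eq Fact.out Nat.prime_three).1 (h3 ▸ hF ▸ dvd_pow_self p hn)
    subst hp
    set e := Replacement.Block.slEquiv (ZMod.ringEquivOfPrime F Nat.prime_three h3)
    obtain ⟨x, rfl⟩ := e.surjective g
    have h12 : ∀ y : SL(2, ZMod 3), y ^ 12 = 1 := by decide +kernel
    rw [Replacement.Block.mem_commutator_equiv, Replacement.Block.mem_commutator_iff_pow
      Replacement.Block.sl_three_mul Replacement.Block.sl_three_comm Replacement.Block.sl_three_exists]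
    rw [MulEquiv.orderOf_eq] at hg
    refine orderOf_dvd_iff_pow_eq_one.1 (hg.dvd_of_dvd_mul_right (?_ : orderOf x ∣ 4 * 3))
    exact orderOf_dvd_of_pow_eq_one (h12 x)

end CfsgLib.FFModules.BlockNormal
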