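import Cfsg.Agent.Lib.FFModules.BlockNormal.General
import Cfsg.Agent.Lib.FFModules.BlockNormal.Semilinear
import Cfsg.Agent.Lib.Replacement.Block.Sections

/-!
Maps induced on natural sections, and a block centralising the module of a subnormal block centralises the block.
-/

set_option autoImplicit false
set_option linter.style.haveILetI false

open Matrix
open scoped MatrixGroups commutatorElement

namespace CfsgLib.FFModules.BlockNormal

open Cfsg
open CfsgLib.FFModules.BlockCentralizer (NatSec stab stab_trans stab_bot mem_stab_bot mem_normalizer_of_normal)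
open CfsgLib.Replacement.Block (coreU coreU_le blockW blockWE blockZ blockW_le blockW_comm facts_of_block)

variable {G : Type*} [Group G]

/-- The map induced on a natural section. -/
theorem exists_act {p : ℕ} {F : Type*} [Field F] {E V V₀ : Subgroup G} (s : NatSec p F E V V₀) {g : G}
    (hgV : g ∈ Subgroup.normalizer (V : Set G)) (hg₀ : g ∈ Subgroup.normalizer (V₀ : Set G)) :
    ∃ T : (Fin 2 → F) →+ (Fin 2 → F), ∀ v ∈ V, T (s.ψ v) = s.ψ (g * v * g⁻¹) := by
  choose sec hsec hψ using s.ψ_surj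
  have hm : ∀ {v : G}, v ∈ V → g * v * g⁻¹ ∈ V := fun hv => (Subgroup.mem_normalizer_iff.1 hgV _).1 hv
  have hwd : ∀ u ∈ V, ∀ v ∈ V, s.ψ u = s.ψ v → s.ψ (g * u * g⁻¹) = s.ψ (g * v * g⁻¹) := fun u hu v hv h => by
    rw [s.ψ_eq_iff (hm hu) (hm hv), show (g * u * g⁻¹)⁻¹ * (g * v * g⁻¹) = g * (u⁻¹ * v) * g⁻¹ by group]
    exact (Subgroup.mem_normalizer_iff.1 hg₀ _).1 ((s.ψ_eq_iff hu hv).1 h)
  refine ⟨AddMonoidHom.mk' (fun a => s.ψ (g * sec a * g⁻¹)) fun a b => ?_, fun v hv => hwd _ (hsec _) v hv (hψ _)⟩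
  rw [← s.ψ_mul _ (hm (hsec a)) _ (hm (hsec b))]
  refine (hwd _ (hsec _) _ (mul_mem (hsec a) (hsec b)) ?_).trans (congrArg s.ψ (by group))
  rw [hψ, s.ψ_mul _ (hsec a) _ (hsec b), hψ, hψ]

/-- Whoever commutes with the block modulo the section acts on it as a scalar. -/
theorem exists_scalar_act {p : ℕ} {F : Type*} [Field F] [Fintype F] {E V V₀ : Subgroup G} (s : NatSec p F E V V₀)
    (hcard : Fintype.card F = 3 ∨ 4 ≤ Fintype.card F) {g : G}
    (hgV : g ∈ Subgroup.normalizer (V : Set G)) (hg₀ : g ∈ Subgroup.normalizer (V₀ : Set G))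
    (hc : ∀ e ∈ E, ∀ v ∈ V, s.ψ (g * (e * v * e⁻¹) * g⁻¹) = s.ψ (e * (g * v * g⁻¹) * e⁻¹)) :
    ∃ l : F, ∀ v ∈ V, s.ψ (g * v * g⁻¹) = l • s.ψ v := by
  obtain ⟨T, hT⟩ := exists_act s hgV hg₀
  obtain ⟨l, hl⟩ := exists_scalar hcard T fun r hr a => by
    obtain ⟨e, he, rfl⟩ := s.ρ_surj r hr
    obtain ⟨v, hv, rfl⟩ := s.ψ_surj a
    rw [← s.ψ_conj e he v hv, hT _ ((Subgroup.mem_normalizer_iff.1 (s.normE he) v).1 hv), hT v hv,
      hc e he v hv, s.ψ_conj e he _ ((Subgroup.mem_normalizer_iff.1 hgV v).1 hv)]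
  exact ⟨l, fun v hv => by rw [← hT v hv, hl]⟩

variable [Finite G] {p : ℕ} [Fact p.Prime]

omit [Finite G] in
/-- Conjugation by an element of the section is trivial on it. -/
theorem ψ_conj_self {F : Type*} [Field F] {E V V₀ : Subgroup G} (s : NatSec p F E V V₀) {c v : G}
    (hc : c ∈ V) (hv : v ∈ V) : s.ψ (c * v * c⁻¹) = s.ψ v := by
  rw [s.ψ_mul _ (mul_mem hc hv) _ (inv_mem hc), s.ψ_mul _ hc _ hv, s.ψ_inv hc]
  abel

/-- Whoever fixes `O_p(X)` modulo `W` fixes `C_W(X)` in the exceptional case. -/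
theorem fix_Z {X : Subgroup G} (hQQ : ⁅pCoreOf p X, pCoreOf p X⁆ = blockZ p X) {g : G}
    (h : ∀ q ∈ pCoreOf p X, q⁻¹ * (g * q * g⁻¹) ∈ blockW p X) : blockZ p X ≤ Subgroup.centralizer {g} := by
  refine hQQ.ge.trans (Subgroup.commutator_le.2 fun x hx y hy => ?_)
  rw [Subgroup.mem_centralizer_singleton_iff]
  have hw : ∀ {q w : G}, q ∈ pCoreOf p X → w ∈ blockW p X → w * q = q * w := fun hq hw => (blockW_comm hq hw).symm
  set a := x⁻¹ * (g * x * g⁻¹)
  set b := y⁻¹ * (g * y * g⁻¹)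
  have hc : g * ⁅x, y⁆ * g⁻¹ = ⁅x, y⁆ := by
    rw [show g * ⁅x, y⁆ * g⁻¹ = ⁅x * a, y * b⁆ by simp [a, b, commutatorElement_def, mul_assoc]]
    exact Replacement.Block.commutatorElement_mul_central (hw hy (h x hx)) (hw (blockW_le (h y hy)) (h x hx))
      (hw hx (h y hy))
  exact (mul_inv_eq_iff_eq_mul.1 hc).symm

variable (hG : Subgroup.centralizer (pCore p G : Set G) ≤ pCore p G)
  {T : Sylow p G} {E F : Subgroup G} (hE : IsBaumannBlock p (T : Subgroup G) E) (hEs : E.IsSubnormal)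
  (hF : IsBaumannBlock p (T : Subgroup G) F) (hFN : F ≤ Subgroup.normalizer (E : Set G))
include hG hE hEs hF hFN

/-- A block centralising `W_E` commutes with `E`. -/
theorem commute_of_centralizes (h0 : ⁅blockWE p E, F⁆ = ⊥) : ⁅F, E⁆ = ⊥ := by
  have hfE := facts_of_block hG T hE hEs
  have hFC : F ≤ Subgroup.centralizer (blockWE p E : Set G) :=
    Subgroup.le_centralizer_iff.1 (Subgroup.commutator_eq_bot_iff_le_centralizer.1 h0)
  have h1 : ⁅E, F⁆ ≤ pCoreOf p E := Subgroup.commutator_le.2 fun e he f hf =>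
    commutator_mem_core hE he (hFN hf) (hFC hf)
  have hQU : ∀ {q : G}, q ∈ pCoreOf p E → q ∈ pCore p G := fun hq => hfE.pCoreOf_le hq
  -- `E` centralises `W_F`
  have h2 : ⁅blockWE p F, E⁆ = ⊥ := by
    rw [← show ⁅blockWE p F, F⁆ = blockWE p F from (TwoGroupTricks.block_module_facts hF).1]
    refine Subgroup.commutator_commutator_eq_bot_of_rotate ?_ ?_
    · rw [Subgroup.commutator_comm F E, Subgroup.commutator_eq_bot_iff_le_centralizer]
      intro x hx
      refine Subgroup.mem_centralizer_iff.2 fun w hw => ?_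
      exact (Replacement.Block.coreU_comm (hQU (h1 hx))
        (TwoGroupTricks.commutator_le_omegaOneCenter_pCore hG T hF hw)).symm
    · refine le_bot_iff.1 (le_trans (Subgroup.commutator_mono ?_ le_rfl) h0.le)
      rw [Subgroup.commutator_comm, ← hfE.commutator_coreU]
      exact Subgroup.commutator_mono (TwoGroupTricks.commutator_le_omegaOneCenter_pCore hG T hF) le_rfl
  have hEF : E ≤ Subgroup.normalizer (F : Set G) :=
    (Subgroup.le_centralizer_iff.1 (Subgroup.commutator_eq_bot_iff_le_centralizer.1 h2)).trans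
      (BlockCentralizer.centralizer_le_normalizer hG T hF)
  have h4 : ⁅E, F⁆ ≤ pCoreOf p F := by
    refine le_trans (le_inf (h1.trans hfE.pCoreOf_le) ?_)
      (TwoGroupTricks.inf_le_pCoreOf (CfsgLib.Cores.isPGroup_pCore p G) fun f _ => mem_normalizer_of_normal f)
    rw [Subgroup.commutator_comm]
    exact CoprimeAction.commutator_le_left hEF
  have hWp : IsPGroup p (blockW p E) :=
    ((CfsgLib.Cores.isPGroup_pCore p E).map E.subtype).to_le blockW_le
  rw [Subgroup.commutator_comm]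
  rcases eq_WE_or_exc hE with hq | ⟨K, iK, iKt, ⟨eE⟩⟩
  · exact commutator_eq_bot_of hF.1 hFN (hWp.to_le (WE_le hE)) (hq ▸ h1) h0
  rcases eq_WE_or_exc hF with hq | ⟨L, iL, iLt, ⟨eF⟩⟩
  · rw [Subgroup.commutator_comm]
    refine commutator_eq_bot_of hE.1 hEF
      (((CfsgLib.Cores.isPGroup_pCore p F).map F.subtype).to_le ((WE_le hF).trans blockW_le)) ?_ h2
    rw [Subgroup.commutator_comm, ← hq]
    exact h4
  -- both exceptional
  have hp := eE.hp
  subst hp
  have hYW : pCoreOf 3 E ⊓ pCoreOf 3 F ≤ blockW 3 E := by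
    obtain ⟨i, hi, hρi⟩ := eE.sQ.ρ_surj _ (BlockCentralizer.sI_mem eE.h3)
    obtain ⟨j, hj, hρj⟩ := eE.sQ.ρ_surj _ (BlockCentralizer.sJ_mem eE.h3)
    have hsc : ∀ e ∈ E, ∃ l : L, ∀ v ∈ pCoreOf 3 F, eF.sQ.ψ (e * v * e⁻¹) = l • eF.sQ.ψ v := fun e he => by
      refine exists_scalar_act eF.sQ eF.hcard (norm_core (hEF he)) (norm_W (hEF he)) fun f hf v hv => ?_
      have hc : ⁅e, f⁆ ∈ pCoreOf 3 F := h4 (Subgroup.commutator_mem_commutator he hf)
      rw [show e * (f * v * f⁻¹) * e⁻¹ = ⁅e, f⁆ * (f * (e * v * e⁻¹) * f⁻¹) * ⁅e, f⁆⁻¹ by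
        rw [commutatorElement_def]; group]
      exact ψ_conj_self eF.sQ hc ((Subgroup.mem_normalizer_iff.1 (eF.sQ.normE hf) _).1
        ((Subgroup.mem_normalizer_iff.1 (norm_core (hEF he)) v).1 hv))
    set g := ⁅i, j⁆ with hg
    have hgE : g ∈ E := by
      rw [hg, commutatorElement_def]
      exact mul_mem (mul_mem (mul_mem hi hj) (inv_mem hi)) (inv_mem hj)
    have hρg : eE.sQ.ρ g = -1 := by
      rw [hg, commutatorElement_def, eE.sQ.ρ_mul _ (mul_mem (mul_mem hi hj) (inv_mem hi)) _ (inv_mem hj),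
        eE.sQ.ρ_mul _ (mul_mem hi hj) _ (inv_mem hi), eE.sQ.ρ_mul _ hi _ hj, eE.sQ.ρ_inv hi, eE.sQ.ρ_inv hj,
        hρi, hρj, ← commutatorElement_def, BlockCentralizer.commutator_sI_sJ eE.h3]
    have hgQ : ∀ v ∈ pCoreOf 3 F, eF.sQ.ψ (g * v * g⁻¹) = eF.sQ.ψ v := by
      obtain ⟨a, ha⟩ := hsc i hi
      obtain ⟨a', ha'⟩ := hsc i⁻¹ (inv_mem hi)
      obtain ⟨b, hb⟩ := hsc j hj
      obtain ⟨b', hb'⟩ := hsc j⁻¹ (inv_mem hj)
      have hQm : ∀ {e v : G}, e ∈ E → v ∈ pCoreOf 3 F → e * v * e⁻¹ ∈ pCoreOf 3 F := fun he hv =>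
        (Subgroup.mem_normalizer_iff.1 (norm_core (hEF he)) _).1 hv
      intro v hv
      have e1 : eF.sQ.ψ v = (a * a') • eF.sQ.ψ v := by
        rw [mul_smul, ← ha' v hv, ← ha _ (hQm (inv_mem hi) hv)]
        exact congrArg eF.sQ.ψ (by group)
      have e2 : eF.sQ.ψ v = (b * b') • eF.sQ.ψ v := by
        rw [mul_smul, ← hb' v hv, ← hb _ (hQm (inv_mem hj) hv)]
        exact congrArg eF.sQ.ψ (by group)
      rw [hg, commutatorElement_def, show i * j * i⁻¹ * j⁻¹ * v * (i * j * i⁻¹ * j⁻¹)⁻¹ =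
        i * (j * (i⁻¹ * (j⁻¹ * v * j⁻¹⁻¹) * i⁻¹⁻¹) * j⁻¹) * i⁻¹ by group,
        ha _ (hQm hj (hQm (inv_mem hi) (hQm (inv_mem hj) hv))), hb _ (hQm (inv_mem hi) (hQm (inv_mem hj) hv)),
        ha' _ (hQm (inv_mem hj) hv), hb' _ hv, smul_smul, smul_smul, smul_smul,
        show a * b * a' * b' = (a * a') * (b * b') by ring, mul_smul, ← e2, ← e1]
    obtain ⟨k, hk⟩ := NormalPComplement.exists_pow_coprime_orderOf (p := 3) (isOfFinOrder_of_finite g)
    have hgN := hEF hgE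
    have hstab : g ∈ stab (pCoreOf 3 F) (blockW 3 F) := ⟨⟨norm_core hgN, norm_W hgN⟩, fun v hv =>
      (eF.sQ.ψ_eq_iff hv ((Subgroup.mem_normalizer_iff.1 (norm_core hgN) v).1 hv)).1 (hgQ v hv).symm⟩
    have hgW : g ∈ Subgroup.centralizer (blockW 3 F : Set G) := by
      refine Subgroup.mem_centralizer_iff.2 fun w hw => ?_
      obtain ⟨v, hv, t, ht, rfl⟩ := exists_mul_Z hF hw
      have a1 : v * g = g * v := ((Subgroup.commutator_eq_bot_iff_le_centralizer.1 h2) hv g hgE).symm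
      have a2 : t * g = g * t := Subgroup.mem_centralizer_singleton_iff.1 (fix_Z eF.hQQ (fun q hq => hstab.2 q hq) ht)
      rw [mul_assoc, a2, ← mul_assoc, a1, mul_assoc]
    have hfix := stab_trans (D := (⊥ : Subgroup G))
      (((CfsgLib.Cores.isPGroup_pCore 3 F).map F.subtype).to_le blockW_le) blockW_le hk (pow_mem hstab _)
      (mem_stab_bot (pow_mem hgW _))
    intro y hy
    have hg' := pow_mem hgE (3 ^ k)
    have h5 := eE.sQ.ψ_conj _ hg' y hy.1
    rw [stab_bot hfix hy.2, mul_inv_cancel_right, eE.sQ.ρ_pow hgE, hρg, BlockCentralizer.neg_one_pow_three] at h5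
    refine (eE.sQ.ψ_ker y hy.1).1 ?_
    simp [Matrix.neg_mulVec] at h5
    funext i
    have h6 := congrFun h5 i
    simp only [Pi.neg_apply, Pi.zero_apply] at h6 ⊢
    linear_combination (eE.sQ.ψ y i) * eE.h3 - h6
  have h5 : ⁅E, F⁆ ≤ blockW 3 E := (le_inf h1 h4).trans hYW
  refine commutator_eq_bot_of hF.1 hFN hWp h5 ?_
  rw [Subgroup.commutator_eq_bot_iff_le_centralizer]
  intro w hw
  refine Subgroup.mem_centralizer_iff.2 fun f hf => ?_
  obtain ⟨v, hv, t, ht, rfl⟩ := exists_mul_Z hE hw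
  have a1 : f * v = v * f := (Subgroup.mem_centralizer_iff.1 (hFC hf) v hv).symm
  have a2 : f * t = t * f := (Subgroup.mem_centralizer_singleton_iff.1 (fix_Z eE.hQQ (fun q hq => by
    have := h5 (Subgroup.commutator_mem_commutator (inv_mem (Replacement.Block.pCoreOf_le_self hq)) hf)
    simpa [commutatorElement_def, mul_assoc] using this) ht)).symm
  rw [← mul_assoc, a1, mul_assoc, a2, mul_assoc]

end CfsgLib.FFModules.BlockNormal
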