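import Cfsg.Agent.Lib.FFModules.BlockNormal.Sections
import Mathlib.Data.Fintype.Perm
import Mathlib.Data.Fintype.Pi

/-!
An additive automorphism of the even vectors normalising the alternating group is a permutation.
-/

set_option autoImplicit false
set_option linter.style.haveILetI false

open Equiv

namespace CfsgLib.FFModules.BlockNormal

open CfsgLib.TwoGroupTricks.NaturalModules (pairVec pairVec_comp)

variable {n : ℕ}

/-- Permuting coordinates. -/
def mv (σ : Perm (Fin n)) (v : Fin n → ZMod 2) : Fin n → ZMod 2 := fun i => v (σ⁻¹ i)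

theorem mv_mul (σ τ : Perm (Fin n)) (v : Fin n → ZMod 2) : mv (σ * τ) v = mv σ (mv τ v) := by
  funext i; simp [mv]

theorem mv_even (σ : Perm (Fin n)) {v : Fin n → ZMod 2} (hv : ∑ i, v i = 0) : ∑ i, mv σ v i = 0 :=
  (Equiv.sum_comp σ⁻¹ v).trans hv

theorem pairVec_even (a b : Fin n) : ∑ i, pairVec a b i = 0 := by
  simp [pairVec, Finset.sum_add_distrib]; decide

/-- The support. -/
def supp (v : Fin n → ZMod 2) : Finset (Fin n) := Finset.univ.filter fun i => v i = 1

theorem eq_of_supp_eq {u v : Fin n → ZMod 2} (h : supp u = supp v) : u = v := by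
  funext i
  have h1 : u i = 1 ↔ v i = 1 := by simpa [supp] using Finset.ext_iff.1 h i
  revert h1
  generalize u i = a
  generalize v i = b
  revert a b
  decide

theorem supp_pairVec {a b : Fin n} (h : a ≠ b) : supp (pairVec a b) = {a, b} := by
  ext i
  by_cases ha : i = a
  · subst ha; simp [supp, pairVec, Pi.single_apply, h]
  · by_cases hb : i = b <;> simp [supp, pairVec, Pi.single_apply, ha, hb, h.symm]

theorem card_inter_of_add {u v : Fin n → ZMod 2} (hu : (supp u).card = 2) (hv : (supp v).card = 2)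
    (huv : (supp (u + v)).card = 2) : (supp u ∩ supp v).card = 1 := by
  have key : ∀ x y : ZMod 2, (x + y = 1 ↔ (x = 1 ∧ ¬ y = 1) ∨ (y = 1 ∧ ¬ x = 1)) := by decide
  have h : supp (u + v) = (supp u \ supp v) ∪ (supp v \ supp u) := by
    ext i; simp [supp, key]
  have hd : Disjoint (supp u \ supp v) (supp v \ supp u) := disjoint_sdiff_sdiff
  rw [h, Finset.card_union_of_disjoint hd] at huv
  have h1 := Finset.card_sdiff_add_card_inter (supp u) (supp v)
  have h2 := Finset.card_sdiff_add_card_inter (supp v) (supp u)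
  rw [Finset.inter_comm (supp v)] at h2
  omega

/-- Four or more pairs meeting pairwise in a point have a common point. -/
theorem common_point {α β : Type*} [DecidableEq β] {S : Finset α} (s : α → Finset β) (hS : 4 ≤ S.card)
    (h2 : ∀ a ∈ S, (s a).card = 2) (hint : ∀ a ∈ S, ∀ b ∈ S, a ≠ b → (s a ∩ s b).card = 1) :
    ∃ x, ∀ a ∈ S, x ∈ s a := by
  classical
  obtain ⟨a, b, ha, hb, hab⟩ := Finset.one_lt_card_iff.1 (show 1 < S.card by omega)
  obtain ⟨x, hx⟩ := Finset.card_eq_one.1 (hint a ha b hb hab)
  have hxa : x ∈ s a := (Finset.mem_inter.1 (hx ▸ Finset.mem_singleton_self x)).1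
  have hxb : x ∈ s b := (Finset.mem_inter.1 (hx ▸ Finset.mem_singleton_self x)).2
  refine ⟨x, fun c hc => ?_⟩
  by_contra hxc
  have hca : c ≠ a := fun h => hxc (h ▸ hxa)
  have hcb : c ≠ b := fun h => hxc (h ▸ hxb)
  obtain ⟨y, hy⟩ := Finset.card_eq_one.1 (hint c hc a ha hca)
  obtain ⟨z, hz⟩ := Finset.card_eq_one.1 (hint c hc b hb hcb)
  have hy1 := Finset.mem_inter.1 (hy ▸ Finset.mem_singleton_self y)
  have hz1 := Finset.mem_inter.1 (hz ▸ Finset.mem_singleton_self z)
  have hyx : y ≠ x := fun h => hxc (h ▸ hy1.1)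
  have hzx : z ≠ x := fun h => hxc (h ▸ hz1.1)
  have hyz : y ≠ z := fun h => hyx (by
    have : y ∈ s a ∩ s b := Finset.mem_inter.2 ⟨hy1.2, h ▸ hz1.2⟩
    rw [hx] at this; exact Finset.mem_singleton.1 this)
  have hsc : ({y, z} : Finset β) = s c := Finset.eq_of_subset_of_card_le
    (by simp [Finset.insert_subset_iff, hy1.1, hz1.1]) (by rw [h2 c hc, Finset.card_pair hyz])
  have hsa : ({x, y} : Finset β) = s a := Finset.eq_of_subset_of_card_le
    (by simp [Finset.insert_subset_iff, hxa, hy1.2]) (by rw [h2 a ha, Finset.card_pair hyx.symm])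
  have hsb : ({x, z} : Finset β) = s b := Finset.eq_of_subset_of_card_le
    (by simp [Finset.insert_subset_iff, hxb, hz1.2]) (by rw [h2 b hb, Finset.card_pair hzx.symm])
  obtain ⟨d, hd, hd'⟩ : ∃ d ∈ S, d ∉ ({a, b, c} : Finset α) := Finset.exists_mem_notMem_of_card_lt_card
    (lt_of_le_of_lt Finset.card_le_three (by omega))
  simp only [Finset.mem_insert, Finset.mem_singleton, not_or] at hd'
  have hda := hint d hd a ha hd'.1
  have hdb := hint d hd b hb hd'.2.1
  have hdc := hint d hd c hc hd'.2.2
  rw [← hsa] at hda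
  rw [← hsb] at hdb
  rw [← hsc] at hdc
  by_cases e1 : x ∈ s d <;> by_cases e2 : y ∈ s d <;> by_cases e3 : z ∈ s d <;>
    simp [e1, e2, e3, hyx, hyx.symm, hzx, hzx.symm, hyz, Finset.inter_insert_of_mem,
      Finset.inter_insert_of_notMem, Finset.inter_singleton_of_mem, Finset.inter_singleton_of_notMem] at hda hdb hdc

variable {m : ℕ}

local notation "N" => 2 * m + 1

theorem exists_pair_image (hm : 2 ≤ m) (T : (Fin N → ZMod 2) →+ (Fin N → ZMod 2))
    (hsurj : ∀ w : Fin N → ZMod 2, ∑ i, w i = 0 → ∃ v, ∑ i, v i = 0 ∧ T v = w)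
    (hinj : ∀ v : Fin N → ZMod 2, ∑ i, v i = 0 → T v = 0 → v = 0)
    (hev : ∀ v : Fin N → ZMod 2, ∑ i, v i = 0 → ∑ i, T v i = 0)
    (hR : ∀ σ' ∈ alternatingGroup (Fin N), ∃ σ ∈ alternatingGroup (Fin N),
      ∀ v : Fin N → ZMod 2, ∑ i, v i = 0 → T (mv σ' v) = mv σ (T v))
    {a b : Fin N} (hab : a ≠ b) : (supp (T (pairVec a b))).card = 2 := by
  classical
  have htwo : ∀ x : ZMod 2, x + x = 0 := by decide
  obtain ⟨c, hc⟩ : ∃ c, c ∉ ({a, b} : Finset (Fin N)) := by
    by_contra! h
    have := Finset.card_le_card (fun x _ => h x : (Finset.univ : Finset (Fin N)) ⊆ {a, b})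
    have h2 := Finset.card_le_two (a := a) (b := b)
    rw [Finset.card_univ, Fintype.card_fin] at this
    omega
  simp only [Finset.mem_insert, Finset.mem_singleton, not_or] at hc
  obtain ⟨hca', hcb'⟩ := hc
  have hca : c ≠ a := hca'
  have hcb : c ≠ b := hcb'
  set σ' : Perm (Fin N) := swap a b * swap b c
  have hσ' : σ' ∈ alternatingGroup (Fin N) := by
    rw [Perm.mem_alternatingGroup, map_mul, Perm.sign_swap hab, Perm.sign_swap hcb.symm]; rfl
  have hout : ∀ i, i ≠ a → i ≠ b → i ≠ c → σ'⁻¹ i = i := fun i h1 h2 h3 => by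
    simp [σ', Equiv.swap_apply_of_ne_of_ne h1 h2, Equiv.swap_apply_of_ne_of_ne h2 h3]
  obtain ⟨σ, hσA, hσ⟩ := hR σ' hσ'
  -- the image of `σ' - 1` has at most four elements
  have himg : ∀ v : Fin N → ZMod 2, ∑ i, v i = 0 →
      mv σ' v + v ∈ ({0, pairVec a b, pairVec b c, pairVec a c} : Finset (Fin N → ZMod 2)) := by
    intro v hv
    set u := mv σ' v + v
    have hu0 : ∀ i, i ≠ a → i ≠ b → i ≠ c → u i = 0 := fun i h1 h2 h3 => by
      simp only [u, Pi.add_apply, mv, hout i h1 h2 h3, htwo]
    have hsum : u a + u b + u c = 0 := by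
      have hs : ∑ i, u i = 0 := by
        simp only [u, Pi.add_apply, Finset.sum_add_distrib, mv_even σ' hv, hv, add_zero]
      rw [← Finset.sum_subset (Finset.subset_univ ({a, b, c} : Finset (Fin N)))
        (fun i _ hi => by simp only [Finset.mem_insert, Finset.mem_singleton, not_or] at hi
                          exact hu0 i hi.1 hi.2.1 hi.2.2),
        Finset.sum_insert (by simp [hab, hca.symm]), Finset.sum_pair hcb.symm] at hs
      rw [← hs]; ring
    have hext : ∀ w : Fin N → ZMod 2, w a = u a → w b = u b → w c = u c →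
        (∀ i, i ≠ a → i ≠ b → i ≠ c → w i = 0) → u = w := fun w e1 e2 e3 e4 => funext fun i => by
      by_cases h1 : i = a
      · rw [h1, e1]
      by_cases h2 : i = b
      · rw [h2, e2]
      by_cases h3 : i = c
      · rw [h3, e3]
      rw [hu0 i h1 h2 h3, e4 i h1 h2 h3]
    have hz : ∀ x y z : ZMod 2, x + y + z = 0 →
        (x = 0 ∧ y = 0 ∧ z = 0) ∨ (x = 1 ∧ y = 1 ∧ z = 0) ∨ (x = 0 ∧ y = 1 ∧ z = 1) ∨ (x = 1 ∧ y = 0 ∧ z = 1) := by
      decide
    simp only [Finset.mem_insert, Finset.mem_singleton]
    rcases hz _ _ _ hsum with ⟨e1, e2, e3⟩ | ⟨e1, e2, e3⟩ | ⟨e1, e2, e3⟩ | ⟨e1, e2, e3⟩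
    · left; exact hext 0 e1.symm e2.symm e3.symm fun _ _ _ _ => rfl
    · right; left; refine hext _ ?_ ?_ ?_ fun i h1 h2 h3 => ?_ <;>
        simp [pairVec, Pi.single_apply, hab, hab.symm, hca, hcb, *]
    · right; right; left; refine hext _ ?_ ?_ ?_ fun i h1 h2 h3 => ?_ <;>
        simp [pairVec, Pi.single_apply, hab, hab.symm, hca.symm, hcb, hcb.symm, *]
    · right; right; right; refine hext _ ?_ ?_ ?_ fun i h1 h2 h3 => ?_ <;>
        simp [pairVec, Pi.single_apply, hab.symm, hca, hca.symm, hcb.symm, *]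
  -- the vector `pairVec a b` is in the image
  have hab' : pairVec a b = mv σ' (pairVec b c) + pairVec b c := by
    have e1 : σ' b = c := by simp [σ', Equiv.swap_apply_of_ne_of_ne hca hcb]
    have e2 : σ' c = a := by simp [σ']
    show _ = (fun i => pairVec b c (σ'⁻¹ i)) + _
    rw [pairVec_comp, e1, e2]
    funext i
    simp only [pairVec, Pi.add_apply]
    generalize (Pi.single a 1 : Fin N → ZMod 2) i = x
    generalize (Pi.single b 1 : Fin N → ZMod 2) i = y
    generalize (Pi.single c 1 : Fin N → ZMod 2) i = z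
    revert x y z; decide
  have hne : T (pairVec a b) ≠ 0 := fun h => by
    have := congrFun (hinj _ (pairVec_even a b) h) a
    simp [pairVec, Pi.single_apply, hab] at this
  have hσ3 : ∀ i, σ (σ (σ i)) = i := by
    have ea : σ' a = b := by simp [σ', Equiv.swap_apply_of_ne_of_ne hab hca.symm]
    have eb : σ' b = c := by simp [σ', Equiv.swap_apply_of_ne_of_ne hca hcb]
    have ec : σ' c = a := by simp [σ']
    have hcube : σ' * (σ' * σ') = 1 := by
      refine Equiv.ext fun i => ?_
      show σ' (σ' (σ' i)) = i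
      by_cases h1 : i = a
      · subst h1; rw [ea, eb, ec]
      by_cases h2 : i = b
      · subst h2; rw [eb, ec, ea]
      by_cases h3 : i = c
      · subst h3; rw [ec, ea, eb]
      have h : σ' i = i := (Perm.inv_eq_iff_eq.1 (hout i h1 h2 h3)).symm
      rw [h, h, h]
    have h3 : σ * (σ * σ) = 1 := perm_eq_one_of_fixes fun w hw i => by
      obtain ⟨v, hv, rfl⟩ := hsurj w hw
      show mv (σ * (σ * σ)) (T v) i = T v i
      rw [mv_mul, mv_mul, ← hσ v hv, ← hσ _ (mv_even σ' hv), ← hσ _ (mv_even σ' (mv_even σ' hv)),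
        ← mv_mul, ← mv_mul, mul_assoc, hcube]
      rfl
    intro i
    simpa using congrArg (fun τ : Perm (Fin N) => τ i) h3
  have hTab : T (pairVec a b) = mv σ (T (pairVec b c)) + T (pairVec b c) := by
    conv_lhs => rw [hab', map_add, hσ _ (pairVec_even b c)]
  obtain ⟨x, hx⟩ : ∃ x, σ x ≠ x := by
    by_contra! h
    have h1 : σ = 1 := Equiv.ext h
    exact hne (by rw [hTab, h1]; exact funext fun i => htwo _)
  set y := σ x
  set z := σ y
  have hxy : x ≠ y := hx.symm
  have hyz : y ≠ z := fun h => hxy (σ.injective h)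
  have hxz : x ≠ z := fun h => hx (by
    have h3 : σ z = x := hσ3 x
    rwa [← h] at h3)
  have hfix : ∀ d, d ≠ x → d ≠ y → d ≠ z → σ d = d := by
    intro d hdx hdy hdz
    by_contra hd
    have hze : ∀ i, σ i ≠ d → i ≠ σ⁻¹ d := fun i h e => h (by rw [e]; simp)
    have hσdx : σ d ≠ x := fun h => hdz (σ.injective (h.trans (hσ3 x).symm))
    have hσdy : σ d ≠ y := fun h => hdx (σ.injective h)
    have hσdz : σ d ≠ z := fun h => hdy (σ.injective h)
    let u : Fin N → ZMod 2 := mv σ (pairVec x d) + pairVec x d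
    have hall : ∀ w : Fin N → ZMod 2, ∑ i, w i = 0 →
        mv σ w + w ∈ ({0, pairVec a b, pairVec b c, pairVec a c} : Finset (Fin N → ZMod 2)).image T := by
      intro w hw
      obtain ⟨v, hv, rfl⟩ := hsurj w hw
      exact Finset.mem_image.2 ⟨_, himg v hv, by rw [map_add, hσ v hv]⟩
    have hp : ∀ p q, mv σ (pairVec p q) = pairVec (σ p) (σ q) := fun p q => pairVec_comp σ p q
    have h5 : ({0, pairVec x z, pairVec y x, pairVec z y, u} : Finset (Fin N → ZMod 2)) ⊆
        ({0, pairVec a b, pairVec b c, pairVec a c} : Finset (Fin N → ZMod 2)).image T := by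
      have hzx : σ z = x := hσ3 x
      have hcomb : ∀ p q r : Fin N, pairVec q r + pairVec p q = pairVec p r := fun p q r => by
        funext i
        simp only [pairVec, Pi.add_apply]
        generalize (Pi.single p 1 : Fin N → ZMod 2) i = s
        generalize (Pi.single q 1 : Fin N → ZMod 2) i = t
        generalize (Pi.single r 1 : Fin N → ZMod 2) i = u
        revert s t u; decide
      simp only [Finset.insert_subset_iff, Finset.singleton_subset_iff]
      refine ⟨?_, ?_, ?_, ?_, hall _ (pairVec_even x d)⟩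
      · have := hall 0 (by simp)
        simpa [mv, Pi.add_def] using this
      · have := hall _ (pairVec_even x y)
        rwa [hp, hcomb] at this
      · have := hall _ (pairVec_even y z)
        rwa [hp, show σ y = z from rfl, hzx, hcomb] at this
      · have := hall _ (pairVec_even z x)
        rwa [hp, hzx, show σ x = y from rfl, hcomb] at this
    have h4 : (({0, pairVec a b, pairVec b c, pairVec a c} : Finset (Fin N → ZMod 2)).image T).card ≤ 4 :=
      Finset.card_image_le.trans Finset.card_le_four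
    have hud : u d = 1 := by
      show (mv σ (pairVec x d) + pairVec x d) d = 1
      rw [hp]
      simp [pairVec, Pi.single_apply, hdx, Ne.symm hd, show d ≠ σ x from hdy]
    have hn0 : ∀ p q : Fin N, d ≠ p → d ≠ q → pairVec p q d = 0 := fun p q h1 h2 => by
      simp [pairVec, h1, h2]
    have hcard := Finset.card_le_card h5
    have e5 : ({0, pairVec x z, pairVec y x, pairVec z y, u} : Finset (Fin N → ZMod 2)).card = 5 := by
      have hu : ∀ p q : Fin N, d ≠ p → d ≠ q → u ≠ pairVec p q := fun p q h1 h2 e => by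
        rw [e, hn0 p q h1 h2] at hud; exact zero_ne_one hud
      have hu0 : u ≠ 0 := fun e => by rw [e] at hud; exact zero_ne_one hud
      have hp0 : ∀ p q : Fin N, p ≠ q → pairVec p q ≠ 0 := fun p q h e => by
        have := congrFun e p
        simp [pairVec, Pi.single_apply, h] at this
      have hpq : ∀ p q p' q' : Fin N, p ≠ q → p ≠ p' → p ≠ q' → pairVec p q ≠ pairVec p' q' := fun p q p' q' h h1 h2 e => by
        have := congrFun e p
        simp [pairVec, Pi.single_apply, h, h1, h2] at this
      rw [Finset.card_insert_of_notMem, Finset.card_insert_of_notMem, Finset.card_insert_of_notMem,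
        Finset.card_insert_of_notMem, Finset.card_singleton]
      · simp only [Finset.mem_singleton]; exact (hu z y hdz hdy).symm
      · simp only [Finset.mem_insert, Finset.mem_singleton, not_or]
        exact ⟨(hpq z y y x hyz.symm hyz.symm hxz.symm).symm, (hu y x hdy hdx).symm⟩
      · simp only [Finset.mem_insert, Finset.mem_singleton, not_or]
        exact ⟨(hpq y x x z hxy.symm hxy.symm hyz).symm, hpq x z z y hxz hxz hxy, (hu x z hdx hdz).symm⟩
      · simp only [Finset.mem_insert, Finset.mem_singleton, not_or]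
        exact ⟨(hp0 x z hxz).symm, (hp0 y x hxy.symm).symm, (hp0 z y hyz.symm).symm, hu0.symm⟩
    omega
  -- so the image is supported on three points
  set w := T (pairVec a b)
  have hwev : ∑ i, w i = 0 := hev _ (pairVec_even a b)
  have hsub : supp w ⊆ {x, y, z} := fun i hi => by
    by_contra h
    simp only [Finset.mem_insert, Finset.mem_singleton, not_or] at h
    have hfi : σ⁻¹ i = i := by
      rw [Perm.inv_eq_iff_eq]; exact (hfix i h.1 h.2.1 h.2.2).symm
    have : w i = 0 := by
      rw [hTab, Pi.add_apply]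
      show T (pairVec b c) (σ⁻¹ i) + _ = 0
      rw [hfi]; exact htwo _
    simp [supp, this] at hi
  have hcard : (supp w).card ≤ 3 := (Finset.card_le_card hsub).trans Finset.card_le_three
  have hpar : ((supp w).card : ZMod 2) = 0 := by
    rw [← hwev, supp, Finset.card_filter, Nat.cast_sum]
    refine Finset.sum_congr rfl fun i _ => ?_
    generalize w i = t
    revert t; decide
  have h0 : (supp w).card ≠ 0 := fun h => hne (eq_of_supp_eq (by
    rw [Finset.card_eq_zero.1 h]; simp [supp]))
  rw [ZMod.natCast_eq_zero_iff_even] at hpar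
  obtain ⟨k, hk⟩ := hpar
  omega

set_option synthInstance.maxSize 1000 in
set_option maxSynthPendingDepth 10 in
theorem three_key : ∀ x y : Fin 3 → ZMod 2, ∑ i, x i = 0 → ∑ i, y i = 0 → x ≠ 0 → y ≠ 0 → x ≠ y →
    ∃ π : Perm (Fin 3), pairVec (π 0) (π 1) = x ∧ pairVec (π 1) (π 2) = y := by decide +kernel

theorem three_facts : (pairVec 0 2 : Fin 3 → ZMod 2) = pairVec 0 1 + pairVec 1 2 ∧
    (∀ p q r : Fin 3, pairVec p q + pairVec q r = pairVec p r) ∧
    (pairVec 0 1 : Fin 3 → ZMod 2) ≠ 0 ∧ (pairVec 1 2 : Fin 3 → ZMod 2) ≠ 0 ∧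
    (pairVec 0 1 + pairVec 1 2 : Fin 3 → ZMod 2) ≠ 0 := by decide +kernel

/-- An additive automorphism of the even vectors normalising the alternating group is a permutation. -/
theorem exists_perm (hm : 1 ≤ m) (T : (Fin N → ZMod 2) →+ (Fin N → ZMod 2))
    (hsurj : ∀ w : Fin N → ZMod 2, ∑ i, w i = 0 → ∃ v, ∑ i, v i = 0 ∧ T v = w)
    (hinj : ∀ v : Fin N → ZMod 2, ∑ i, v i = 0 → T v = 0 → v = 0)
    (hev : ∀ v : Fin N → ZMod 2, ∑ i, v i = 0 → ∑ i, T v i = 0)
    (hR : ∀ σ' ∈ alternatingGroup (Fin N), ∃ σ ∈ alternatingGroup (Fin N),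
      ∀ v : Fin N → ZMod 2, ∑ i, v i = 0 → T (mv σ' v) = mv σ (T v)) :
    ∃ π : Perm (Fin N), ∀ v : Fin N → ZMod 2, ∑ i, v i = 0 → T v = mv π v := by
  classical
  suffices hπ : ∃ π : Perm (Fin N), ∀ i j, i ≠ j → T (pairVec i j) = pairVec (π i) (π j) by
    obtain ⟨π, hπ⟩ := hπ
    refine ⟨π, fun v hv => ?_⟩
    have hi0 : v = ∑ l, (if v l = 1 ∧ l ≠ 0 then pairVec l 0 else 0) := by
      funext i
      rw [Finset.sum_apply]
      by_cases hi : i = 0
      · subst hi
        have e : ∀ l, (if v l = 1 ∧ l ≠ 0 then pairVec l 0 else 0) 0 = v l + (if l = 0 then v 0 else 0) := by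
          intro l
          by_cases hl : l = 0
          · subst hl
            simp only [ne_eq, not_true, and_false, if_false, if_true, Pi.zero_apply]
            generalize v 0 = t; revert t; decide
          · rcases (by decide : ∀ t : ZMod 2, t = 0 ∨ t = 1) (v l) with e | e <;>
              simp [hl, e, pairVec, Pi.single_apply, Ne.symm hl]
        rw [Finset.sum_congr rfl fun l _ => e l, Finset.sum_add_distrib, hv, zero_add,
          Finset.sum_ite_eq' _ 0, if_pos (Finset.mem_univ _)]
      · rw [Finset.sum_eq_single i]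
        · rcases (by decide : ∀ t : ZMod 2, t = 0 ∨ t = 1) (v i) with e | e <;>
            simp [hi, e, pairVec, Pi.single_apply]
        · intro l _ hl
          split_ifs <;> simp [pairVec, Pi.single_apply, hi, Ne.symm hl]
        · simp
    conv_lhs => rw [hi0, map_sum]
    conv_rhs => rw [hi0]
    funext i
    simp only [mv, Finset.sum_apply]
    refine Finset.sum_congr rfl fun l _ => ?_
    split_ifs with h
    · rw [hπ l 0 h.2, ← pairVec_comp π]
    · simp
  by_cases hm1 : m = 1
  · subst hm1
    obtain ⟨e02, hall, n01, n12, nsum⟩ := three_facts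
    have h01 := pairVec_even (n := 3) 0 1
    have h12 := pairVec_even (n := 3) 1 2
    have hsum : ∑ i, (pairVec 0 1 + pairVec 1 2 : Fin 3 → ZMod 2) i = 0 := by
      simp [Finset.sum_add_distrib, pairVec_even]
    have htwo : ∀ t : ZMod 2, t + t = 0 := by intro t; revert t; decide
    obtain ⟨π, hx, hy⟩ := three_key _ _ (hev _ h01) (hev _ h12)
      (fun h => n01 (hinj _ h01 h)) (fun h => n12 (hinj _ h12 h))
      (fun h => nsum (hinj _ hsum (by rw [map_add, h]; exact funext fun i => htwo _)))
    have h02 : T (pairVec 0 2) = pairVec (π 0) (π 2) := by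
      rw [e02, map_add, ← hx, ← hy]
      exact hall _ _ _
    have hsymm : ∀ p q : Fin 3, pairVec p q = pairVec q p := fun p q => by simp only [pairVec, add_comm]
    refine ⟨π, fun i j hij => ?_⟩
    fin_cases i <;> fin_cases j <;>
      first
        | exact absurd rfl hij
        | exact hx.symm
        | exact hy.symm
        | exact h02
        | (rw [hsymm, hsymm (π _)]; first | exact hx.symm | exact hy.symm | exact h02)
  have h2 : ∀ {i j : Fin N}, i ≠ j → (supp (T (pairVec i j))).card = 2 := fun h =>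
    exists_pair_image (by omega) T hsurj hinj hev hR h
  have hne : ∀ {i j k l : Fin N}, i ≠ j → T (pairVec i j) = T (pairVec k l) → pairVec i j = pairVec k l := by
    intro i j k l _ h
    refine sub_eq_zero.1 (hinj _ ?_ (by rw [map_sub, h, sub_self]))
    simp [Finset.sum_sub_distrib, pairVec_even]
  have hinjj : ∀ {i j k : Fin N}, j ≠ i → k ≠ i → j ≠ k → pairVec i j ≠ pairVec i k := fun {i j k} hj hk hjk e => by
    have := congrFun e j
    simp [pairVec, Pi.single_apply, hj, hjk] at this
  have hstar : ∀ i : Fin N, ∃ x, ∀ j ∈ Finset.univ.erase i, x ∈ supp (T (pairVec i j)) := by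
    intro i
    refine common_point _ ?_ (fun j hj => h2 (Finset.ne_of_mem_erase hj).symm) fun j hj k hk hjk => ?_
    · rw [Finset.card_erase_of_mem (Finset.mem_univ i), Finset.card_univ, Fintype.card_fin]; omega
    · refine card_inter_of_add (h2 (Finset.ne_of_mem_erase hj).symm) (h2 (Finset.ne_of_mem_erase hk).symm) ?_
      rw [← map_add, show pairVec i j + pairVec i k = pairVec j k by
        funext l
        simp only [pairVec, Pi.add_apply]
        generalize (Pi.single i 1 : Fin N → ZMod 2) l = s
        generalize (Pi.single j 1 : Fin N → ZMod 2) l = t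
        generalize (Pi.single k 1 : Fin N → ZMod 2) l = u
        revert s t u; decide]
      exact h2 hjk
  choose f hf using hstar
  have hfi : Function.Injective f := by
    intro i j hij
    by_contra hne'
    -- the two stars lie in one star
    set S := (Finset.univ.erase i).image fun k => supp (T (pairVec i k))
    set S' := (Finset.univ.erase j).image fun k => supp (T (pairVec j k))
    have hSsub : ∀ s ∈ S ∪ S', s ∈ (Finset.univ.erase (f i)).image fun q => ({f i, q} : Finset (Fin N)) := by
      intro s hs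
      obtain ⟨hx, hc⟩ : f i ∈ s ∧ s.card = 2 := by
        rcases Finset.mem_union.1 hs with h | h
        · obtain ⟨k, hk, rfl⟩ := Finset.mem_image.1 h
          exact ⟨hf i k hk, h2 (Finset.ne_of_mem_erase hk).symm⟩
        · obtain ⟨k, hk, rfl⟩ := Finset.mem_image.1 h
          exact ⟨hij ▸ hf j k hk, h2 (Finset.ne_of_mem_erase hk).symm⟩
      obtain ⟨p, q, hpq, rfl⟩ := Finset.card_eq_two.1 hc
      simp only [Finset.mem_insert, Finset.mem_singleton] at hx
      rcases hx with rfl | rfl
      · exact Finset.mem_image.2 ⟨q, by simp [hpq.symm], rfl⟩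
      · exact Finset.mem_image.2 ⟨p, by simp [hpq], Finset.pair_comm _ _⟩
    have hle := (Finset.card_le_card hSsub).trans Finset.card_image_le
    have hS : ∀ l : Fin N, ((Finset.univ.erase l).image fun k => supp (T (pairVec l k))).card = N - 1 := fun l => by
      rw [Finset.card_image_of_injOn, Finset.card_erase_of_mem (Finset.mem_univ l), Finset.card_univ, Fintype.card_fin]
      intro k hk k' hk' he
      by_contra hkk
      exact hinjj (Finset.ne_of_mem_erase hk) (Finset.ne_of_mem_erase hk') hkk
        (hne (Finset.ne_of_mem_erase hk).symm (eq_of_supp_eq he))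
    rw [Finset.card_erase_of_mem (Finset.mem_univ _), Finset.card_univ, Fintype.card_fin] at hle
    obtain ⟨k, hk⟩ : ∃ k, k ∉ ({i, j} : Finset (Fin N)) := by
      by_contra! h
      have := Finset.card_le_card (fun x _ => h x : (Finset.univ : Finset (Fin N)) ⊆ {i, j})
      have h2 := Finset.card_le_two (a := i) (b := j)
      rw [Finset.card_univ, Fintype.card_fin] at this
      omega
    simp only [Finset.mem_insert, Finset.mem_singleton, not_or] at hk
    have hnot : supp (T (pairVec j k)) ∉ S := fun h => by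
      obtain ⟨l, hl, he⟩ := Finset.mem_image.1 h
      have e := congrFun (hne (Finset.ne_of_mem_erase hl).symm (eq_of_supp_eq he)) i
      simp [pairVec, Pi.single_apply, Ne.symm (Finset.ne_of_mem_erase hl), hne', Ne.symm hk.1] at e
    have hlt : S.card < (S ∪ S').card := Finset.card_lt_card (Finset.ssubset_iff_of_subset Finset.subset_union_left |>.2
      ⟨_, Finset.mem_union_right _ (Finset.mem_image.2 ⟨k, by simp [hk.2], rfl⟩), hnot⟩)
    have : S.card = N - 1 := hS i
    omega
  refine ⟨Equiv.ofBijective f (Finite.injective_iff_bijective.1 hfi), fun i j hij => eq_of_supp_eq ?_⟩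
  show supp _ = supp (pairVec (f i) (f j))
  rw [supp_pairVec (hfi.ne hij)]
  refine (Finset.eq_of_subset_of_card_le ?_ (by rw [h2 hij, Finset.card_pair (hfi.ne hij)])).symm
  simp only [Finset.insert_subset_iff, Finset.singleton_subset_iff]
  refine ⟨hf i j (by simp [hij.symm]), ?_⟩
  have := hf j i (by simp [hij])
  rwa [show pairVec j i = pairVec i j by simp only [pairVec, add_comm]] at this

end CfsgLib.FFModules.BlockNormal
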