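import Cfsg.Agent.Lib.FFModules.BlockNormal.Baumann
import Cfsg.Agent.Lib.FFModules.BlockNormal.Commute
import Cfsg.Agent.Lib.FFModules.BlockNormal.Even

/-!
A subgroup generated by `p'`-elements, equal to its commutator with the Baumann subgroup and normalising a
subnormal block, acts on the module of the block as a subgroup of the block.
-/

set_option autoImplicit false
set_option linter.style.haveILetI false

open Matrix
open scoped MatrixGroups commutatorElement

namespace CfsgLib.FFModules.BlockNormal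

open Cfsg
open CfsgLib.FFModules.BlockCentralizer (NatSec natSec_of_acts)
open CfsgLib.Replacement.Block (coreU coreU_le coreU_normal blockW blockWE blockZ blockW_le facts_of_block
  card_eq_of_section omegaOneCenter_pow)

variable {G : Type*} [Group G] [Finite G] {p : ℕ} [Fact p.Prime]

theorem exists_act_even {n : ℕ} (hn : Odd n) {E V V₀ : Subgroup G} (s : EvenSec p n E V V₀) {g : G}
    (hgV : g ∈ Subgroup.normalizer (V : Set G)) (hg₀ : g ∈ Subgroup.normalizer (V₀ : Set G)) :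
    ∃ T : (Fin n → ZMod 2) →+ (Fin n → ZMod 2), ∀ v ∈ V, T (s.ψ v) = s.ψ (g * v * g⁻¹) := by
  classical
  choose! sec hsec hψ using s.ψ_surj
  obtain ⟨i₀⟩ : Nonempty (Fin n) := ⟨⟨0, hn.pos⟩⟩
  let π : (Fin n → ZMod 2) → (Fin n → ZMod 2) := fun a => a + Pi.single i₀ (∑ i, a i)
  have hπ : ∀ a, ∑ i, π a i = 0 := fun a => by
    simp only [π, Pi.add_apply, Finset.sum_add_distrib, Finset.sum_pi_single', Finset.mem_univ, if_true]
    generalize ∑ i, a i = t
    revert t; decide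
  have hm : ∀ {v : G}, v ∈ V → g * v * g⁻¹ ∈ V := fun hv => (Subgroup.mem_normalizer_iff.1 hgV _).1 hv
  have hwd : ∀ u ∈ V, ∀ v ∈ V, s.ψ u = s.ψ v → s.ψ (g * u * g⁻¹) = s.ψ (g * v * g⁻¹) := fun u hu v hv h => by
    have huv : u⁻¹ * v ∈ V₀ := by
      rw [← s.ψ_ker _ (mul_mem (inv_mem hu) hv)]
      have h1 : s.ψ v = s.ψ u + s.ψ (u⁻¹ * v) := by
        rw [← s.ψ_mul _ hu _ (mul_mem (inv_mem hu) hv), mul_inv_cancel_left]
      rw [h] at h1
      exact left_eq_add.1 h1
    have hm0 : g * (u⁻¹ * v) * g⁻¹ ∈ V₀ := (Subgroup.mem_normalizer_iff.1 hg₀ _).1 huv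
    rw [show g * v * g⁻¹ = g * u * g⁻¹ * (g * (u⁻¹ * v) * g⁻¹) by group,
      s.ψ_mul _ (hm hu) _ (hm (mul_mem (inv_mem hu) hv)), (s.ψ_ker _ (hm (mul_mem (inv_mem hu) hv))).2 hm0, add_zero]
  refine ⟨AddMonoidHom.mk' (fun a => s.ψ (g * sec (π a) * g⁻¹)) fun a b => ?_, fun v hv => ?_⟩
  · have ha := hsec _ (hπ a)
    have hb := hsec _ (hπ b)
    rw [← s.ψ_mul _ (hm ha) _ (hm hb)]
    refine (hwd _ (hsec _ (hπ _)) _ (mul_mem ha hb) ?_).trans (congrArg s.ψ (by group))
    rw [hψ _ (hπ _), s.ψ_mul _ ha _ hb, hψ _ (hπ _), hψ _ (hπ _)]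
    simp only [π, Pi.add_apply, Finset.sum_add_distrib, Pi.single_add]
    abel
  · show s.ψ (g * sec (π (s.ψ v)) * g⁻¹) = _
    refine hwd _ (hsec _ (hπ _)) _ hv ?_
    rw [hψ _ (hπ _)]
    simp [π, s.ψ_even v hv]

variable (hG : Subgroup.centralizer (pCore p G : Set G) ≤ pCore p G)
  {T : Sylow p G} {E : Subgroup G} (hE : IsBaumannBlock p (T : Subgroup G) E) (hEs : E.IsSubnormal)
include hE

omit [Finite G] [Fact p.Prime] hE in
theorem norm_inf_centralizer {g : G} [Finite G] (hg : g ∈ Subgroup.normalizer (E : Set G)) :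
    g ∈ Subgroup.normalizer ((Subgroup.centralizer (blockWE p E : Set G) ⊓ Subgroup.normalizer (E : Set G) :
      Subgroup G) : Set G) :=
  TwoGroupTricks.normalizer_inf_le ⟨TwoGroupTricks.normalizer_le_normalizer_centralizer' _ (norm_WE hg),
    Subgroup.le_normalizer hg⟩

/-- The even case: elements of odd order act as even permutations. -/
theorem acts_even {m : ℕ} (hp : p = 2) (s : EvenSec p (2 * m + 1) E (blockW p E) (blockZ p E)) (hm : 1 ≤ m)
    {f : G} (hfN : f ∈ Subgroup.normalizer (E : Set G)) (hf : (orderOf f).Coprime p) :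
    ∃ e ∈ E, e⁻¹ * f ∈ Subgroup.centralizer (blockWE p E : Set G) := by
  classical
  have hW : ∀ {g v : G}, g ∈ Subgroup.normalizer (E : Set G) → v ∈ blockW p E → g * v * g⁻¹ ∈ blockW p E :=
    fun hg hv => (Subgroup.mem_normalizer_iff.1 (norm_W hg) _).1 hv
  choose! act hact using fun g (hg : g ∈ Subgroup.normalizer (E : Set G)) =>
    exists_act_even ⟨m, rfl⟩ s (norm_W (p := p) hg) (norm_Z hg)
  have hmul : ∀ g ∈ Subgroup.normalizer (E : Set G), ∀ h ∈ Subgroup.normalizer (E : Set G), ∀ v ∈ blockW p E,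
      act (g * h) (s.ψ v) = act g (act h (s.ψ v)) := fun g hg h hh v hv => by
    rw [hact h hh v hv, hact g hg _ (hW hh hv), hact _ (mul_mem hg hh) v hv]
    exact congrArg s.ψ (by group)
  have hone : ∀ v ∈ blockW p E, act 1 (s.ψ v) = s.ψ v := fun v hv => by
    rw [hact 1 (one_mem _) v hv]; simp
  obtain ⟨π, hπ⟩ := exists_perm hm (act f) (fun w hw => by
      obtain ⟨v, hv, rfl⟩ := s.ψ_surj w hw
      refine ⟨_, s.ψ_even _ (hW (inv_mem hfN) hv), ?_⟩
      rw [hact f hfN _ (hW (inv_mem hfN) hv)]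
      exact congrArg s.ψ (by group))
    (fun w hw h0 => by
      obtain ⟨v, hv, rfl⟩ := s.ψ_surj w hw
      rw [← hone v hv, ← inv_mul_cancel f, hmul _ (inv_mem hfN) _ hfN v hv, h0, map_zero])
    (fun w hw => by
      obtain ⟨v, hv, rfl⟩ := s.ψ_surj w hw
      rw [hact f hfN v hv]
      exact s.ψ_even _ (hW hfN hv))
    (fun σ hσ => by
      obtain ⟨e, he, rfl⟩ := s.ρ_surj σ hσ
      have hfe : f * e * f⁻¹ ∈ E := (Subgroup.mem_normalizer_iff.1 hfN e).1 he
      refine ⟨_, s.ρ_mem _ hfe, fun w hw => ?_⟩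
      obtain ⟨v, hv, rfl⟩ := s.ψ_surj w hw
      have h1 : mv (s.ρ e) (s.ψ v) = s.ψ (e * v * e⁻¹) := funext fun i => (s.ψ_conj e he v hv i).symm
      have h2 : mv (s.ρ (f * e * f⁻¹)) (s.ψ (f * v * f⁻¹)) = s.ψ (f * e * f⁻¹ * (f * v * f⁻¹) * (f * e * f⁻¹)⁻¹) :=
        funext fun i => (s.ψ_conj _ hfe _ (hW hfN hv) i).symm
      rw [h1, hact f hfN v hv, h2, hact f hfN _ (hW (Subgroup.le_normalizer he) hv)]
      exact congrArg s.ψ (by group))
  have hpow : ∀ k : ℕ, ∀ v ∈ blockW p E, act (f ^ k) (s.ψ v) = mv (π ^ k) (s.ψ v) := by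
    intro k
    induction k with
    | zero => intro v hv; rw [pow_zero, pow_zero, hone v hv]; rfl
    | succ k ih =>
      intro v hv
      rw [pow_succ', pow_succ', hmul _ hfN _ (pow_mem hfN k) v hv, ih v hv, mv_mul]
      exact hπ _ (mv_even _ (s.ψ_even v hv))
  have hπ1 : π ^ orderOf f = 1 := perm_eq_one_of_fixes fun w hw i => by
    obtain ⟨v, hv, rfl⟩ := s.ψ_surj w hw
    have h := hpow (orderOf f) v hv
    rw [pow_orderOf_eq_one, hone v hv] at h
    exact (congrFun h i).symm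
  have hπA : π ∈ alternatingGroup (Fin (2 * m + 1)) := by
    rw [Equiv.Perm.mem_alternatingGroup]
    have h := congrArg Equiv.Perm.sign hπ1
    rw [map_pow, map_one] at h
    subst hp
    have hodd : Odd (orderOf f) := by
      rw [Nat.odd_iff]
      have := (Nat.Prime.coprime_iff_not_dvd Nat.prime_two).1 hf.symm
      omega
    rcases Int.units_eq_one_or (Equiv.Perm.sign π) with h' | h'
    · exact h'
    · rw [h', hodd.neg_one_pow] at h; exact absurd h (by decide)
  obtain ⟨e, he, hρ⟩ := s.ρ_surj π hπA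
  refine ⟨e, he, centralizes_of_trivial hE (mul_mem (inv_mem (Subgroup.le_normalizer he)) hfN) fun w hw => ?_⟩
  have hwW := WE_le hE hw
  have hd : e⁻¹ * f * w * (e⁻¹ * f)⁻¹ ∈ blockW p E := hW (mul_mem (inv_mem (Subgroup.le_normalizer he)) hfN) hwW
  have hmem : w⁻¹ * (e⁻¹ * f * w * (e⁻¹ * f)⁻¹) ∈ blockW p E := mul_mem (inv_mem hwW) hd
  refine ((s.ψ_ker _ hmem).1 ?_).2
  have hinv : s.ρ e⁻¹ = (s.ρ e)⁻¹ := by
    rw [eq_inv_iff_mul_eq_one, ← s.ρ_mul _ (inv_mem he) _ he, inv_mul_cancel, (s.ρ_ker 1 (one_mem _)).2 (one_mem _)]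
  have h1 : s.ψ (e⁻¹ * f * w * (e⁻¹ * f)⁻¹) = s.ψ w := by
    rw [show e⁻¹ * f * w * (e⁻¹ * f)⁻¹ = e⁻¹ * (f * w * f⁻¹) * e⁻¹⁻¹ by group]
    funext i
    rw [s.ψ_conj _ (inv_mem he) _ (hW hfN hwW), hinv, hρ, ← hact f hfN w hwW, hπ _ (s.ψ_even w hwW)]
    simp [mv]
  have h2 : s.ψ (e⁻¹ * f * w * (e⁻¹ * f)⁻¹) = s.ψ w + s.ψ (w⁻¹ * (e⁻¹ * f * w * (e⁻¹ * f)⁻¹)) := by
    rw [← s.ψ_mul _ hwW _ hmem, mul_inv_cancel_left]
  rw [h1] at h2
  exact left_eq_add.1 h2

include hG hEs

set_option maxHeartbeats 800000 in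
/-- The linear case. -/
theorem acts_linear {F₁ : Type*} [Field F₁] [Fintype F₁] {n : ℕ} (hF : Fintype.card F₁ = p ^ n)
    (s : NatSec p F₁ E (blockW p E) (blockZ p E)) {F : Subgroup G}
    (hFB : ⁅F, baumannSubgroupOf p (T : Subgroup G)⁆ = F) (hFN : F ≤ Subgroup.normalizer (E : Set G))
    {f : G} (hfF : f ∈ F) (hf : (orderOf f).Coprime p) :
    ∃ e ∈ E, e⁻¹ * f ∈ Subgroup.centralizer (blockWE p E : Set G) := by
  classical
  have hfE := facts_of_block hG T hE hEs
  set N := Subgroup.normalizer (E : Set G)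
  set WE := blockWE p E
  set B := baumannSubgroupOf p (T : Subgroup G)
  have hW : ∀ {g v : G}, g ∈ N → v ∈ blockW p E → g * v * g⁻¹ ∈ blockW p E :=
    fun hg hv => (Subgroup.mem_normalizer_iff.1 (norm_W hg) _).1 hv
  have hWEW : WE ≤ blockW p E := WE_le hE
  have hlift : ∀ a, ∃ v ∈ WE, s.ψ v = a := fun a => by
    obtain ⟨w, hw, rfl⟩ := s.ψ_surj a
    obtain ⟨v, hv, t, ht, rfl⟩ := exists_mul_Z hE hw
    refine ⟨v, hv, ?_⟩
    rw [s.ψ_mul _ (hWEW hv) _ ht.1, (s.ψ_ker t ht.1).2 ht, add_zero]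
  choose! act hact using fun g (hg : g ∈ N) => exists_act s (norm_W (p := p) hg) (norm_Z hg)
  have hmul : ∀ g ∈ N, ∀ h ∈ N, ∀ v, act (g * h) v = act g (act h v) := fun g hg h hh a => by
    obtain ⟨v, hv, rfl⟩ := s.ψ_surj a
    rw [hact h hh v hv, hact g hg _ (hW hh hv), hact _ (mul_mem hg hh) v hv]
    exact congrArg s.ψ (by group)
  have hone : ∀ a, act 1 a = a := fun a => by
    obtain ⟨v, hv, rfl⟩ := s.ψ_surj a
    rw [hact 1 (one_mem _) v hv]; simp
  have hfaith : ∀ g ∈ N, (∀ a, act g a = a) → g ∈ Subgroup.centralizer (WE : Set G) := fun g hg h =>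
    centralizes_of_trivial hE hg fun w hw =>
      ((s.ψ_eq_iff (hWEW hw) (hW hg (hWEW hw))).1 (by rw [← hact g hg w (hWEW hw), h])).2
  have hsemi : ∀ g ∈ N, ∃ σ : F₁ ≃+* F₁, ∀ c v, act g (c • v) = σ c • act g v := fun g hg =>
    exists_semi hF (act g) (act g⁻¹) (fun v => by rw [← hmul g hg _ (inv_mem hg), mul_inv_cancel, hone])
      (fun v => by rw [← hmul _ (inv_mem hg) g hg, inv_mul_cancel, hone])
      fun r hr => by
        obtain ⟨e, he, rfl⟩ := s.ρ_surj r hr
        have he' : g⁻¹ * e * g ∈ E := (Subgroup.mem_normalizer_iff''.1 hg e).1 he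
        refine ⟨_, s.ρ_mem _ he', fun a => ?_⟩
        obtain ⟨v, hv, rfl⟩ := s.ψ_surj a
        rw [← s.ψ_conj _ he' v hv, hact g hg _ (hW (Subgroup.le_normalizer he') hv), hact g hg v hv,
          ← s.ψ_conj e he _ (hW hg hv)]
        exact congrArg s.ψ (by group)
  obtain ⟨a₀, ha₀W, ha₀C, ha₀fix⟩ := exists_mover hG hE hEs T
  set v₀ := s.ψ a₀
  have hv₀ : v₀ ≠ 0 := fun h => ha₀C ((s.ψ_ker a₀ (hWEW ha₀W)).1 h).2
  have hfix₀ : ∀ b ∈ (T : Subgroup G), b ∈ N → act b v₀ = v₀ := fun b hb hbN => by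
    rw [hact b hbN a₀ (hWEW ha₀W), ha₀fix b hb hbN]
  -- the line and its preimage
  let L : Subgroup G :=
    { carrier := {w | w ∈ WE ∧ ∃ c : F₁, s.ψ w = c • v₀}
      one_mem' := ⟨one_mem _, 0, by rw [s.ψ_one, zero_smul]⟩
      mul_mem' := fun {x y} ⟨hx, c, hc⟩ ⟨hy, d, hd⟩ =>
        ⟨mul_mem hx hy, c + d, by rw [s.ψ_mul _ (hWEW hx) _ (hWEW hy), hc, hd, add_smul]⟩
      inv_mem' := fun {x} ⟨hx, c, hc⟩ => ⟨inv_mem hx, -c, by rw [s.ψ_inv (hWEW hx), hc, neg_smul]⟩ }
  have hLW : L ≤ WE := fun w hw => hw.1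
  set U := coreU p G
  have hWU : WE ≤ U := hfE.omega_le
  -- offenders are linear and centralise the line
  have hoff : ∀ A, ThompsonJ.IsMaxEA p (T : Subgroup G) A → L ≤ Subgroup.centralizer (A : Set G) := by
    intro A hA
    have hAN : A ≤ N := maxEA_le_normalizer hG hE hEs T hA
    set K : Subgroup A := (Subgroup.centralizer (WE : Set G)).subgroupOf A
    by_cases hK : A ≤ Subgroup.centralizer (WE : Set G)
    · exact hLW.trans (Subgroup.le_centralizer_iff.1 hK)
    haveI : K.Normal := ⟨fun k hk g => by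
      have : g * k * g⁻¹ = k := Subtype.ext (by
        show (g : G) * k * (g : G)⁻¹ = k
        rw [Subgroup.mem_centralizer_iff.1 (ThompsonJ.isElementaryAbelian_le_centralizer hA.elem k.2) g g.2,
          mul_inv_cancel_right])
      rw [this]; exact hk⟩
    let TA : A ⧸ K → (Fin 2 → F₁) →+ (Fin 2 → F₁) := Quotient.lift (fun a : A => act (a : G)) fun a b hab => by
      have hk : a⁻¹ * b ∈ K := QuotientGroup.leftRel_apply.1 hab
      refine AddMonoidHom.ext fun x => ?_
      obtain ⟨v, hv, rfl⟩ := hlift x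
      have hc : v * ((a⁻¹ * b : A) : G) = ((a⁻¹ * b : A) : G) * v := Subgroup.mem_centralizer_iff.1 hk v hv
      rw [hact _ (hAN a.2) v (hWEW hv), hact _ (hAN b.2) v (hWEW hv)]
      refine congrArg s.ψ ?_
      calc (a : G) * v * (a : G)⁻¹ = a * (((a⁻¹ * b : A) : G) * v * ((a⁻¹ * b : A) : G)⁻¹) * (a : G)⁻¹ := by
            rw [← hc, mul_inv_cancel_right]
        _ = _ := by simp [mul_assoc]
    have hTA : ∀ a : A, TA (QuotientGroup.mk a) = act (a : G) := fun _ => rfl
    set UA := U ⊓ Subgroup.centralizer (A : Set G)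
    set WA := WE ⊓ Subgroup.centralizer (A : Set G)
    set C : Set (Fin 2 → F₁) := s.ψ '' (WA : Set G)
    set z := Nat.card ↥(WE ⊓ blockZ p E)
    let φ : ∀ H : Subgroup G, H ≤ WE → (H →* Multiplicative (Fin 2 → F₁)) := fun H hH =>
      MonoidHom.mk' (fun v => Multiplicative.ofAdd (s.ψ v)) fun u v => by
        rw [Subgroup.coe_mul, s.ψ_mul _ (hWEW (hH u.2)) _ (hWEW (hH v.2))]; rfl
    have hcardH : ∀ (H : Subgroup G) (hH : H ≤ WE),
        Nat.card H = Nat.card (φ H hH).range * Nat.card ↥(H ⊓ blockZ p E) := fun H hH =>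
      card_eq_of_section inf_le_left (φ H hH) fun u => by
        show Multiplicative.ofAdd (s.ψ u) = 1 ↔ _
        rw [← ofAdd_zero, Multiplicative.ofAdd.apply_eq_iff_eq, s.ψ_ker _ (hWEW (hH u.2))]
        exact ⟨fun h => ⟨u.2, h⟩, fun h => h.2⟩
    have hWEcard : Nat.card WE = Fintype.card F₁ ^ 2 * z := by
      rw [hcardH WE le_rfl, MonoidHom.range_eq_top.2 fun a => by
        obtain ⟨v, hv, h⟩ := hlift (Multiplicative.toAdd a)
        exact ⟨⟨v, hv⟩, congrArg Multiplicative.ofAdd h⟩, Subgroup.card_top]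
      congr 1
      show Nat.card (Fin 2 → F₁) = _
      rw [Nat.card_eq_fintype_card, Fintype.card_fun, Fintype.card_fin]
    have hWAcard : Nat.card WA ≤ Nat.card C * z := by
      rw [hcardH WA inf_le_left]
      refine Nat.mul_le_mul ?_ (Subgroup.card_le_of_le (inf_le_inf_right _ inf_le_left))
      exact Nat.card_le_card_of_injective
        (fun x : (φ WA inf_le_left).range => (⟨Multiplicative.toAdd x.1, by
          obtain ⟨v, hv⟩ := x.2
          exact ⟨v, v.2, by rw [← hv]; rfl⟩⟩ : C))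
        fun x y h => Subtype.ext (Multiplicative.toAdd.injective (congrArg Subtype.val h :))
    have hUe : IsElementaryAbelian p U :=
      ThompsonJ.isElementaryAbelian_omegaOne (ThompsonJ.inf_centralizer_le_centralizer_self _)
    have hbo := ThompsonJ.isBestOffenderOn_of_isMaxEA hUe (coreU_le.trans (Cores.pCore_le_sylow T)) hA
    have hbound : Nat.card WE ≤ Nat.card (A ⧸ K) * Nat.card WA := by
      set A1 := A ⊓ Subgroup.centralizer (WE : Set G)
      have hle : WE ⊔ UA ≤ U ⊓ Subgroup.centralizer (A1 : Set G) :=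
        sup_le (le_inf hWU (Subgroup.le_centralizer_iff.1 inf_le_right))
          (inf_le_inf_left _ (Subgroup.centralizer_le inf_le_left))
      have hA1 : Nat.card A1 * Nat.card (A ⧸ K) = Nat.card A := by
        rw [← Subgroup.index_eq_card, ← Subgroup.card_mul_index K]
        congr 1
        exact Nat.card_congr ((Subgroup.subgroupOfEquivOfLe (inf_le_left : A1 ≤ A)).symm.trans
          (MulEquiv.subgroupCongr (by rw [Subgroup.inf_subgroupOf_left]))).toEquiv
      have hprod := ThompsonJ.card_sup_mul_card_inf WE UA (Replacement.Block.le_normalizer_of_comm hWU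
        (B := UA) fun x hx y hy => congrArg Subtype.val (Replacement.Block.coreU_comm' (⟨x, hx⟩ : U) ⟨y, hy.1⟩))
      have hsmall : Nat.card ↥(WE ⊓ UA) ≤ Nat.card WA := Subgroup.card_le_of_le fun w hw => ⟨hw.1, hw.2.2⟩
      have h3 : Nat.card ↥(WE ⊔ UA) ≤ Nat.card (A ⧸ K) * Nat.card UA := by
        have h4 := (Nat.mul_le_mul (le_refl (Nat.card A1)) (Subgroup.card_le_of_le hle)).trans (hbo.1 A1 inf_le_left)
        rw [← hA1, mul_assoc] at h4
        exact Nat.le_of_mul_le_mul_left h4 Nat.card_pos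
      have h5 : Nat.card WE * Nat.card UA ≤ Nat.card (A ⧸ K) * Nat.card WA * Nat.card UA :=
        calc Nat.card WE * Nat.card UA = Nat.card ↥(WE ⊔ UA) * Nat.card ↥(WE ⊓ UA) := by rw [hprod]
          _ ≤ (Nat.card (A ⧸ K) * Nat.card UA) * Nat.card WA := Nat.mul_le_mul h3 hsmall
          _ = _ := by ring
      exact Nat.le_of_mul_le_mul_right h5 Nat.card_pos
    obtain ⟨-, -, hA_le, hCline⟩ := linear_of_large hF
      ((ThompsonJ.isPGroup_of_isElementaryAbelian hA.elem).to_quotient K)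
      (fun a b => by
        obtain ⟨a, rfl⟩ := QuotientGroup.mk_surjective a
        obtain ⟨b, rfl⟩ := QuotientGroup.mk_surjective b
        rw [← QuotientGroup.mk_mul, ← QuotientGroup.mk_mul]
        exact congrArg _ (Subtype.ext
          (Subgroup.mem_centralizer_iff.1 (ThompsonJ.isElementaryAbelian_le_centralizer hA.elem b.2) a a.2)))
      TA (fun a b v => by
        obtain ⟨a, rfl⟩ := QuotientGroup.mk_surjective a
        obtain ⟨b, rfl⟩ := QuotientGroup.mk_surjective b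
        rw [← QuotientGroup.mk_mul, hTA, hTA, hTA, Subgroup.coe_mul, hmul _ (hAN a.2) _ (hAN b.2)])
      (fun a h => by
        obtain ⟨a, rfl⟩ := QuotientGroup.mk_surjective a
        exact (QuotientGroup.eq_one_iff a).2 (hfaith _ (hAN a.2) h))
      (fun v => hone v)
      (fun a => by
        obtain ⟨a, rfl⟩ := QuotientGroup.mk_surjective a
        exact hsemi _ (hAN a.2))
      (by
        obtain ⟨a, haA, hac⟩ := SetLike.not_le_iff_exists.1 hK
        exact ⟨QuotientGroup.mk ⟨a, haA⟩, fun h => hac ((QuotientGroup.eq_one_iff (N := K) _).1 h)⟩)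
      hv₀ (fun a => by
        obtain ⟨a, rfl⟩ := QuotientGroup.mk_surjective a
        exact hfix₀ _ (hA.le a.2) (hAN a.2))
      C (by
        rintro _ ⟨w, hw, rfl⟩ a
        obtain ⟨a, rfl⟩ := QuotientGroup.mk_surjective a
        rw [hTA, hact _ (hAN a.2) w (hWEW hw.1), Subgroup.mem_centralizer_iff.1 hw.2 a a.2, mul_inv_cancel_right])
      (by
        have h := hbound.trans (Nat.mul_le_mul_left _ hWAcard)
        rw [hWEcard, ← mul_assoc] at h
        exact Nat.le_of_mul_le_mul_right h Nat.card_pos)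
    have hWAL : WA ≤ L := fun w hw => ⟨hw.1, hCline _ ⟨w, hw, rfl⟩⟩
    have hLcard : Nat.card L ≤ Fintype.card F₁ * z := by
      rw [hcardH L hLW]
      refine Nat.mul_le_mul ?_ (Subgroup.card_le_of_le (inf_le_inf_right _ hLW))
      rw [← Nat.card_eq_fintype_card]
      have hx : ∀ x : (φ L hLW).range, ∃ c : F₁, Multiplicative.toAdd x.1 = c • v₀ := fun x => by
        obtain ⟨⟨v, hv⟩, hx⟩ := x.2
        rw [← hx]
        exact hv.2
      choose g hg using hx
      exact Nat.card_le_card_of_injective g fun x y h => Subtype.ext (Multiplicative.toAdd.injective (by rw [hg x, hg y, h]))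
    have hq : 0 < Fintype.card F₁ := Fintype.card_pos
    have h6 : Fintype.card F₁ * z ≤ Nat.card WA := by
      have h7 := hbound.trans (Nat.mul_le_mul_right _ hA_le)
      rw [hWEcard, sq, mul_assoc] at h7
      exact Nat.le_of_mul_le_mul_left h7 hq
    exact (Subgroup.eq_of_le_of_card_ge hWAL (hLcard.trans h6)).ge.trans inf_le_right
  have hBN : B ≤ N := TwoGroupTricks.le_normalizer_of_commutator_eq hE.2.1
  -- the Baumann subgroup fixes the line, hence is linear
  have hLJ : L ≤ omegaOne p (centerThompsonOf p (T : Subgroup G)) := fun w hw => by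
    refine ThompsonJ.omegaOne_inf_centralizer_le_thompsonSubgroupOf _
      (ThompsonJ.mem_omegaOne ⟨Cores.pCore_le_sylow T (coreU_le (hWU hw.1)), ?_⟩ (omegaOneCenter_pow _ (hWU hw.1)))
    exact Subgroup.le_centralizer_iff.1 (ThompsonJ.thompsonSubgroupOf_le_iff.2 fun A hA =>
      Subgroup.le_centralizer_iff.1 (hoff A hA) : thompsonSubgroupOf p (T : Subgroup G) ≤ Subgroup.centralizer (L : Set G)) hw
  choose! σ hσ using hsemi
  have hinj : ∀ g ∈ N, Function.Injective (act g) := fun g hg =>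
    Function.LeftInverse.injective (g := act g⁻¹) fun v => by rw [← hmul _ (inv_mem hg) g hg, inv_mul_cancel, hone]
  have hBlin : ∀ b ∈ B, ∀ (c : F₁) (v : Fin 2 → F₁), act b (c • v) = c • act b v := by
    intro b hb
    have hσ1 : ∀ c, σ b c = c := fun c => by
      obtain ⟨w, hw, hwc⟩ := hlift (c • v₀)
      have hbw : b * w * b⁻¹ = w := by
        rw [← Subgroup.mem_centralizer_iff.1 hb.2 w (hLJ ⟨hw, c, hwc⟩), mul_inv_cancel_right]
      have h1 : act b (c • v₀) = c • v₀ := by rw [← hwc, hact b (hBN hb) w (hWEW hw), hbw]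
      rw [hσ b (hBN hb), hfix₀ b hb.1 (hBN hb)] at h1
      exact smul_left_injective F₁ hv₀ h1
    intro c v
    rw [hσ b (hBN hb), hσ1]
  -- linear elements and their determinants
  let Lin : G → ((Fin 2 → F₁) →ₗ[F₁] (Fin 2 → F₁)) := fun g =>
    if h : ∀ (c : F₁) v, act g (c • v) = c • act g v then
      { toFun := act g, map_add' := map_add _, map_smul' := h } else 0
  let M1 : Subgroup G :=
    { carrier := {g | g ∈ N ∧ ∀ (c : F₁) v, act g (c • v) = c • act g v}
      one_mem' := ⟨one_mem _, fun c v => by rw [hone, hone]⟩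
      mul_mem' := fun {x y} hx hy => ⟨mul_mem hx.1 hy.1, fun c v => by
        rw [hmul x hx.1 y hy.1, hmul x hx.1 y hy.1, hy.2, hx.2]⟩
      inv_mem' := fun {x} hx => ⟨inv_mem hx.1, fun c v => by
        apply hinj x hx.1
        rw [hx.2, ← hmul x hx.1 _ (inv_mem hx.1), ← hmul x hx.1 _ (inv_mem hx.1), mul_inv_cancel, hone, hone]⟩ }
  have hLin : ∀ g ∈ M1, ∀ v, Lin g v = act g v := fun g hg v => by simp only [Lin, dif_pos hg.2]; rfl
  have hFM1 : F ≤ M1 := by
    rw [← hFB]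
    refine Subgroup.commutator_le.2 fun x hx b hb => ?_
    have hxN := hFN hx
    have hb' := hBN hb
    refine ⟨?_, fun c v => ?_⟩
    · rw [commutatorElement_def]
      exact mul_mem (mul_mem (mul_mem hxN hb') (inv_mem hxN)) (inv_mem hb')
    · rw [commutatorElement_def, hmul _ (mul_mem (mul_mem hxN hb') (inv_mem hxN)) _ (inv_mem hb'),
        hmul _ (mul_mem (mul_mem hxN hb') (inv_mem hxN)) _ (inv_mem hb'), hBlin _ (inv_mem hb),
        hmul _ (mul_mem hxN hb') _ (inv_mem hxN), hmul _ (mul_mem hxN hb') _ (inv_mem hxN), hσ _ (inv_mem hxN),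
        hmul _ hxN _ hb', hmul _ hxN _ hb', hBlin b hb, hσ _ hxN]
      have hcomp : σ x (σ x⁻¹ c) = c :=
        semi_unique (T := act 1) (hinj 1 (one_mem _)) (c := c)
          (fun w => by
            rw [← mul_inv_cancel x, hmul x hxN _ (inv_mem hxN), hmul x hxN _ (inv_mem hxN), hσ _ (inv_mem hxN), hσ _ hxN])
          (fun w => by rw [hone, hone])
      rw [hcomp]
  have hLmul : ∀ g ∈ M1, ∀ h ∈ M1, Lin (g * h) = Lin g ∘ₗ Lin h := fun g hg h hh => LinearMap.ext fun v => by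
    rw [LinearMap.comp_apply, hLin _ (mul_mem hg hh), hLin h hh, hLin g hg, hmul g hg.1 h hh.1]
  let d : M1 →* F₁ :=
    { toFun := fun g => LinearMap.det (Lin g)
      map_one' := by
        rw [show Lin ((1 : M1) : G) = LinearMap.id from LinearMap.ext fun v => by
          rw [OneMemClass.coe_one, hLin _ (one_mem _)]; exact hone v, LinearMap.det_id]
      map_mul' := fun g h => by rw [Subgroup.coe_mul, hLmul _ g.2 _ h.2, LinearMap.det_comp] }
  have hFd : F ≤ d.ker.map M1.subtype := by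
    conv_lhs => rw [← hFB]
    refine Subgroup.commutator_le.2 fun x hx b hb => ?_
    have hxM := hFM1 hx
    have hbM : b ∈ M1 := ⟨hBN hb, hBlin b hb⟩
    refine ⟨(⟨x, hxM⟩ : M1) * ⟨b, hbM⟩ * (⟨x, hxM⟩ : M1)⁻¹ * (⟨b, hbM⟩ : M1)⁻¹, MonoidHom.mem_ker.2 ?_, rfl⟩
    rw [map_mul, map_mul, map_mul, mul_right_comm (d ⟨x, hxM⟩) (d ⟨b, hbM⟩), ← map_mul d (⟨x, hxM⟩ : M1),
      mul_inv_cancel, map_one, one_mul, ← map_mul, mul_inv_cancel, map_one]
  obtain ⟨⟨g, hgM⟩, hgd, hgf⟩ := hFd hfF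
  have hgf' : g = f := hgf
  subst hgf'
  rw [SetLike.mem_coe, MonoidHom.mem_ker] at hgd
  set Mx := LinearMap.toMatrix' (Lin g)
  have hdet : Mx.det = 1 := by rw [LinearMap.det_toMatrix']; exact hgd
  let S : SL(2, F₁) := ⟨Mx, hdet⟩
  have hS : ∀ v, (S : Matrix (Fin 2) (Fin 2) F₁) *ᵥ v = act g v := fun v => by
    show LinearMap.toMatrix' (Lin g) *ᵥ v = _
    rw [LinearMap.toMatrix'_mulVec, hLin g hgM]
  have hSpow : ∀ k : ℕ, ∀ v, ((S ^ k : SL(2, F₁)) : Matrix (Fin 2) (Fin 2) F₁) *ᵥ v = act (g ^ k) v := by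
    intro k
    induction k with
    | zero => intro v; rw [pow_zero, pow_zero, hone]; simp
    | succ k ih =>
      intro v
      rw [pow_succ', pow_succ', Matrix.SpecialLinearGroup.coe_mul, ← Matrix.mulVec_mulVec, ih, hS,
        hmul g hgM.1 _ (pow_mem hgM.1 k)]
  have hS1 : S ^ orderOf g = 1 := by
    refine Subtype.ext (Matrix.ext_of_mulVec_single fun i => ?_)
    rw [hSpow, pow_orderOf_eq_one, hone]
    ext j
    simp [Matrix.one_apply, Pi.single_apply, eq_comm]
  obtain ⟨e, he, hρ⟩ := s.ρ_surj S (mem_commutator_of_coprime hF (hf.coprime_dvd_left (orderOf_dvd_of_pow_eq_one hS1)))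
  refine ⟨e, he, hfaith _ (mul_mem (inv_mem (Subgroup.le_normalizer he)) hgM.1) fun a => ?_⟩
  obtain ⟨v, hv, rfl⟩ := s.ψ_surj a
  rw [hmul _ (inv_mem (Subgroup.le_normalizer he)) g hgM.1, ← hS, ← hρ, ← s.ψ_conj e he v hv,
    hact _ (inv_mem (Subgroup.le_normalizer he)) _ (hW (Subgroup.le_normalizer he) hv)]
  exact congrArg s.ψ (by group)

/-- The action of `F` on `W_E` is that of a subgroup of `E`. -/
theorem acts_as_block {F : Subgroup G} (hres : pResidualOf p F = F)
    (hFB : ⁅F, baumannSubgroupOf p (T : Subgroup G)⁆ = F) (hFN : F ≤ Subgroup.normalizer (E : Set G))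
    {f : G} (hf : f ∈ F) : ∃ e ∈ E, e⁻¹ * f ∈ Subgroup.centralizer (blockWE p E : Set G) := by
  classical
  set M := E ⊔ (Subgroup.centralizer (blockWE p E : Set G) ⊓ Subgroup.normalizer (E : Set G))
  have hsuff : F ≤ M := by
    nth_rewrite 1 [← hres]
    rw [pResidualOf, pResidual, MonoidHom.map_closure]
    refine (Subgroup.closure_le _).2 ?_
    rintro _ ⟨g, hg, rfl⟩
    have hcop : (orderOf (g : G)).Coprime p := by rw [Subgroup.orderOf_coe]; exact hg
    obtain ⟨e, he, hd⟩ : ∃ e ∈ E, e⁻¹ * (g : G) ∈ Subgroup.centralizer (blockWE p E : Set G) := by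
      rcases hE.2.2.2.2 with ⟨F₁, iF, iFt, n, hF, ⟨φ⟩, hact, -⟩ | ⟨hp, m, ⟨φ⟩, hact, -⟩
      · obtain ⟨s⟩ := natSec_of_acts φ hact (htriv_W hE)
        exact acts_linear hG hE hEs hF s hFB hFN g.2 hcop
      · obtain ⟨s⟩ := evenSec_of_acts φ hact (htriv_W hE)
        refine acts_even hE hp s ?_ (hFN g.2) hcop
        by_contra hm
        obtain rfl : m = 0 := by omega
        refine (TwoGroupTricks.block_module_facts hE).2.2.1 (le_bot_iff.1 ?_)
        refine Subgroup.commutator_le.2 fun w hw e he => ?_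
        have hq : e ∈ pCoreOf p E := (s.ρ_ker e he).1 (Equiv.ext fun i => Fin.ext (by omega))
        rw [Subgroup.mem_bot, commutatorElement_eq_one_iff_mul_comm]
        exact (Replacement.Block.blockW_comm hq hw).symm
    rw [show ((F.subtype g : G)) = e * (e⁻¹ * (g : G)) by simp]
    exact mul_mem (Subgroup.mem_sup_left he)
      (Subgroup.mem_sup_right <| Subgroup.mem_inf.2 ⟨hd, mul_mem (inv_mem (Subgroup.le_normalizer he)) (hFN g.2)⟩)
  have hfM : f ∈ ((E ⊔ (Subgroup.centralizer (blockWE p E : Set G) ⊓ Subgroup.normalizer (E : Set G)) :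
      Subgroup G) : Set G) := hsuff hf
  rw [Subgroup.coe_mul_of_left_le_normalizer_right _ _
    (fun e he => norm_inf_centralizer (Subgroup.le_normalizer he))] at hfM
  obtain ⟨e, he, d, hd, rfl⟩ := hfM
  exact ⟨e, he, by rw [inv_mul_cancel_left]; exact hd.1⟩

end CfsgLib.FFModules.BlockNormal
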