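import Cfsg.Agent.Lib.FFModules.BlockNormal.Thompson

/-!
The Baumann subgroup of the group normalises a subnormal block, which is a block for every Sylow subgroup.
-/

set_option autoImplicit false
set_option linter.style.haveILetI false

open scoped commutatorElement

namespace CfsgLib.FFModules.BlockNormal

open Cfsg
open CfsgLib.Replacement.Block (coreU coreU_le blockWE facts_of_block omegaOneCenter_pow)

variable {G : Type*} [Group G] [Finite G] {p : ℕ} [Fact p.Prime]

omit [Finite G] [Fact p.Prime] in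
instance baumannSubgroup_normal : (baumannSubgroup p G).Normal := by
  refine ⟨fun x hx g => ?_⟩
  have h : baumannSubgroup p G ≤ (baumannSubgroup p G).comap (MulAut.conj g).toMonoidHom := by
    refine iSup_le fun T => Subgroup.map_le_iff_le_comap.1 ?_
    rw [map_baumannSubgroupOf]
    exact le_iSup (fun S : Sylow p G => baumannSubgroupOf p (S : Subgroup G)) (g • T)
  exact h hx

omit [Finite G] [Fact p.Prime] in
theorem baumannSubgroupOf_le (T : Sylow p G) : baumannSubgroupOf p (T : Subgroup G) ≤ baumannSubgroup p G :=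
  le_iSup (fun S : Sylow p G => baumannSubgroupOf p (S : Subgroup G)) T

omit [Fact p.Prime] in
theorem block_le_baumann {T : Sylow p G} {E : Subgroup G} (hE : IsBaumannBlock p (T : Subgroup G) E) :
    E ≤ baumannSubgroup p G := by
  rw [← hE.2.1]
  exact (Subgroup.commutator_mono le_rfl (baumannSubgroupOf_le T)).trans (Subgroup.commutator_le_right _ _)

omit [Finite G] in
theorem map_conj_eq {H : Subgroup G} {g : G} (hg : g ∈ Subgroup.normalizer (H : Set G)) :
    H.map (MulAut.conj g).toMonoidHom = H := by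
  refine le_antisymm ?_ fun y hy => ⟨g⁻¹ * y * g, (Subgroup.mem_normalizer_iff''.1 hg y).1 hy,
    show g * (g⁻¹ * y * g) * g⁻¹ = y by group⟩
  rintro _ ⟨y, hy, rfl⟩
  exact (Subgroup.mem_normalizer_iff.1 hg y).1 hy

variable (hG : Subgroup.centralizer (pCore p G : Set G) ≤ pCore p G)
  {T : Sylow p G} {E : Subgroup G} (hE : IsBaumannBlock p (T : Subgroup G) E) (hEs : E.IsSubnormal)
include hG hE hEs

theorem baumannSubgroupOf_le_normalizer (T' : Sylow p G) :
    baumannSubgroupOf p (T' : Subgroup G) ≤ Subgroup.normalizer (E : Set G) := by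
  intro x hx
  have hF := facts_of_block hG T hE hEs
  obtain ⟨a, haW, hac, hfix⟩ := exists_mover hG hE hEs T'
  have haU : a ∈ coreU p G := hF.omega_le haW
  have haJ : a ∈ omegaOne p (centerThompsonOf p (T' : Subgroup G)) := by
    refine ThompsonJ.omegaOne_inf_centralizer_le_thompsonSubgroupOf _ (ThompsonJ.mem_omegaOne
      ⟨Cores.pCore_le_sylow T' (coreU_le haU), Subgroup.mem_centralizer_iff.2 fun j hj => ?_⟩
      (omegaOneCenter_pow _ haU))
    have h := hfix j (ThompsonJ.thompsonSubgroupOf_le p _ hj) (thompson_le_normalizer hG hE hEs T' hj)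
    calc j * a = j * a * j⁻¹ * j := by group
      _ = a * j := by rw [h]
  by_contra hxN
  refine hac (Subgroup.mem_centralizer_iff.2 fun e he => ?_)
  have h := conj_comm hG hE hEs hxN he (WE_le_E hE haW)
  rwa [← Subgroup.mem_centralizer_iff.1 hx.2 a haJ, mul_inv_cancel_right] at h

theorem baumannSubgroup_le_normalizer : baumannSubgroup p G ≤ Subgroup.normalizer (E : Set G) :=
  iSup_le fun T' => baumannSubgroupOf_le_normalizer hG hE hEs T'

/-- A subnormal block is a block for every Sylow subgroup. -/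
theorem block_every (T' : Sylow p G) : IsBaumannBlock p (T' : Subgroup G) E := by
  classical
  have hF := facts_of_block hG T hE hEs
  set B := baumannSubgroup p G
  obtain ⟨Q, hQ⟩ := StronglyPEmbedded.exists_sylow_subgroupOf_eq T
    (A := B) (Subgroup.Normal.isSubnormal inferInstance)
  obtain ⟨Q', hQ'⟩ := StronglyPEmbedded.exists_sylow_subgroupOf_eq T'
    (A := B) (Subgroup.Normal.isSubnormal inferInstance)
  obtain ⟨k, hk⟩ := MulAction.exists_smul_eq B Q Q'
  have hkN : (k : G) ∈ Subgroup.normalizer (E : Set G) := baumannSubgroup_le_normalizer hG hE hEs k.2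
  set B₀ := baumannSubgroupOf p (T : Subgroup G)
  set c := (MulAut.conj (k : G)).toMonoidHom
  have hBT' : B₀.map c = baumannSubgroupOf p (T' : Subgroup G) := by
    have h1 : baumannSubgroupOf p (((k : G) • T : Sylow p G) : Subgroup G) = B₀.map c := by
      rw [map_baumannSubgroupOf]; rfl
    rw [← h1]
    refine (TwoGroupTricks.baumann_eq_of_le ((k : G) • T) T' ?_).symm
    rw [h1]
    rintro _ ⟨b, hb, rfl⟩
    have hbQ : (⟨b, baumannSubgroupOf_le T hb⟩ : B) ∈ (Q : Subgroup B) := by rw [hQ]; exact hb.1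
    have hm : k * ⟨b, baumannSubgroupOf_le T hb⟩ * k⁻¹ ∈ (Q' : Subgroup B) := by
      rw [← hk]; exact ⟨_, hbQ, rfl⟩
    rw [hQ'] at hm
    exact hm
  have hEc : E.map c = E := map_conj_eq hkN
  have hne := commutator_omega_ne hG hE hEs T'
  obtain ⟨h1, h2, h3, -, h5⟩ := hE
  refine ⟨h1, ?_, h3, hne, ?_⟩
  · rw [← hBT']
    conv_lhs => rw [← hEc]
    rw [← Subgroup.map_commutator, h2, hEc]
  rcases h5 with ⟨F, iF, iFt, n, hF', hiso, hact, hd⟩ | h5
  · refine Or.inl ⟨F, iF, iFt, n, hF', hiso, hact, ?_⟩
    rcases hd with hd | ⟨hp, ha, hQQ, hΦ, hEC, hcard, hnq⟩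
    · exact Or.inl hd
    refine Or.inr ⟨hp, ha, hQQ, hΦ, hEC, hcard, fun b hb hbW hle => ?_⟩
    rw [← hBT'] at hb
    obtain ⟨b, hb, rfl⟩ := hb
    have hWc : (omegaOneCenter p (pCoreOf p E)).map c = omegaOneCenter p (pCoreOf p E) := by
      conv_rhs => rw [← hEc, ← map_pCoreOf, ← map_omegaOneCenter]
    have hQc : (pCoreOf p E).map c = pCoreOf p E := by
      conv_rhs => rw [← hEc, ← map_pCoreOf]
    have hCc : (E ⊓ Subgroup.centralizer (E : Set G)).map c = E ⊓ Subgroup.centralizer (E : Set G) := by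
      conv_rhs => rw [← hEc, ← ThompsonJ.map_inf_centralizer (MulAut.conj (k : G)).injective]
    refine hnq b hb (fun hc => hbW ?_) ?_
    · rw [← hWc, ← map_centralizer]
      exact Subgroup.mem_map_of_mem _ hc
    · rw [← hQc, ← hCc, ← MonoidHom.map_zpowers, ← Subgroup.map_commutator, ← Subgroup.map_commutator,
        Subgroup.map_le_map_iff_of_injective (MulAut.conj (k : G)).injective] at hle
      exact hle
  · exact Or.inr h5

end CfsgLib.FFModules.BlockNormal
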