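import Cfsg.Agent.Lib.FFModules.BlockNormal.Acts
import Cfsg.Agent.Lib.FFModules.BlockCentralizer.Normalizes

/-!
A block moving the module of a subnormal block is contained in it.
-/

set_option autoImplicit false
set_option linter.style.haveILetI false

open Matrix
open scoped MatrixGroups commutatorElement

namespace CfsgLib.FFModules.BlockNormal

open Cfsg
open CfsgLib.FFModules.BlockCentralizer (stab stab_trans stab_bot mem_stab_bot mem_normalizer_of_normal
  mem_stab_of_commutator_le det2)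
open CfsgLib.Replacement.Block (coreU coreU_le coreU_comm blockW blockWE blockZ blockW_le blockW_comm facts_of_block)

variable {G : Type*} [Group G] [Finite G] {p : ℕ} [Fact p.Prime]
  (hG : Subgroup.centralizer (pCore p G : Set G) ≤ pCore p G)
  {T : Sylow p G} {E F : Subgroup G} (hE : IsBaumannBlock p (T : Subgroup G) E) (hEs : E.IsSubnormal)
  (hF : IsBaumannBlock p (T : Subgroup G) F) (hFN : F ≤ Subgroup.normalizer (E : Set G))
include hG hE hEs hF hFN

/-- A block not centralising `W_E` has its module inside `W_E`. -/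
theorem module_le (h0 : ⁅blockWE p E, F⁆ ≠ ⊥) : blockWE p F ≤ blockWE p E := by
  have hfE := facts_of_block hG T hE hEs
  set X := ⁅blockWE p E, F⁆
  have hFW : F ≤ Subgroup.normalizer (blockWE p E : Set G) := fun f hf => norm_WE (hFN hf)
  have hXE : X ≤ blockWE p E := CoprimeAction.commutator_le_left hFW
  have hXF : X ≤ blockWE p F := (Subgroup.commutator_mono hfE.omega_le le_rfl).trans (commutator_coreU_le hF)
  have hXN : F ≤ Subgroup.normalizer (X : Set G) := fun f hf =>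
    TwoGroupTricks.normalizer_le_normalizer_commutator_left (Subgroup.le_normalizer hf) (hFW hf)
  have hsec := TwoGroupTricks.irreducibleSection_of_block hF
  rcases hsec.irred (X ⊔ blockZ p F) le_sup_right (sup_le (hXF.trans (WE_le hF)) inf_le_left) (fun f hf =>
      Replacement.Block.inf_normalizer_le_sup _ _ ⟨hXN hf, norm_Z (Subgroup.le_normalizer hf)⟩) with h | h
  · refine absurd (le_bot_iff.1 (Replacement.Block.commutator_le_of_commutator_commutator hF.1
      (Replacement.Block.isPGroup_coreU.to_le hfE.omega_le) hFW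
      (fun f _ => by rw [Subgroup.normalizer_eq_top]; exact Subgroup.mem_top f) ?_)) h0
    rw [le_bot_iff, Subgroup.commutator_eq_bot_iff_le_centralizer]
    exact (le_sup_left.trans h.le).trans inf_le_right
  · show ⁅blockW p F, F⁆ ≤ blockWE p E
    refine le_trans ?_ hXE
    refine Subgroup.commutator_le.2 fun w hw f hf => ?_
    have hw' : w ∈ ((X ⊔ blockZ p F : Subgroup G) : Set G) := h.ge hw
    rw [Subgroup.coe_mul_of_left_le_normalizer_right _ _ (Replacement.Block.le_normalizer_of_comm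
      (hXF.trans ((WE_le hF).trans blockW_le)) (B := blockZ p F) fun _ hc _ hb => blockW_comm hc hb.1)] at hw'
    obtain ⟨x, hx, t, ht, rfl⟩ := hw'
    have htf : t * f = f * t := (Subgroup.mem_centralizer_iff.1 ht.2 f hf).symm
    rw [show ⁅x * t, f⁆ = x * (f * x⁻¹ * f⁻¹) by
      rw [commutatorElement_def, mul_assoc x t f, htf]; group]
    exact mul_mem hx ((Subgroup.mem_normalizer_iff.1 (hXN hf) _).1 (inv_mem hx))

/-- The core of a block not centralising `W_E` lies in `E`. -/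
theorem core_le (h0 : ⁅blockWE p E, F⁆ ≠ ⊥) : pCoreOf p F ≤ E := by
  have hWF := module_le hG hE hEs hF hFN h0
  have hWFE : blockWE p F ≤ E := hWF.trans (WE_le_E hE)
  rcases eq_WE_or_exc hF with h | ⟨L, iL, iLt, ⟨eF⟩⟩
  · exact h.le.trans hWFE
  have hle : blockW p F ⊔ (E ⊓ pCoreOf p F) ≤ pCoreOf p F := sup_le blockW_le inf_le_right
  have hEN : F ≤ Subgroup.normalizer ((blockW p F ⊔ (E ⊓ pCoreOf p F) : Subgroup G) : Set G) := fun f hf =>
    Replacement.Block.inf_normalizer_le_sup _ _ ⟨norm_W (Subgroup.le_normalizer hf),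
      TwoGroupTricks.normalizer_inf_le ⟨hFN hf, norm_core (Subgroup.le_normalizer hf)⟩⟩
  rcases eF.irredQ.irred _ le_sup_left hle hEN with h | h
  · exfalso
    have hcap : E ⊓ pCoreOf p F ≤ blockW p F := le_sup_right.trans h.le
    obtain ⟨x, hx, hρx⟩ := eF.sQ.ρ_surj _ (BlockCentralizer.sI_mem eF.h3)
    obtain ⟨y, hy, hρy⟩ := eF.sQ.ρ_surj _ (BlockCentralizer.sJ_mem eF.h3)
    obtain ⟨e, he, hd⟩ := acts_as_block hG hE hEs hF.1 hF.2.1 hFN hx
    set d := e⁻¹ * x
    have hdF : d ∈ Subgroup.centralizer (blockWE p F : Set G) := Subgroup.centralizer_le hWF hd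
    have hdN : d ∈ Subgroup.normalizer (F : Set G) := BlockCentralizer.centralizer_le_normalizer hG T hF hdF
    have heN : e ∈ Subgroup.normalizer (F : Set G) := by
      rw [show e = x * d⁻¹ by simp [d]]
      exact mul_mem (Subgroup.le_normalizer hx) (inv_mem hdN)
    have hQN : pCoreOf p F ≤ Subgroup.normalizer (E : Set G) := fun q hq =>
      hFN (Replacement.Block.pCoreOf_le_self hq)
    have hes : e ∈ stab (pCoreOf p F) (blockW p F) := ⟨⟨norm_core heN, norm_W heN⟩, fun q hq => hcap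
      (Subgroup.mem_inf.2 ⟨by
        rw [show q⁻¹ * (e * q * e⁻¹) = (q⁻¹ * e * q) * e⁻¹ by group]
        exact mul_mem ((Subgroup.mem_normalizer_iff''.1 (hQN hq) e).1 he) (inv_mem he),
        mul_mem (inv_mem hq) ((Subgroup.mem_normalizer_iff.1 (norm_core heN) q).1 hq)⟩)⟩
    have htriv : ∀ {g : G}, g ∈ stab (pCoreOf p F) (blockW p F) → ∀ v ∈ pCoreOf p F,
        g * v * g⁻¹ ∈ pCoreOf p F ∧ eF.sQ.ψ (g * v * g⁻¹) = eF.sQ.ψ v := fun {g} hg v hv => by
      have hm := (Subgroup.mem_normalizer_iff.1 hg.1.1 v).1 hv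
      exact ⟨hm, ((eF.sQ.ψ_eq_iff hv hm).2 (hg.2 v hv)).symm⟩
    have hfy : x * y * x⁻¹ ∈ F := mul_mem (mul_mem hx hy) (inv_mem hx)
    have hc : ⁅d, y⁆ ∈ pCoreOf p F := by
      rw [← commutatorElement_inv]; exact inv_mem (commutator_mem_core hF hy hdN hdF)
    have heq : eF.sQ.ρ (x * y * x⁻¹) = eF.sQ.ρ y := by
      refine Subtype.ext (Matrix.ext_of_mulVec_single fun i => ?_)
      obtain ⟨q, hq, hψ⟩ := eF.sQ.ψ_surj (Pi.single i 1)
      obtain ⟨hq1, hq2⟩ := htriv (inv_mem hes) q hq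
      have hq3 := (Subgroup.mem_normalizer_iff.1 (eF.sQ.normE hy) _).1 hq1
      have hq4 : ⁅d, y⁆ * (y * (e⁻¹ * q * e⁻¹⁻¹) * y⁻¹) * ⁅d, y⁆⁻¹ ∈ pCoreOf p F :=
        mul_mem (mul_mem hc hq3) (inv_mem hc)
      have key : x * y * x⁻¹ * q * (x * y * x⁻¹)⁻¹ =
          e * (⁅d, y⁆ * (y * (e⁻¹ * q * e⁻¹⁻¹) * y⁻¹) * ⁅d, y⁆⁻¹) * e⁻¹ := by
        simp only [d, commutatorElement_def]; group
      rw [← hψ, ← eF.sQ.ψ_conj _ hfy q hq, key, (htriv hes _ hq4).2, ψ_conj_self eF.sQ hc hq3,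
        eF.sQ.ψ_conj y hy _ hq1, hq2]
    rw [eF.sQ.ρ_mul _ (mul_mem hx hy) _ (inv_mem hx), eF.sQ.ρ_mul _ hx _ hy, eF.sQ.ρ_inv hx, hρx, hρy] at heq
    refine BlockCentralizer.neg_one_ne_one (F := L) eF.h3 ?_
    rw [← BlockCentralizer.commutator_sI_sJ eF.h3, commutatorElement_def, heq, mul_inv_cancel]
  · set Y := E ⊓ pCoreOf p F
    have hZ : blockZ p F ≤ E := by
      have hQN : blockW p F ≤ Subgroup.normalizer (Y : Set G) :=
        Replacement.Block.le_normalizer_of_comm le_rfl (B := Y) fun c hc b hb => (blockW_comm hb.2 hc).symm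
      rw [← eF.hQQ]
      refine Subgroup.commutator_le.2 fun a ha b hb => ?_
      have ha' : a ∈ ((blockW p F ⊔ Y : Subgroup G) : Set G) := h.ge ha
      have hb' : b ∈ ((blockW p F ⊔ Y : Subgroup G) : Set G) := h.ge hb
      rw [Subgroup.coe_mul_of_left_le_normalizer_right _ _ hQN] at ha' hb'
      obtain ⟨w, hw, u, hu, rfl⟩ := ha'
      obtain ⟨w', hw', u', hu', rfl⟩ := hb'
      beta_reduce
      rw [show w * u = u * w from (blockW_comm hu.2 hw).symm, show w' * u' = u' * w' from (blockW_comm hu'.2 hw').symm,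
        Replacement.Block.commutatorElement_mul_central (blockW_comm hu'.2 hw).symm
          (blockW_comm (blockW_le hw') hw).symm (blockW_comm hu.2 hw').symm]
      exact mul_mem (mul_mem (mul_mem hu.1 hu'.1) (inv_mem hu.1)) (inv_mem hu'.1)
    have hW : blockW p F ≤ E := (TwoGroupTricks.block_module_facts hF).2.2.2.ge.trans (sup_le hWFE hZ)
    exact h.ge.trans (sup_le hW inf_le_left)

/-- A block not centralising `W_E` lies in `E`. -/
theorem le_of_not_centralizes (h0 : ⁅blockWE p E, F⁆ ≠ ⊥) : F ≤ E := by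
  classical
  have hfE := facts_of_block hG T hE hEs
  have hQ : ⁅pCore p G, F⁆ ≤ pCoreOf p E := by
    rw [← Replacement.Block.inf_pCore_eq hEs]
    exact (commutator_pCore_le hF).trans (le_inf (inf_le_right.trans (core_le hG hE hEs hF hFN h0)) inf_le_left)
  have hEst : E ≤ stab (pCore p G) (pCoreOf p E) :=
    mem_stab_of_commutator_le (fun e _ => mem_normalizer_of_normal e)
      (fun e he => norm_core (Subgroup.le_normalizer he)) hfE.comm_le
  have hFst : F ≤ stab (pCore p G) (pCoreOf p E) :=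
    mem_stab_of_commutator_le (fun f _ => mem_normalizer_of_normal f) (fun f hf => norm_core (hFN hf)) hQ
  set CE := Subgroup.centralizer (blockWE p E : Set G)
  have hCN : CE ≤ Subgroup.normalizer (E : Set G) := BlockCentralizer.centralizer_le_normalizer hG T hE
  have hQEp : IsPGroup p (pCoreOf p E) := (CfsgLib.Cores.isPGroup_pCore p E).map E.subtype
  rcases eq_WE_or_exc hE with hq | ⟨K, iK, iKt, ⟨eE⟩⟩
  · set X₀ := CE ⊓ stab (pCore p G) (pCoreOf p E)
    have hX : IsPGroup p X₀ := BlockCentralizer.isPGroup_of_centralizes hG fun g hg hcop =>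
      stab_trans hQEp hfE.pCoreOf_le hcop hg.2 (hq ▸ mem_stab_bot hg.1)
    refine le_of_le_sup hF.1 hX (inf_le_left.trans hCN) fun f hf => ?_
    obtain ⟨e, he, hd⟩ := acts_as_block hG hE hEs hF.1 hF.2.1 hFN hf
    rw [← mul_inv_cancel_left e f]
    exact mul_mem (Subgroup.mem_sup_left he)
      (Subgroup.mem_sup_right (Subgroup.mem_inf.2 ⟨hd, mul_mem (inv_mem (hEst he)) (hFst hf)⟩))
  -- the exceptional case
  have hp := eE.hp
  subst hp
  let C : BlockCentralizer.Ctx G K :=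
    { hG := hG, T := T, E := E, hE := hE, hQle := hfE.pCoreOf_le, n := eE.n, hF := eE.hF, hn := eE.hn
      sW := eE.sW, sQ := eE.sQ, hQQ := eE.hQQ, hZE := eE.hZE, hZcard := eE.hZcard, hnq := eE.hnq }
  obtain ⟨Λ, γ, -, -, -, -, -, hΛ⟩ := C.exists_form
  -- `F` centralises `C_W(E)`
  have hFZ : ∀ f ∈ F, ∀ t ∈ blockZ 3 E, f * t * f⁻¹ = t := by
    intro f hf t ht
    have htU : t ∈ coreU 3 G := C.W_le_U ht.1
    have hm : f * t * f⁻¹ * t⁻¹ ∈ blockWE 3 E ⊓ blockZ 3 E := by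
      refine Subgroup.mem_inf.2 ⟨?_, mul_mem ((Subgroup.mem_normalizer_iff.1 (norm_Z (hFN hf)) t).1 ht) (inv_mem ht)⟩
      refine module_le hG hE hEs hF hFN h0 (commutator_coreU_le hF ?_)
      rw [Subgroup.commutator_comm, show f * t * f⁻¹ * t⁻¹ = ⁅f, t⁆ from (commutatorElement_def f t).symm]
      exact Subgroup.commutator_mem_commutator hf htU
    rw [C.WE_inf_Z, Subgroup.mem_bot, mul_inv_eq_one] at hm
    exact hm
  set X₀ := CE ⊓ stab (pCore 3 G) (pCoreOf 3 E) ⊓ stab (pCoreOf 3 E) (blockW 3 E) ⊓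
    Subgroup.centralizer (blockW 3 E : Set G)
  have hX : IsPGroup 3 X₀ := BlockCentralizer.isPGroup_of_centralizes hG fun g hg hcop =>
    stab_trans hQEp hfE.pCoreOf_le hcop hg.1.1.2
      (stab_trans (hQEp.to_le blockW_le) blockW_le hcop hg.1.2 (mem_stab_bot hg.2))
  have hX0N : X₀ ≤ Subgroup.normalizer (E : Set G) :=
    (inf_le_left.trans (inf_le_left.trans inf_le_left)).trans hCN
  -- the component centralising the module acts as `± 1`
  have hdec : ∀ f ∈ F, ∃ e ∈ E, ∃ d, f = e * d ∧ d ∈ CE ∧ d ∈ stab (pCore 3 G) (pCoreOf 3 E) ∧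
      d ∈ Subgroup.centralizer (blockW 3 E : Set G) ∧ ∃ l : K, l * l = 1 ∧
        ∀ v ∈ pCoreOf 3 E, eE.sQ.ψ (d * v * d⁻¹) = l • eE.sQ.ψ v := by
    intro f hf
    obtain ⟨e, he, hd⟩ := acts_as_block hG hE hEs hF.1 hF.2.1 hFN hf
    set d := e⁻¹ * f with hddef
    have hdN := hCN hd
    have hdZ : ∀ t ∈ blockZ 3 E, d * t * d⁻¹ = t := fun t ht => by
      rw [hddef, show e⁻¹ * f * t * (e⁻¹ * f)⁻¹ = e⁻¹ * (f * t * f⁻¹) * e by group, hFZ f hf t ht, mul_assoc,
        ← Subgroup.mem_centralizer_iff.1 ht.2 e he, inv_mul_cancel_left]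
    have hdW : d ∈ Subgroup.centralizer (blockW 3 E : Set G) := by
      refine Subgroup.mem_centralizer_iff.2 fun w hw => ?_
      obtain ⟨v, hv, t, ht, rfl⟩ := exists_mul_Z hE hw
      rw [mul_assoc, ← mul_inv_eq_iff_eq_mul.1 (hdZ t ht), ← mul_assoc, Subgroup.mem_centralizer_iff.1 hd v hv,
        mul_assoc]
    obtain ⟨l, hl⟩ := exists_scalar_act eE.sQ eE.hcard (norm_core hdN) (norm_W hdN) fun x hx v hv => by
      have hc : ⁅d, x⁆ ∈ pCoreOf 3 E := by
        rw [← commutatorElement_inv]; exact inv_mem (commutator_mem_core hE hx hdN hd)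
      rw [show d * (x * v * x⁻¹) * d⁻¹ = ⁅d, x⁆ * (x * (d * v * d⁻¹) * x⁻¹) * ⁅d, x⁆⁻¹ by
        rw [commutatorElement_def]; group]
      exact ψ_conj_self eE.sQ hc ((Subgroup.mem_normalizer_iff.1 (eE.sQ.normE hx) _).1
        ((Subgroup.mem_normalizer_iff.1 (norm_core hdN) v).1 hv))
    refine ⟨e, he, d, (mul_inv_cancel_left e f).symm, hd, mul_mem (inv_mem (hEst he)) (hFst hf), hdW, l, ?_, hl⟩
    obtain ⟨x, hx, hψx⟩ := eE.sQ.ψ_surj ![1, 0]
    obtain ⟨y, hy, hψy⟩ := eE.sQ.ψ_surj ![0, 1]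
    have hdm : ∀ {v : G}, v ∈ pCoreOf 3 E → d * v * d⁻¹ ∈ pCoreOf 3 E := fun hv =>
      (Subgroup.mem_normalizer_iff.1 (norm_core hdN) _).1 hv
    have h1 : Λ ⁅d * x * d⁻¹, d * y * d⁻¹⁆ = det2 (eE.sQ.ψ (d * x * d⁻¹)) (eE.sQ.ψ (d * y * d⁻¹)) :=
      hΛ _ (hdm hx) _ (hdm hy)
    have h2 : Λ ⁅x, y⁆ = det2 (eE.sQ.ψ x) (eE.sQ.ψ y) := hΛ x hx y hy
    rw [show ⁅d * x * d⁻¹, d * y * d⁻¹⁆ = d * ⁅x, y⁆ * d⁻¹ by simp [commutatorElement_def, mul_assoc],
      hdZ _ (eE.hQQ.le (Subgroup.commutator_mem_commutator hx hy)), h2, hl x hx, hl y hy, hψx, hψy] at h1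
    simp [det2] at h1
    linear_combination -h1
  refine le_of_le_sup hF.1 hX hX0N ?_
  conv_lhs => rw [← hF.2.1]
  refine Subgroup.commutator_le.2 fun f hf b hb => ?_
  obtain ⟨e, he, d, rfl, hdC, hdS, hdW, l, hl2, hl⟩ := hdec f hf
  have hbN := TwoGroupTricks.le_normalizer_of_commutator_eq hE.2.1 hb
  have heb : b * e * b⁻¹ ∈ E := (Subgroup.mem_normalizer_iff.1 hbN e).1 he
  have hconj : ∀ {H : Subgroup G}, b ∈ Subgroup.normalizer (H : Set G) → ∀ {x : G}, x ∈ H → b * x⁻¹ * b⁻¹ ∈ H :=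
    fun {H} hH {x} hx => (Subgroup.mem_normalizer_iff.1 hH _).1 (inv_mem hx)
  have hg : d * (b * d⁻¹ * b⁻¹) ∈ X₀ := by
    refine Subgroup.mem_inf.2 ⟨Subgroup.mem_inf.2 ⟨Subgroup.mem_inf.2
      ⟨mul_mem hdC (hconj (TwoGroupTricks.normalizer_le_normalizer_centralizer' _ (norm_WE hbN)) hdC),
        mul_mem hdS (BlockCentralizer.conj_mem_stab (mem_normalizer_of_normal b) (norm_core hbN) (inv_mem hdS))⟩, ?_⟩,
      mul_mem hdW (hconj (TwoGroupTricks.normalizer_le_normalizer_centralizer' _ (norm_W hbN)) hdW)⟩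
    have hdN := hCN hdC
    have hgN : d * (b * d⁻¹ * b⁻¹) ∈ Subgroup.normalizer (E : Set G) :=
      mul_mem hdN (mul_mem (mul_mem hbN (inv_mem hdN)) (inv_mem hbN))
    refine ⟨⟨norm_core hgN, norm_W hgN⟩, fun v hv => ?_⟩
    have hgv := (Subgroup.mem_normalizer_iff.1 (norm_core hgN) v).1 hv
    refine (eE.sQ.ψ_eq_iff hv hgv).1 ?_
    obtain ⟨Tb, hTb⟩ := exists_act eE.sQ (norm_core hbN) (norm_W hbN)
    set x := b⁻¹ * v * b with hxdef
    have hx : x ∈ pCoreOf 3 E := (Subgroup.mem_normalizer_iff''.1 (norm_core hbN) v).1 hv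
    have hx' : d⁻¹ * x * d ∈ pCoreOf 3 E := (Subgroup.mem_normalizer_iff''.1 (norm_core hdN) x).1 hx
    have hx'' : b * (d⁻¹ * x * d) * b⁻¹ ∈ pCoreOf 3 E := (Subgroup.mem_normalizer_iff.1 (norm_core hbN) _).1 hx'
    have h1 : eE.sQ.ψ (d⁻¹ * x * d) = l • eE.sQ.ψ x := by
      have h := hl _ hx'
      rw [show d * (d⁻¹ * x * d) * d⁻¹ = x by group] at h
      rw [h, smul_smul, hl2, one_smul]
    have hsgn : ∀ a, Tb (l • a) = l • Tb a := fun a => by
      rcases mul_self_eq_one_iff.1 hl2 with rfl | rfl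
      · rw [one_smul, one_smul]
      · rw [neg_one_smul, neg_one_smul, map_neg]
    rw [show d * (b * d⁻¹ * b⁻¹) * v * (d * (b * d⁻¹ * b⁻¹))⁻¹ = d * (b * (d⁻¹ * x * d) * b⁻¹) * d⁻¹ by
        rw [hxdef]; group,
      hl _ hx'', ← hTb _ hx', h1, hsgn, hTb x hx, show b * x * b⁻¹ = v by rw [hxdef]; group, smul_smul, hl2, one_smul]
  rw [show ⁅e * d, b⁆ = e * (d * (b * d⁻¹ * b⁻¹)) * (b * e * b⁻¹)⁻¹ by rw [commutatorElement_def]; group]
  exact mul_mem (mul_mem (Subgroup.mem_sup_left he) (Subgroup.mem_sup_right hg))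
    (Subgroup.mem_sup_left (inv_mem heb))

end CfsgLib.FFModules.BlockNormal
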