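import Cfsg.Agent.Lib.FFModules.BlockNormal.Sections
import Cfsg.Agent.Lib.Replacement.Block.Exceptional
import Cfsg.Agent.Lib.FFModules.BlockCentralizer.Normalizes

/-!
Facts about an arbitrary block: its commutators with the cores of the group, the exceptional data, and two
criteria for commuting and for containment.
-/

set_option autoImplicit false
set_option linter.style.haveILetI false

open Matrix
open scoped MatrixGroups commutatorElement

namespace CfsgLib.FFModules.BlockNormal

open Cfsg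
open CfsgLib.FFModules.BlockCentralizer (NatSec natSec_of_acts mem_normalizer_of_normal)
open CfsgLib.Replacement.Block (coreU coreU_le coreU_comm blockW blockWE blockZ blockW_le blockW_comm
  omegaOneCenter_pow)

variable {G : Type*} [Group G] [Finite G] {p : ℕ} [Fact p.Prime]

/-- The data of an exceptional block. -/
structure Exc (p : ℕ) (B X : Subgroup G) (F : Type) [Field F] [Fintype F] where
  n : ℕ
  hp : p = 3
  hn : n ≠ 0
  hF : Fintype.card F = p ^ n
  sW : NatSec p F X (blockW p X) (blockZ p X)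
  sQ : NatSec p F X (pCoreOf p X) (blockW p X)
  hQQ : ⁅pCoreOf p X, pCoreOf p X⁆ = blockZ p X
  hZE : X ⊓ Subgroup.centralizer (X : Set G) = blockZ p X
  hZcard : Nat.card ↥(blockZ p X) = p ^ n
  hnq : ∀ b : G, b ∈ B → b ∉ Subgroup.centralizer (blockW p X : Set G) →
    ¬ ⁅⁅pCoreOf p X, Subgroup.zpowers b⁆, Subgroup.zpowers b⁆ ≤ blockZ p X

variable {T X : Subgroup G}

/-- A block has `O_p(X) = W_X` or is exceptional. -/
theorem eq_WE_or_exc (hX : IsBaumannBlock p T X) :
    pCoreOf p X = blockWE p X ∨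
      ∃ (F : Type) (_ : Field F) (_ : Fintype F), Nonempty (Exc p (baumannSubgroupOf p T) X F) := by
  have heq : pCoreOf p X = omegaOneCenter p (pCoreOf p X) → pCoreOf p X = blockWE p X := fun h => by
    conv_lhs => rw [← hX.2.2.1]
    exact congrArg (fun Y => ⁅Y, X⁆) h
  rcases hX.2.2.2.2 with ⟨F, iF, iFt, n, hF, ⟨φ⟩, hact, hd⟩ | ⟨-, m, -, -, hq⟩
  · rcases hd with hd | ⟨hp, hactQ, hQQ, -, hZE, hZcard, hnq⟩
    · exact Or.inl (heq hd)
    have htQ : ∀ q ∈ pCoreOf p X, ∀ v ∈ pCoreOf p X, q * v * q⁻¹ * v⁻¹ ∈ blockW p X := fun q hq v hv => by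
      have h := hQQ.le (Subgroup.commutator_mem_commutator hq hv)
      rw [commutatorElement_def] at h
      exact h.1
    obtain ⟨sW⟩ := natSec_of_acts φ hact (htriv_W hX)
    obtain ⟨sQ⟩ := natSec_of_acts φ hactQ htQ
    have hn : n ≠ 0 := fun h => by rw [h, pow_zero] at hF; exact Fintype.one_lt_card.ne' hF
    refine Or.inr ⟨F, iF, iFt, ⟨⟨n, hp, hn, hF, sW, sQ, hQQ, hZE, ?_, fun b hb hbW hle => hnq b hb hbW (hle.trans hZE.ge)⟩⟩⟩
    rw [hZE] at hZcard
    subst hp
    exact hZcard
  · exact Or.inl (heq hq)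

theorem Exc.h3 {B : Subgroup G} {F : Type} [Field F] [Fintype F] (e : Exc p B X F) : (3 : F) = 0 := by
  obtain ⟨n, rfl, hn, hF, -⟩ := e
  have h := FiniteField.cast_card_eq_zero F
  rw [hF] at h
  push_cast at h
  exact (pow_eq_zero_iff hn).1 h

theorem Exc.hcard {B : Subgroup G} {F : Type} [Field F] [Fintype F] (e : Exc p B X F) :
    Fintype.card F = 3 ∨ 4 ≤ Fintype.card F := by
  obtain ⟨n, rfl, hn, hF, -⟩ := e
  rw [hF]
  rcases Nat.lt_or_ge n 2 with h | h
  · exact Or.inl (by rw [show n = 1 by omega, pow_one])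
  · exact Or.inr (le_trans (by norm_num : 4 ≤ 3 ^ 2) (Nat.pow_le_pow_right (by norm_num) h))

theorem Exc.irredQ {B : Subgroup G} {F : Type} [Field F] [Fintype F] (e : Exc p B X F) :
    TwoGroupTricks.IrreducibleSection X (pCoreOf p X) (blockW p X) := by
  refine TwoGroupTricks.irreducibleSection_of_hom e.sQ.normE blockW_le
    (MonoidHom.mk' (fun v : pCoreOf p X => Multiplicative.ofAdd (e.sQ.ψ v))
      (fun u v => by rw [Subgroup.coe_mul, e.sQ.ψ_mul _ u.2 _ v.2]; rfl))
    (fun u => (Multiplicative.ofAdd.apply_eq_iff_eq).trans (e.sQ.ψ_ker _ u.2))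
    (fun x a => (e.sQ.ρ x : Matrix (Fin 2) (Fin 2) F) *ᵥ a)
    (fun x u => ⟨⟨(x : G) * u * (x : G)⁻¹, (Subgroup.mem_normalizer_iff.1 (e.sQ.normE x.2) _).1 u.2⟩, rfl,
      e.sQ.ψ_conj _ x.2 _ u.2⟩) (fun S _ hS => ?_) ?_
  · rcases TwoGroupTricks.NaturalModules.eq_bot_or_eq_top (S := S) (fun g hg v hv => by
        obtain ⟨x, hx, rfl⟩ := e.sQ.ρ_surj g hg
        exact hS ⟨x, hx⟩ v hv) with h | h
    · exact Or.inl fun a ha => by simpa [h] using ha
    · exact Or.inr fun u => h ▸ AddSubgroup.mem_top _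
  · obtain ⟨g, hg, hgne⟩ := TwoGroupTricks.NaturalModules.exists_moved (F := F)
    obtain ⟨x, hx, rfl⟩ := e.sQ.ρ_surj g hg
    obtain ⟨v, hv, hψ⟩ := e.sQ.ψ_surj ![1, 0]
    exact ⟨⟨x, hx⟩, ⟨v, hv⟩, by simpa [hψ] using hgne⟩

omit [Fact p.Prime] in
theorem norm_core {g : G} (hg : g ∈ Subgroup.normalizer (X : Set G)) :
    g ∈ Subgroup.normalizer (pCoreOf p X : Set G) :=
  Cores.normalizer_le_normalizer_map_subtype X (pCore p X) hg

omit [Fact p.Prime] in
theorem norm_W {g : G} (hg : g ∈ Subgroup.normalizer (X : Set G)) : g ∈ Subgroup.normalizer (blockW p X : Set G) :=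
  TwoGroupTricks.normalizer_le_normalizer_omegaOneCenter _ (norm_core hg)

omit [Fact p.Prime] in
theorem norm_WE {g : G} (hg : g ∈ Subgroup.normalizer (X : Set G)) : g ∈ Subgroup.normalizer (blockWE p X : Set G) :=
  TwoGroupTricks.normalizer_le_normalizer_commutator_left hg (norm_W hg)

omit [Fact p.Prime] in
theorem norm_Z {g : G} (hg : g ∈ Subgroup.normalizer (X : Set G)) : g ∈ Subgroup.normalizer (blockZ p X : Set G) :=
  TwoGroupTricks.normalizer_inf_le ⟨norm_W hg, TwoGroupTricks.normalizer_le_normalizer_centralizer' _ hg⟩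

theorem commutator_pCore_le {S : Sylow p G} (hX : IsBaumannBlock p (S : Subgroup G) X) :
    ⁅pCore p G, X⁆ ≤ pCore p G ⊓ pCoreOf p X := by
  have hN : X ≤ Subgroup.normalizer (pCore p G : Set G) := fun x _ => mem_normalizer_of_normal x
  refine le_inf (CoprimeAction.commutator_le_left hN) (le_trans (le_inf (CoprimeAction.commutator_le_left hN) ?_)
    (TwoGroupTricks.inf_le_pCoreOf (CfsgLib.Cores.isPGroup_pCore p G) hN))
  rw [Subgroup.commutator_comm]
  exact CoprimeAction.commutator_le_left (TwoGroupTricks.pCore_le_normalizer_block S hX)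

/-- `[U, X] ≤ W_X`. -/
theorem commutator_coreU_le {S : Sylow p G} (hX : IsBaumannBlock p (S : Subgroup G) X) :
    ⁅coreU p G, X⁆ ≤ blockWE p X := by
  have hN : X ≤ Subgroup.normalizer (coreU p G : Set G) := by
    haveI := Replacement.Block.coreU_normal (p := p) (G := G)
    exact fun x _ => mem_normalizer_of_normal x
  have hcap : coreU p G ⊓ pCoreOf p X ≤ blockW p X := by
    rcases eq_WE_or_exc hX with h | ⟨F, iF, iFt, ⟨e⟩⟩
    · exact inf_le_right.trans (h.le.trans (WE_le hX))
    have hle : blockW p X ⊔ (coreU p G ⊓ pCoreOf p X) ≤ pCoreOf p X := sup_le blockW_le inf_le_right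
    rcases e.irredQ.irred _ le_sup_left hle (fun x hx => Replacement.Block.inf_normalizer_le_sup _ _
        ⟨norm_W (Subgroup.le_normalizer hx),
          TwoGroupTricks.normalizer_inf_le ⟨hN hx, norm_core (Subgroup.le_normalizer hx)⟩⟩) with h | h
    · exact le_sup_right.trans h.le
    · exfalso
      -- then `O_p(X)` would be commutative
      have hc : ∀ a ∈ pCoreOf p X, ∀ b ∈ pCoreOf p X, a * b = b * a := by
        have key : blockW p X ⊔ (coreU p G ⊓ pCoreOf p X) ≤
            Subgroup.centralizer ((blockW p X ⊔ (coreU p G ⊓ pCoreOf p X) : Subgroup G) : Set G) := by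
          refine sup_le (fun w hw => ?_) (fun u hu => ?_)
          · refine Subgroup.mem_centralizer_iff.2 fun z hz => blockW_comm (hle hz) hw
          · refine Subgroup.le_centralizer_iff.1 (sup_le (fun w hw => ?_) (fun v hv => ?_)) (Subgroup.mem_zpowers u)
            · refine Subgroup.mem_centralizer_iff.2 ?_
              rintro _ ⟨i, rfl⟩
              exact blockW_comm (Subgroup.zpow_mem _ hu.2 i) hw
            · refine Subgroup.mem_centralizer_iff.2 ?_
              rintro _ ⟨i, rfl⟩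
              exact (coreU_comm (coreU_le (Subgroup.zpow_mem _ hu.1 i)) hv.1)
        intro a ha b hb
        exact Subgroup.mem_centralizer_iff.1 (key (h.ge hb)) a (h.ge ha)
      have hZ : blockZ p X = ⊥ := by
        rw [← e.hQQ, Subgroup.commutator_eq_bot_iff_le_centralizer]
        exact fun a ha => Subgroup.mem_centralizer_iff.2 fun b hb => hc b hb a ha
      have h1 := e.hZcard
      rw [hZ, Subgroup.card_bot] at h1
      exact absurd h1.symm (Nat.one_lt_pow e.hn (Fact.out : p.Prime).one_lt).ne'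
  refine Replacement.Block.commutator_le_of_commutator_commutator hX.1 Replacement.Block.isPGroup_coreU hN
    (fun x hx => norm_WE (Subgroup.le_normalizer hx)) (Subgroup.commutator_mono ?_ le_rfl)
  exact (le_inf (CoprimeAction.commutator_le_left hN)
    ((Subgroup.commutator_mono coreU_le le_rfl).trans ((commutator_pCore_le hX).trans inf_le_right))).trans hcap

/-- An element of `X` conjugated by an element centralising `W_X` changes inside `O_p(X)`. -/
theorem commutator_mem_core (hX : IsBaumannBlock p T X) {f d : G} (hf : f ∈ X)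
    (hdN : d ∈ Subgroup.normalizer (X : Set G)) (hd : d ∈ Subgroup.centralizer (blockWE p X : Set G)) :
    ⁅f, d⁆ ∈ pCoreOf p X := by
  have hC := TwoGroupTricks.normalizer_le_normalizer_centralizer' _ (norm_WE (p := p) (Subgroup.le_normalizer hf))
  refine inf_centralizer_le_pCoreOf hX (Subgroup.mem_inf.2 ⟨?_, ?_⟩)
  · rw [commutatorElement_def, show f * d * f⁻¹ * d⁻¹ = f * (d * f⁻¹ * d⁻¹) by group]
    exact mul_mem hf ((Subgroup.mem_normalizer_iff.1 hdN _).1 (inv_mem hf))
  · rw [commutatorElement_def]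
    exact mul_mem ((Subgroup.mem_normalizer_iff.1 hC d).1 hd) (inv_mem hd)

/-- A block acting on `Y` with commutators in a `p`-group it centralises centralises `Y`. -/
theorem commutator_eq_bot_of {Y D : Subgroup G} (hres : pResidualOf p X = X)
    (hN : X ≤ Subgroup.normalizer (Y : Set G)) (hD : IsPGroup p D) (hle : ⁅Y, X⁆ ≤ D) (hcD : ⁅D, X⁆ = ⊥) :
    ⁅Y, X⁆ = ⊥ := by
  refine le_bot_iff.1 (Replacement.Block.commutator_le_of_residual hres hN
    (fun x _ => by rw [Subgroup.normalizer_eq_top]; exact Subgroup.mem_top x) fun e he hcop v hv => ?_)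
  rw [Subgroup.mem_bot]
  set c := ⁅v, e⁆ with hc
  have hcmem : c ∈ D := hle (Subgroup.commutator_mem_commutator hv he)
  have hce : e * c = c * e := Subgroup.mem_centralizer_iff.1
    ((Subgroup.commutator_eq_bot_iff_le_centralizer.1 hcD) hcmem) e he
  have hpow : ∀ k : ℕ, v * e ^ k * v⁻¹ = c ^ k * e ^ k := fun k => by
    rw [← (Commute.mul_pow (show Commute c e from hce.symm)), ← conj_pow,
      show v * e * v⁻¹ = c * e by rw [hc, commutatorElement_def]; group]
  have h1 := hpow (orderOf e)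
  rw [pow_orderOf_eq_one, mul_one, mul_inv_cancel, mul_one] at h1
  obtain ⟨j, hj⟩ := hD ⟨c, hcmem⟩
  have h2 : c ^ p ^ j = 1 := congrArg Subtype.val hj
  have h3 := pow_gcd_eq_one.mpr ⟨h1.symm, h2⟩
  rwa [(hcop.pow_right j).gcd_eq_one, pow_one] at h3

/-- A group generated by `p'`-elements inside `E X₀`, for a `p`-group `X₀` normalising `E`, lies in `E`. -/
theorem le_of_le_sup {E X₀ : Subgroup G} (hres : pResidualOf p X = X) (hX₀ : IsPGroup p X₀)
    (hN : X₀ ≤ Subgroup.normalizer (E : Set G)) (h : X ≤ E ⊔ X₀) : X ≤ E := by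
  nth_rewrite 1 [← hres]
  rw [pResidualOf, pResidual, MonoidHom.map_closure]
  refine (Subgroup.closure_le _).2 ?_
  rintro _ ⟨f, hf, rfl⟩
  have hf' : (f : G) ∈ ((X₀ ⊔ E : Subgroup G) : Set G) := by rw [sup_comm]; exact h f.2
  rw [Subgroup.coe_mul_of_left_le_normalizer_right _ _ hN] at hf'
  obtain ⟨x, hx, e, he, hxe : x * e = (f : G)⟩ := hf'
  set N := Subgroup.normalizer (E : Set G)
  let u : N := ⟨(f : G), hxe ▸ mul_mem (hN hx) (Subgroup.le_normalizer he)⟩
  haveI : (E.subgroupOf N).Normal := Subgroup.normal_in_normalizer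
  obtain ⟨k, hk⟩ := hX₀ ⟨x, hx⟩
  have h1 : (QuotientGroup.mk' (E.subgroupOf N) u) ^ p ^ k = 1 := by
    have hu : u = (⟨x, hN hx⟩ : N) * ⟨e, Subgroup.le_normalizer he⟩ := Subtype.ext hxe.symm
    rw [hu, map_mul, show QuotientGroup.mk' (E.subgroupOf N) ⟨e, Subgroup.le_normalizer he⟩ = 1 from
        (QuotientGroup.eq_one_iff _).2 he, mul_one, ← map_pow,
      show (⟨x, hN hx⟩ : N) ^ p ^ k = 1 from Subtype.ext (by simpa using congrArg Subtype.val hk), map_one]
  have h2 : (orderOf u).Coprime p := by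
    rw [← Subgroup.orderOf_coe]
    show (orderOf (f : G)).Coprime p
    rw [Subgroup.orderOf_coe]
    exact hf
  have h3 := pow_gcd_eq_one.mpr ⟨h1, (by rw [← map_pow, pow_orderOf_eq_one, map_one] :
    (QuotientGroup.mk' (E.subgroupOf N) u) ^ orderOf u = 1)⟩
  rw [(h2.symm.pow_left k).gcd_eq_one, pow_one] at h3
  exact (QuotientGroup.eq_one_iff u).1 h3

end CfsgLib.FFModules.BlockNormal
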