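import Cfsg.Agent.Lib.FFModules.BlockNormal.Contained

/-!
A subnormal block and any block are contained or commute.
-/

set_option autoImplicit false

open scoped commutatorElement

namespace CfsgLib.FFModules.BlockNormal

open Cfsg

variable {G : Type*} [Group G] [Finite G] {p : ℕ} [Fact p.Prime]

theorem le_or_commute (hG : Subgroup.centralizer (pCore p G : Set G) ≤ pCore p G)
    {T T' : Sylow p G} {E F : Subgroup G} (hE : IsBaumannBlock p (T : Subgroup G) E) (hEs : E.IsSubnormal)
    (hF : IsBaumannBlock p (T' : Subgroup G) F) : F ≤ E ∨ ⁅F, E⁆ = ⊥ := by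
  have hFN : F ≤ Subgroup.normalizer (E : Set G) :=
    (block_le_baumann hF).trans (baumannSubgroup_le_normalizer hG hE hEs)
  have hE' := block_every hG hE hEs T'
  by_cases h : ⁅Replacement.Block.blockWE p E, F⁆ = ⊥
  · exact Or.inr (commute_of_centralizes hG hE' hEs hF hFN h)
  · exact Or.inl (le_of_not_centralizes hG hE' hEs hF hFN h)

end CfsgLib.FFModules.BlockNormal
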