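import Cfsg.Agent.Lib.FFModules.BlockNormal.Transport
import Cfsg.Agent.Lib.Replacement.Block.Pair
import Cfsg.Agent.Lib.StronglyPEmbedded.Helpers

/-!
For a subnormal block and any Sylow subgroup, an element of the module fixed by the part of the Sylow subgroup
normalising the block and moved by the block.
-/

set_option autoImplicit false
set_option linter.style.haveILetI false

open scoped commutatorElement

namespace CfsgLib.FFModules.BlockNormal

open Cfsg
open CfsgLib.Replacement.Block (coreU coreU_le coreU_normal coreU_comm coreU_comm' blockWE blockW blockZ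
  isPGroup_coreU facts_of_block eq_or_commute_blocks omegaOneCenter_pow)

variable {G : Type*} [Group G] [Finite G] {p : ℕ} [Fact p.Prime]
  (hG : Subgroup.centralizer (pCore p G : Set G) ≤ pCore p G)
include hG

theorem omega_sylow_le (T : Sylow p G) : omegaOneCenter p (T : Subgroup G) ≤ coreU p G := by
  intro z hz
  have h := TwoGroupTricks.omegaOneCenter_le _ hz
  have hc : z ∈ Subgroup.centralizer (pCore p G : Set G) :=
    Subgroup.mem_centralizer_iff.2 fun q hq => h.2 q (Cores.pCore_le_sylow T hq)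
  exact ThompsonJ.mem_omegaOne ⟨hG hc, hc⟩ (omegaOneCenter_pow _ hz)

variable {T : Sylow p G} {E : Subgroup G} (hE : IsBaumannBlock p (T : Subgroup G) E) (hEs : E.IsSubnormal)
include hE hEs

omit [Finite G] [Fact p.Prime] hG hE hEs in
theorem mem_normalizer_of_map_eq {g : G} (h : E.map (MulAut.conj g).toMonoidHom = E) :
    g ∈ Subgroup.normalizer (E : Set G) := Subgroup.mem_normalizer_iff.2 fun y => by
  conv_rhs => rw [← h]
  exact (Subgroup.mem_map_iff_mem (f := (MulAut.conj g).toMonoidHom) (MulAut.conj g).injective).symm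

/-- Conjugates of a subnormal block are equal or commute. -/
theorem conj_comm {g : G} (hg : g ∉ Subgroup.normalizer (E : Set G)) {e x : G} (he : e ∈ E) (hx : x ∈ E) :
    e * (g * x * g⁻¹) = g * x * g⁻¹ * e := by
  have hb := isBaumannBlock_map (MulAut.conj g) hE
  have hT : ((g • T : Sylow p G) : Subgroup G) = (T : Subgroup G).map (MulAut.conj g).toMonoidHom := rfl
  rw [← hT] at hb
  rcases eq_or_commute_blocks hG (facts_of_block hG T hE hEs)
    (facts_of_block hG (g • T) hb (hEs.map (MulAut.conj g).surjective)) with h | h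
  · exact absurd (mem_normalizer_of_map_eq h.symm) hg
  · exact commutatorElement_eq_one_iff_mul_comm.1 (Subgroup.mem_bot.1
      (h.le (Subgroup.commutator_mem_commutator he ⟨x, hx, rfl⟩)))

/-- An element of the module fixed by `T' ∩ N(E)` and moved by `E`. -/
theorem exists_mover (T' : Sylow p G) :
    ∃ a ∈ blockWE p E, a ∉ Subgroup.centralizer (E : Set G) ∧
      ∀ x ∈ (T' : Subgroup G), x ∈ Subgroup.normalizer (E : Set G) → x * a * x⁻¹ = a := by
  classical
  have hF := facts_of_block hG T hE hEs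
  obtain ⟨Q, hQ⟩ := StronglyPEmbedded.exists_sylow_subgroupOf_eq T hEs
  obtain ⟨Q', hQ'⟩ := StronglyPEmbedded.exists_sylow_subgroupOf_eq T' hEs
  obtain ⟨e₀, he₀⟩ := MulAction.exists_smul_eq E Q Q'
  set S : Subgroup E := (T' : Subgroup G).subgroupOf E
  set U := coreU p G
  haveI : U.Normal := coreU_normal
  letI : CommGroup U := { (inferInstance : Group U) with mul_comm := coreU_comm' }
  set A : Subgroup G := U ⊓ Subgroup.centralizer ((T' : Subgroup G) ⊓ E : Subgroup G)
  have hconjU : ∀ g : G, ∀ a ∈ U, g * a * g⁻¹ ∈ U := fun g a ha => Subgroup.Normal.conj_mem inferInstance a ha g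
  have hS : ∀ a : A, ∀ e s : E, s ∈ S → (e : G) * s * a * ((e : G) * s)⁻¹ = (e : G) * a * (e : G)⁻¹ := by
    intro a e s hs
    have h := Subgroup.mem_centralizer_iff.1 a.2.2 (s : G) ⟨hs, s.2⟩
    calc (e : G) * s * a * ((e : G) * s)⁻¹ = e * ((s : G) * a) * (s : G)⁻¹ * (e : G)⁻¹ := by group
      _ = _ := by rw [h, mul_assoc (e : G) ((a : G) * s), mul_assoc (a : G), mul_inv_cancel, mul_one]
  letI : Fintype (E ⧸ S) := Fintype.ofFinite _
  let f : A → E ⧸ S → U := fun a => Quotient.lift (fun e : E => (⟨e * a * (e : G)⁻¹, hconjU _ _ a.2.1⟩ : U))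
    fun x y hxy => Subtype.ext (by
      have hs : x⁻¹ * y ∈ S := QuotientGroup.leftRel_apply.1 hxy
      have := hS a x _ hs
      simp only [Subgroup.coe_mul, Subgroup.coe_inv, mul_inv_cancel_left] at this
      exact this.symm)
  have hf : ∀ (a : A) (e : E), ((f a (QuotientGroup.mk e) : U) : G) = e * a * (e : G)⁻¹ := fun _ _ => rfl
  let N : A →* U := MonoidHom.mk' (fun a => ∏ c : E ⧸ S, f a c) fun a b => by
    rw [← Finset.prod_mul_distrib]
    refine Finset.prod_congr rfl fun c _ => ?_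
    obtain ⟨e, rfl⟩ := QuotientGroup.mk_surjective c
    exact Subtype.ext (by rw [Subgroup.coe_mul, hf, hf, hf, Subgroup.coe_mul]; group)
  -- the image is centralised by `E`
  have hNE : ∀ (a : A), (N a : G) ∈ Subgroup.centralizer (E : Set G) := by
    intro a
    refine Subgroup.mem_centralizer_iff.2 fun e he => ?_
    have h1 : MulAut.conjNormal (H := U) e (N a) = N a := by
      show MulAut.conjNormal e (∏ c, f a c) = ∏ c, f a c
      rw [map_prod]
      refine Fintype.prod_equiv (MulAction.toPerm (⟨e, he⟩ : E)) _ _ fun c => ?_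
      obtain ⟨x, rfl⟩ := QuotientGroup.mk_surjective c
      refine Subtype.ext ?_
      show e * _ * e⁻¹ = ((f a (QuotientGroup.mk (⟨e, he⟩ * x)) : U) : G)
      rw [hf, hf, Subgroup.coe_mul]
      group
    have h2 : e * (N a : G) * e⁻¹ = N a := congrArg Subtype.val h1
    calc e * (N a : G) = e * (N a : G) * e⁻¹ * e := by group
      _ = (N a : G) * e := by rw [h2]
  have hdiff : ∀ (a : A), (⟨a, a.2.1⟩ : U) ^ Nat.card (E ⧸ S) * (N a)⁻¹ ∈ (blockWE p E).subgroupOf U := by
    intro a
    rw [Nat.card_eq_fintype_card, ← Finset.card_univ, ← Finset.prod_const]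
    show (∏ _c : E ⧸ S, _) * (∏ c, f a c)⁻¹ ∈ _
    rw [← div_eq_mul_inv, ← Finset.prod_div_distrib]
    refine Subgroup.prod_mem _ fun c _ => ?_
    obtain ⟨e, rfl⟩ := QuotientGroup.mk_surjective c
    rw [Subgroup.mem_subgroupOf, div_eq_mul_inv, Subgroup.coe_mul, Subgroup.coe_inv, hf,
      ← hF.commutator_coreU, show (a : G) * ((e : G) * a * (e : G)⁻¹)⁻¹ = ⁅(a : G), (e : G)⁆ by
        rw [commutatorElement_def]; group]
    exact Subgroup.commutator_mem_commutator a.2.1 e.2
  -- `A` is not centralised by `E`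
  have hmove : ¬ A ≤ Subgroup.centralizer (E : Set G) := by
    intro hle
    refine hE.2.2.2.1 ?_
    rw [Subgroup.commutator_eq_bot_iff_le_centralizer]
    intro e he
    refine Subgroup.mem_centralizer_iff.2 fun u hu => ?_
    have hu' : (e₀ : G) * u * (e₀ : G)⁻¹ ∈ A := by
      refine Subgroup.mem_inf.2 ⟨hconjU _ _ (omega_sylow_le hG T hu), Subgroup.mem_centralizer_iff.2 ?_⟩
      rintro s ⟨hs, hsE⟩
      have hs' : (⟨s, hsE⟩ : E) ∈ (Q' : Subgroup E) := by rw [hQ']; exact hs
      rw [← he₀] at hs'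
      obtain ⟨t, ht, hts⟩ := hs'
      have ht' : (t : G) ∈ (T : Subgroup G) := by
        have : t ∈ (Q : Subgroup E) := ht
        rwa [hQ] at this
      have hts' : (e₀ : G) * t * (e₀ : G)⁻¹ = s := congrArg Subtype.val hts
      have hc := (TwoGroupTricks.omegaOneCenter_le _ hu).2 t ht'
      rw [← hts']
      calc (e₀ : G) * t * (e₀ : G)⁻¹ * ((e₀ : G) * u * (e₀ : G)⁻¹) = e₀ * ((t : G) * u) * (e₀ : G)⁻¹ := by group
        _ = _ := by rw [hc]; group
    have h := Subgroup.mem_centralizer_iff.1 (hle hu') _ (mul_mem (mul_mem e₀.2 he) (inv_mem e₀.2))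
    calc u * e = (e₀ : G)⁻¹ * (((e₀ : G) * u * (e₀ : G)⁻¹) * ((e₀ : G) * e * (e₀ : G)⁻¹)) * e₀ := by group
      _ = e * u := by rw [← h]; group
  set P : Subgroup G := (T' : Subgroup G) ⊓ Subgroup.normalizer (E : Set G)
  set Kn : Subgroup G := N.ker.map A.subtype
  have hKn : Kn ≠ ⊥ := by
    intro hb
    have hinj : Function.Injective N := (MonoidHom.ker_eq_bot_iff N).1
      ((Subgroup.map_eq_bot_iff_of_injective _ A.subtype_injective).1 hb)
    refine hmove ?_
    have hmem : ∀ a : A, (N a : G) ∈ A ⊓ Subgroup.centralizer (E : Set G) := fun a =>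
      Subgroup.mem_inf.2 ⟨Subgroup.mem_inf.2 ⟨(N a).2, Subgroup.centralizer_le inf_le_right (hNE a)⟩, hNE a⟩
    have hcard : Nat.card A ≤ Nat.card ↥(A ⊓ Subgroup.centralizer (E : Set G)) :=
      Nat.card_le_card_of_injective (fun a => (⟨_, hmem a⟩ : ↥(A ⊓ Subgroup.centralizer (E : Set G))))
        fun a b h => hinj (Subtype.ext (congrArg Subtype.val h :))
    exact (Subgroup.eq_of_le_of_card_ge inf_le_left hcard).ge.trans inf_le_right
  have hPK : ∀ x ∈ P, ∀ k ∈ Kn, x * k * x⁻¹ ∈ Kn := by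
    rintro x ⟨hxT, hxN⟩ _ ⟨a, ha, rfl⟩
    have hxS : ∀ s : G, s ∈ ((T' : Subgroup G) ⊓ E : Subgroup G) → x⁻¹ * s * x ∈ ((T' : Subgroup G) ⊓ E : Subgroup G) :=
      fun s hs => ⟨(T' : Subgroup G).mul_mem ((T' : Subgroup G).mul_mem ((T' : Subgroup G).inv_mem hxT) hs.1) hxT, (Subgroup.mem_normalizer_iff''.1 hxN s).1 hs.2⟩
    have haA : x * (a : G) * x⁻¹ ∈ A := Subgroup.mem_inf.2
      ⟨hconjU _ _ a.2.1, Subgroup.mem_centralizer_iff.2 fun s hs => by
        have h := Subgroup.mem_centralizer_iff.1 a.2.2 _ (hxS s hs)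
        calc s * (x * (a : G) * x⁻¹) = x * ((x⁻¹ * s * x) * a) * x⁻¹ := by group
          _ = _ := by rw [h]; group⟩
    refine ⟨⟨_, haA⟩, ?_, rfl⟩
    rw [SetLike.mem_coe, MonoidHom.mem_ker] at ha ⊢
    let cx : E → E := fun e => ⟨x * e * x⁻¹, (Subgroup.mem_normalizer_iff.1 hxN _).1 e.2⟩
    have hcx : ∀ e e' : E, e⁻¹ * e' ∈ S ↔ (cx e)⁻¹ * cx e' ∈ S := by
      intro e e'
      simp only [S, cx, Subgroup.mem_subgroupOf, Subgroup.coe_mul, Subgroup.coe_inv]
      rw [show (x * (e : G) * x⁻¹)⁻¹ * (x * e' * x⁻¹) = x * ((e : G)⁻¹ * e') * x⁻¹ by group]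
      exact (Subgroup.mem_normalizer_iff.1 (Subgroup.le_normalizer hxT) _)
    let cq : E ⧸ S → E ⧸ S := Quotient.map cx fun e e' h =>
      QuotientGroup.leftRel_apply.2 ((hcx e e').1 (QuotientGroup.leftRel_apply.1 h))
    have hbij : Function.Bijective cq := by
      refine Finite.injective_iff_bijective.1 fun c d h => ?_
      obtain ⟨e, rfl⟩ := QuotientGroup.mk_surjective c
      obtain ⟨e', rfl⟩ := QuotientGroup.mk_surjective d
      exact QuotientGroup.eq.2 ((hcx e e').2 (QuotientGroup.eq.1 h))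
    have h1 : MulAut.conjNormal (H := U) x (N a) = N ⟨_, haA⟩ := by
      show MulAut.conjNormal x (∏ c, f a c) = ∏ c, f ⟨_, haA⟩ c
      rw [map_prod]
      refine Fintype.prod_bijective cq hbij _ _ fun c => ?_
      obtain ⟨e, rfl⟩ := QuotientGroup.mk_surjective c
      refine Subtype.ext ?_
      show x * _ * x⁻¹ = ((f ⟨_, haA⟩ (QuotientGroup.mk (cx e)) : U) : G)
      rw [hf, hf]
      simp only [cx]
      group
    rw [← h1, ha, map_one]
  obtain ⟨a, ha, ha1, hfix⟩ : ∃ a ∈ Kn, a ≠ 1 ∧ ∀ x ∈ P, x * a * x⁻¹ = a := by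
    letI : MulAction P Kn :=
      { smul := fun x k => ⟨(x : G) * k * (x : G)⁻¹, hPK x x.2 k k.2⟩
        one_smul := fun k => Subtype.ext (show (1 : G) * k * (1 : G)⁻¹ = k by group)
        mul_smul := fun x y k => Subtype.ext (show ((x : G) * y) * k * ((x : G) * y)⁻¹ =
          x * (y * k * (y : G)⁻¹) * (x : G)⁻¹ by group) }
    have hKp : IsPGroup p Kn := isPGroup_coreU.to_le ((Subgroup.map_subtype_le _).trans inf_le_left)
    have hd : p ∣ Nat.card Kn := by
      obtain ⟨n, hn⟩ := IsPGroup.iff_card.1 hKp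
      rw [hn]
      exact dvd_pow_self p fun h => hKn (Subgroup.card_eq_one.1 (by rw [hn, h, pow_zero]))
    have h1 : (1 : Kn) ∈ MulAction.fixedPoints P Kn := fun x =>
      Subtype.ext (show (x : G) * 1 * (x : G)⁻¹ = 1 by group)
    obtain ⟨b, hb, hne⟩ := (T'.2.to_le inf_le_left : IsPGroup p P).exists_fixed_point_of_prime_dvd_card_of_fixed_point
      Kn hd h1
    exact ⟨b, b.2, fun h => hne (Subtype.ext h.symm), fun x hx => congrArg Subtype.val (hb ⟨x, hx⟩)⟩
  obtain ⟨a, haker, rfl⟩ := ha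
  rw [SetLike.mem_coe, MonoidHom.mem_ker] at haker
  have hm : ¬ p ∣ Nat.card (E ⧸ S) := by
    rw [← Subgroup.index_eq_card, show S = (Q' : Subgroup E) from hQ'.symm]
    exact Q'.not_dvd_index
  obtain ⟨j, hj⟩ := Nat.exists_mul_mod_eq_one_of_coprime 
    ((Nat.Prime.coprime_iff_not_dvd Fact.out).2 hm).symm (Fact.out : p.Prime).one_lt |>.imp fun j hj => hj.2
  have hap : ((a : A) : G) ^ p = 1 := omegaOneCenter_pow _ a.2.1
  refine ⟨(a : G), ?_, fun hc => ha1 ?_, fun x hx hxN => hfix x ⟨hx, hxN⟩⟩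
  · have h := hdiff a
    rw [haker, inv_one, mul_one, Subgroup.mem_subgroupOf, SubgroupClass.coe_pow] at h
    have h' := pow_mem h j
    rwa [← pow_mul, pow_eq_pow_mod _ hap, hj, pow_one] at h'
  · have hpow : (N a : G) = (a : G) ^ Nat.card (E ⧸ S) := by
      have : N a = (⟨a, a.2.1⟩ : U) ^ Nat.card (E ⧸ S) := by
        rw [Nat.card_eq_fintype_card, ← Finset.card_univ, ← Finset.prod_const]
        refine Finset.prod_congr rfl fun c _ => ?_
        obtain ⟨e, rfl⟩ := QuotientGroup.mk_surjective c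
        refine Subtype.ext ?_
        rw [hf, Subgroup.mem_centralizer_iff.1 hc (e : G) e.2, mul_inv_cancel_right]
      rw [this]; rfl
    rw [haker, OneMemClass.coe_one] at hpow
    calc ((a : A) : G) = ((a : G) ^ Nat.card (E ⧸ S)) ^ j := by rw [← pow_mul, pow_eq_pow_mod _ hap, hj, pow_one]
      _ = 1 := by rw [← hpow, one_pow]

/-- `[E, Ω₁(Z(T'))] ≠ 1` for every Sylow subgroup. -/
theorem commutator_omega_ne (T' : Sylow p G) : ⁅E, omegaOneCenter p (T' : Subgroup G)⁆ ≠ ⊥ := by
  classical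
  have hF := facts_of_block hG T hE hEs
  obtain ⟨a, haW, hac, hfix⟩ := exists_mover hG hE hEs T'
  have haU : a ∈ coreU p G := hF.omega_le haW
  have haE : a ∈ E := Replacement.Block.pCoreOf_le_self (Replacement.Block.blockW_le (hF.moduleFacts.2.1 haW))
  set U := coreU p G
  haveI : U.Normal := coreU_normal
  letI : CommGroup U := { (inferInstance : Group U) with mul_comm := coreU_comm' }
  set R : Subgroup (T' : Subgroup G) := (Subgroup.normalizer (E : Set G)).subgroupOf (T' : Subgroup G)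
  letI : Fintype ((T' : Subgroup G) ⧸ R) := Fintype.ofFinite _
  let f : (T' : Subgroup G) ⧸ R → U := Quotient.lift (fun t : (T' : Subgroup G) =>
      (⟨t * a * (t : G)⁻¹, Subgroup.Normal.conj_mem inferInstance a haU t⟩ : U))
    fun x y hxy => Subtype.ext (by
      have hs : x⁻¹ * y ∈ R := QuotientGroup.leftRel_apply.1 hxy
      have h := hfix _ (x⁻¹ * y).2 hs
      show (x : G) * a * (x : G)⁻¹ = y * a * (y : G)⁻¹
      conv_lhs => rw [← h, Subgroup.coe_mul, Subgroup.coe_inv]
      group)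
  have hf : ∀ t : (T' : Subgroup G), ((f (QuotientGroup.mk t) : U) : G) = t * a * (t : G)⁻¹ := fun _ => rfl
  set v : U := ∏ c, f c
  have hvT : ∀ t ∈ (T' : Subgroup G), t * (v : G) * t⁻¹ = v := fun t ht => by
    have h1 : MulAut.conjNormal (H := U) t v = v := by
      rw [map_prod]
      refine Fintype.prod_equiv (MulAction.toPerm (⟨t, ht⟩ : (T' : Subgroup G))) _ _ fun c => ?_
      obtain ⟨x, rfl⟩ := QuotientGroup.mk_surjective c
      refine Subtype.ext ?_
      show t * _ * t⁻¹ = ((f (QuotientGroup.mk (⟨t, ht⟩ * x)) : U) : G)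
      rw [hf, hf, Subgroup.coe_mul]
      group
    exact congrArg Subtype.val h1
  have hvZ : (v : G) ∈ omegaOneCenter p (T' : Subgroup G) :=
    ThompsonJ.mem_omegaOne ⟨Cores.pCore_le_sylow T' (coreU_le v.2), Subgroup.mem_centralizer_iff.2 fun t ht => by
      calc t * (v : G) = t * (v : G) * t⁻¹ * t := by group
        _ = (v : G) * t := by rw [hvT t ht]⟩ (omegaOneCenter_pow _ v.2)
  intro hbot
  refine hac (Subgroup.mem_centralizer_iff.2 fun e he => ?_)
  -- all factors but `a` commute with `e`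
  set c₀ : (T' : Subgroup G) ⧸ R := QuotientGroup.mk 1
  have hrest : ((∏ c ∈ Finset.univ.erase c₀, f c : U) : G) * e = e * (∏ c ∈ Finset.univ.erase c₀, f c : U) := by
    have hmem : (∏ c ∈ Finset.univ.erase c₀, f c) ∈ (Subgroup.centralizer {e}).subgroupOf U := by
      refine Subgroup.prod_mem _ fun c hc => ?_
      obtain ⟨t, rfl⟩ := QuotientGroup.mk_surjective c
      rw [Subgroup.mem_subgroupOf, hf, Subgroup.mem_centralizer_singleton_iff]
      refine (conj_comm hG hE hEs (fun ht => (Finset.ne_of_mem_erase hc) (QuotientGroup.eq.2 ?_)) he haE).symm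
      simpa [R, Subgroup.mem_subgroupOf] using inv_mem ht
    exact (Subgroup.mem_centralizer_singleton_iff.1 hmem :)
  have hsplit : (v : G) = a * (∏ c ∈ Finset.univ.erase c₀, f c : U) := by
    show ((∏ c, f c : U) : G) = _
    rw [← Finset.mul_prod_erase _ f (Finset.mem_univ c₀), Subgroup.coe_mul, hf]
    simp
  have hve : e * (v : G) = v * e := commutatorElement_eq_one_iff_mul_comm.1
    (Subgroup.mem_bot.1 (hbot.le (Subgroup.commutator_mem_commutator he hvZ)))
  rw [hsplit, mul_assoc a, hrest, ← mul_assoc, ← mul_assoc] at hve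
  exact mul_right_cancel hve

end CfsgLib.FFModules.BlockNormal
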