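import Cfsg.Agent.Lib.FFModules.BlockCentralizer.Basic

/-!
The action of a block on its module is faithful modulo `O_p`, and who acts trivially on the natural section
centralises the module.
-/

set_option autoImplicit false
set_option linter.style.haveILetI false

open Matrix
open scoped MatrixGroups commutatorElement

namespace CfsgLib.FFModules.BlockNormal

open Cfsg
open CfsgLib.FFModules.BlockCentralizer (NatSec natSec_of_acts)
open CfsgLib.Replacement.Block (blockW blockWE blockZ blockW_le blockW_comm)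

variable {G : Type*} [Group G] [Finite G] {p : ℕ} [Fact p.Prime]

/-- An even section, with the two maps extended to the whole group. -/
structure EvenSec (p n : ℕ) (E V V₀ : Subgroup G) where
  ρ : G → Equiv.Perm (Fin n)
  ψ : G → (Fin n → ZMod 2)
  normE : E ≤ Subgroup.normalizer (V : Set G)
  ρ_mem : ∀ e ∈ E, ρ e ∈ alternatingGroup (Fin n)
  ρ_mul : ∀ e ∈ E, ∀ f ∈ E, ρ (e * f) = ρ e * ρ f
  ρ_surj : ∀ g ∈ alternatingGroup (Fin n), ∃ e ∈ E, ρ e = g
  ρ_ker : ∀ e ∈ E, (ρ e = 1 ↔ e ∈ pCoreOf p E)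
  ψ_mul : ∀ u ∈ V, ∀ v ∈ V, ψ (u * v) = ψ u + ψ v
  ψ_even : ∀ v ∈ V, ∑ i, ψ v i = 0
  ψ_surj : ∀ a : Fin n → ZMod 2, ∑ i, a i = 0 → ∃ v ∈ V, ψ v = a
  ψ_ker : ∀ v ∈ V, (ψ v = 0 ↔ v ∈ V₀)
  ψ_conj : ∀ e ∈ E, ∀ v ∈ V, ∀ i, ψ (e * v * e⁻¹) i = ψ v ((ρ e)⁻¹ i)

omit [Finite G] [Fact p.Prime] in
theorem perm_eq_one_of_fixes {m : ℕ} {σ : Equiv.Perm (Fin (2 * m + 1))}
    (h : ∀ v : Fin (2 * m + 1) → ZMod 2, ∑ i, v i = 0 → ∀ i, v (σ⁻¹ i) = v i) : σ = 1 := by
  classical
  refine inv_eq_one.1 (Equiv.ext fun i => ?_)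
  show σ⁻¹ i = i
  by_contra hne
  obtain ⟨c, hc1, hc2⟩ : ∃ c : Fin (2 * m + 1), c ≠ σ⁻¹ i ∧ c ≠ i := by
    have hm : m ≠ 0 := by
      rintro rfl
      exact hne (Fin.ext (by omega))
    by_contra! hh
    have : (Finset.univ : Finset (Fin (2 * m + 1))) ⊆ {σ⁻¹ i, i} := fun c _ => by
      by_cases hc : c = σ⁻¹ i
      · simp [hc]
      · simp [hh c hc]
    have := Finset.card_le_card this
    have h2 := Finset.card_le_two (a := σ⁻¹ i) (b := i)
    rw [Finset.card_univ, Fintype.card_fin] at this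
    omega
  have h0 := h (TwoGroupTricks.NaturalModules.pairVec i c)
    (by simp [TwoGroupTricks.NaturalModules.pairVec, Finset.sum_add_distrib]; decide) i
  simp [TwoGroupTricks.NaturalModules.pairVec, Pi.single_apply, hc2.symm] at h0
  rw [Equiv.Perm.inv_def] at hne hc1
  simp [hne, hc1.symm] at h0

theorem evenSec_of_acts {m : ℕ} {E V V₀ : Subgroup G}
    (φ : ↥E ⧸ pCore p ↥E ≃* ↥(alternatingGroup (Fin (2 * m + 1))))
    (hact : ActsAsOddPermModuleOnSection (2 * m + 1) (alternatingGroup (Fin (2 * m + 1))) E V V₀)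
    (htriv : ∀ q ∈ pCoreOf p E, ∀ v ∈ V, q * v * q⁻¹ * v⁻¹ ∈ V₀) :
    Nonempty (EvenSec p (2 * m + 1) E V V₀) := by
  classical
  obtain ⟨hEV, -, ρ, ψ, hR, hev, hsurj, hker, hac⟩ := hact
  have hρq : pCore p E ≤ ρ.ker := by
    intro q hq
    refine MonoidHom.mem_ker.2 (perm_eq_one_of_fixes fun a ha i => ?_)
    obtain ⟨u, rfl⟩ := hsurj a ha
    obtain ⟨w, hw, hψ⟩ := hac q u
    have h1 : ψ (w * u⁻¹) = 1 := (hker _).2 (by simpa [hw] using htriv q ⟨q, hq, rfl⟩ u u.2)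
    rw [map_mul, map_inv, mul_inv_eq_one] at h1
    rw [← hψ i, h1]
  have hidx : ρ.ker = pCore p E := by
    refine (Subgroup.eq_of_le_of_card_ge hρq ?_).symm
    have h1 : ρ.ker.index = (pCore p E).index := by
      rw [Subgroup.index_ker, hR]
      exact (Nat.card_congr φ.toEquiv).symm.trans (Subgroup.index_eq_card _).symm
    have h2 := (Subgroup.card_mul_index ρ.ker).trans (Subgroup.card_mul_index (pCore p E)).symm
    rw [h1] at h2
    exact (Nat.eq_of_mul_eq_mul_right (Nat.pos_of_ne_zero Subgroup.index_ne_zero_of_finite) h2).le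
  refine ⟨{
    ρ := fun g => if h : g ∈ E then ρ ⟨g, h⟩ else 1
    ψ := fun g => if h : g ∈ V then Multiplicative.toAdd (ψ ⟨g, h⟩) else 0
    normE := hEV
    ρ_mem := fun e he => by rw [dif_pos he, ← hR]; exact ⟨_, rfl⟩
    ρ_mul := fun e he f hf => by rw [dif_pos he, dif_pos hf, dif_pos (mul_mem he hf), ← map_mul]; rfl
    ρ_surj := fun g hg => by
      rw [← hR] at hg
      obtain ⟨e, rfl⟩ := hg
      exact ⟨e, e.2, dif_pos e.2⟩
    ρ_ker := fun e he => by
      rw [dif_pos he, ← MonoidHom.mem_ker, hidx]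
      exact ⟨fun h => ⟨_, h, rfl⟩, fun ⟨y, hy, hye⟩ => (show y = ⟨e, he⟩ from Subtype.ext hye) ▸ hy⟩
    ψ_mul := fun u hu v hv => by
      rw [dif_pos hu, dif_pos hv, dif_pos (mul_mem hu hv), ← toAdd_mul, ← map_mul]; rfl
    ψ_even := fun v hv => by rw [dif_pos hv]; exact hev _
    ψ_surj := fun a ha => by
      obtain ⟨u, hu⟩ := hsurj a ha
      exact ⟨u, u.2, by rw [dif_pos u.2, Subtype.coe_eta, hu]⟩
    ψ_ker := fun v hv => by
      rw [dif_pos hv]
      exact ⟨fun h => (hker ⟨v, hv⟩).1 (Multiplicative.toAdd.injective h),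
        fun h => by rw [(hker ⟨v, hv⟩).2 h, toAdd_one]⟩
    ψ_conj := fun e he v hv i => by
      obtain ⟨w, hw, hψ⟩ := hac ⟨e, he⟩ ⟨v, hv⟩
      have hwe : e * v * e⁻¹ ∈ V := hw ▸ w.2
      rw [dif_pos he, dif_pos hv, dif_pos hwe, ← hψ i]
      exact congrArg (fun x => Multiplicative.toAdd (ψ x) i) (Subtype.ext hw.symm) }⟩

variable {T E : Subgroup G} (hE : IsBaumannBlock p T E)
include hE

theorem htriv_W : ∀ q ∈ pCoreOf p E, ∀ v ∈ blockW p E, q * v * q⁻¹ * v⁻¹ ∈ blockZ p E := fun q hq v hv => by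
  rw [blockW_comm hq hv, mul_inv_cancel_right, mul_inv_cancel]; exact one_mem _

theorem WE_le : blockWE p E ≤ blockW p E := (TwoGroupTricks.block_module_facts hE).2.1

theorem WE_le_E : blockWE p E ≤ E := (WE_le hE).trans (blockW_le.trans (Subgroup.map_subtype_le _))

theorem exists_mul_Z {w : G} (hw : w ∈ blockW p E) : ∃ v ∈ blockWE p E, ∃ t ∈ blockZ p E, v * t = w := by
  have hw' : w ∈ ((blockWE p E ⊔ blockZ p E : Subgroup G) : Set G) :=
    (TwoGroupTricks.block_module_facts hE).2.2.2.ge hw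
  rw [Subgroup.coe_mul_of_left_le_normalizer_right _ _
    (Replacement.Block.le_normalizer_of_comm ((WE_le hE).trans blockW_le)
      (B := blockZ p E) fun _ hc _ hb => blockW_comm hc hb.1)] at hw'
  exact hw'

/-- Who acts trivially on the natural section of `W` lies in `O_p(E)`. -/
theorem mem_pCoreOf_of_trivial {e : G} (he : e ∈ E)
    (h : ∀ w ∈ blockWE p E, w⁻¹ * (e * w * e⁻¹) ∈ Subgroup.centralizer (E : Set G)) : e ∈ pCoreOf p E := by
  have hW : ∀ w ∈ blockW p E, w⁻¹ * (e * w * e⁻¹) ∈ blockZ p E := by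
    intro w hw
    refine Subgroup.mem_inf.2 ⟨mul_mem (inv_mem hw) ((Subgroup.mem_normalizer_iff.1
      ((TwoGroupTricks.irreducibleSection_of_block hE).normalizes he) w).1 hw), ?_⟩
    obtain ⟨v, hv, t, ht, rfl⟩ := exists_mul_Z hE hw
    have h1 : e * t * e⁻¹ = t := by rw [Subgroup.mem_centralizer_iff.1 ht.2 e he, mul_inv_cancel_right]
    rw [show (v * t)⁻¹ * (e * (v * t) * e⁻¹) = t⁻¹ * (v⁻¹ * (e * v * e⁻¹)) * (e * t * e⁻¹) by group, h1]
    exact mul_mem (mul_mem (Subgroup.inv_mem _ ht.2) (h v hv)) ht.2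
  have h5 := hE.2.2.2.2
  rcases h5 with ⟨F, iF, iFt, n, -, ⟨φ⟩, hact, -⟩ | ⟨-, m, ⟨φ⟩, hact, -⟩
  · obtain ⟨s⟩ := natSec_of_acts φ hact (htriv_W hE)
    refine (s.ρ_ker e he).1 (Subtype.ext (Matrix.ext fun i j => ?_))
    obtain ⟨w, hw, hψ⟩ := s.ψ_surj (Pi.single j 1)
    have h2 := (s.ψ_eq_iff hw ((Subgroup.mem_normalizer_iff.1 (s.normE he) w).1 hw)).2 (hW w hw)
    rw [s.ψ_conj e he w hw, hψ] at h2
    have := congrFun h2.symm i
    simpa [Matrix.mulVec_single, Matrix.one_apply, Pi.single_apply] using this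
  · obtain ⟨s⟩ := evenSec_of_acts φ hact (htriv_W hE)
    refine (s.ρ_ker e he).1 (perm_eq_one_of_fixes fun a ha i => ?_)
    obtain ⟨w, hw, rfl⟩ := s.ψ_surj a ha
    have hz := hW w hw
    have hwe := (Subgroup.mem_normalizer_iff.1 (s.normE he) w).1 hw
    have h2 : s.ψ (e * w * e⁻¹) = s.ψ w := by
      calc s.ψ (e * w * e⁻¹) = s.ψ (w * (w⁻¹ * (e * w * e⁻¹))) := by rw [mul_inv_cancel_left]
        _ = s.ψ w := by
          rw [s.ψ_mul _ hw _ (mul_mem (inv_mem hw) hwe), (s.ψ_ker _ (mul_mem (inv_mem hw) hwe)).2 hz, add_zero]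
    rw [← s.ψ_conj e he w hw i, h2]

/-- `C_E(W_E) ≤ O_p(E)`. -/
theorem inf_centralizer_le_pCoreOf : E ⊓ Subgroup.centralizer (blockWE p E : Set G) ≤ pCoreOf p E :=
  fun e he => mem_pCoreOf_of_trivial hE he.1 fun w hw => by
    rw [← Subgroup.mem_centralizer_iff.1 he.2 w hw, mul_inv_cancel_right, inv_mul_cancel]
    exact one_mem _

/-- Two elements normalising `E` which agree on the natural section conjugate `E` alike modulo `O_p(E)`, and
the quotient centralises the module. -/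
theorem centralizes_of_trivial {a : G} (ha : a ∈ Subgroup.normalizer (E : Set G))
    (h : ∀ w ∈ blockWE p E, w⁻¹ * (a * w * a⁻¹) ∈ Subgroup.centralizer (E : Set G)) :
    a ∈ Subgroup.centralizer (blockWE p E : Set G) := by
  set C := Subgroup.centralizer (E : Set G)
  have hWEN : ∀ g ∈ Subgroup.normalizer (E : Set G), g ∈ Subgroup.normalizer (blockWE p E : Set G) := fun g hg =>
    TwoGroupTricks.normalizer_le_normalizer_commutator_left hg
      (((Cores.normalizer_le_normalizer_map_subtype E (pCore p E)).trans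
        (TwoGroupTricks.normalizer_le_normalizer_omegaOneCenter _)) hg)
  have hCN : ∀ g ∈ Subgroup.normalizer (E : Set G), ∀ c ∈ C, g * c * g⁻¹ ∈ C := fun g hg c hc =>
    (Subgroup.mem_normalizer_iff.1 (TwoGroupTricks.normalizer_le_normalizer_centralizer' _ hg) c).1 hc
  let S : Subgroup G :=
    { carrier := {g | g ∈ Subgroup.normalizer (E : Set G) ∧ ∀ w ∈ blockWE p E, w⁻¹ * (g * w * g⁻¹) ∈ C}
      one_mem' := ⟨one_mem _, fun w _ => by simp⟩
      mul_mem' := fun {x y} hx hy => ⟨mul_mem hx.1 hy.1, fun w hw => by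
        have hw' : y * w * y⁻¹ ∈ blockWE p E := (Subgroup.mem_normalizer_iff.1 (hWEN y hy.1) w).1 hw
        rw [show w⁻¹ * (x * y * w * (x * y)⁻¹) =
          (w⁻¹ * (y * w * y⁻¹)) * ((y * w * y⁻¹)⁻¹ * (x * (y * w * y⁻¹) * x⁻¹)) by group]
        exact mul_mem (hy.2 w hw) (hx.2 _ hw')⟩
      inv_mem' := fun {x} hx => ⟨inv_mem hx.1, fun w hw => by
        have hw' : x⁻¹ * w * x ∈ blockWE p E := (Subgroup.mem_normalizer_iff''.1 (hWEN x hx.1) w).1 hw
        rw [inv_inv]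
        have h1 := inv_mem (hx.2 _ hw')
        rwa [show ((x⁻¹ * w * x)⁻¹ * (x * (x⁻¹ * w * x) * x⁻¹))⁻¹ = w⁻¹ * (x⁻¹ * w * x) by group] at h1⟩ }
  have haS : Subgroup.zpowers a ≤ S := Subgroup.zpowers_le.2 ⟨ha, h⟩
  have hSW : ⁅⁅Subgroup.zpowers a, blockWE p E⁆, E⁆ = ⊥ := by
    rw [Subgroup.commutator_comm (Subgroup.zpowers a), Subgroup.commutator_eq_bot_iff_le_centralizer]
    refine Subgroup.commutator_le.2 fun w hw x hx => ?_
    convert (haS hx).2 _ (inv_mem hw) using 1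
    rw [commutatorElement_def]
    group
  have hES : ⁅⁅E, Subgroup.zpowers a⁆, blockWE p E⁆ = ⊥ := by
    rw [Subgroup.commutator_eq_bot_iff_le_centralizer]
    refine Subgroup.commutator_le.2 fun e he x hx => ?_
    have hxN := (haS hx).1
    have hq : ⁅e, x⁆ ∈ pCoreOf p E := by
      have hmem : ⁅e, x⁆ ∈ E := by
        rw [commutatorElement_def, show e * x * e⁻¹ * x⁻¹ = e * (x * e⁻¹ * x⁻¹) by group]
        exact mul_mem he ((Subgroup.mem_normalizer_iff.1 hxN _).1 (inv_mem he))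
      refine mem_pCoreOf_of_trivial hE hmem fun w hw => ?_
      have heN := Subgroup.le_normalizer he
      -- conjugate by `x⁻¹`, `e⁻¹`, `x`, `e`
      set w₁ := x⁻¹ * w * x with hw₁
      have hw₁m : w₁ ∈ blockWE p E := (Subgroup.mem_normalizer_iff''.1 (hWEN x hxN) w).1 hw
      set c := (e⁻¹ * w * e)⁻¹ * (e⁻¹ * w₁ * e) with hc
      have hcC : c ∈ C := by
        have h1 := (haS (inv_mem hx)).2 w hw
        rw [inv_inv] at h1
        have h2 := hCN e⁻¹ (inv_mem heN) _ h1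
        simp only [hc, hw₁]
        convert h2 using 1
        group
      set w₂ := e⁻¹ * w * e with hw₂
      have hw₂m : w₂ ∈ blockWE p E := (Subgroup.mem_normalizer_iff''.1 (hWEN e heN) w).1 hw
      have h3 : w⁻¹ * (⁅e, x⁆ * w * ⁅e, x⁆⁻¹) =
          (e * (w₂⁻¹ * (x * w₂ * x⁻¹)) * e⁻¹) * (e * (x * c * x⁻¹) * e⁻¹) := by
        simp only [hc, hw₂, hw₁, commutatorElement_def]
        group
      rw [h3]
      exact mul_mem (hCN e heN _ ((haS hx).2 _ hw₂m)) (hCN e heN _ (hCN x hxN _ hcC))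
    exact Subgroup.mem_centralizer_iff.2 fun w hw => (blockW_comm hq (WE_le hE hw)).symm
  have h3 := Subgroup.commutator_commutator_eq_bot_of_rotate (H₁ := blockWE p E) (H₂ := E)
    (H₃ := Subgroup.zpowers a) hES hSW
  rw [show ⁅blockWE p E, E⁆ = blockWE p E from (TwoGroupTricks.block_module_facts hE).1,
    Subgroup.commutator_eq_bot_iff_le_centralizer] at h3
  exact Subgroup.mem_centralizer_iff.2 fun w hw =>
    (Subgroup.mem_centralizer_iff.1 (h3 hw) a (Subgroup.mem_zpowers a)).symm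

end CfsgLib.FFModules.BlockNormal
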