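import Cfsg.Agent.Lib.FFModules.BlockNormal.Mover
import Cfsg.Agent.Lib.FFModules.BlockNormal.Sections
import Cfsg.Agent.Lib.ThompsonJ.Replacement

/-!
Elementary abelian subgroups of largest order normalise a subnormal block.
-/

set_option autoImplicit false
set_option linter.style.haveILetI false

open scoped commutatorElement

namespace CfsgLib.FFModules.BlockNormal

open Cfsg
open CfsgLib.Replacement.Block (coreU coreU_le coreU_normal coreU_comm' blockWE blockW blockZ
  isPGroup_coreU facts_of_block omegaOneCenter_pow)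

variable {G : Type*} [Group G] [Finite G] {p : ℕ} [Fact p.Prime]
  (hG : Subgroup.centralizer (pCore p G : Set G) ≤ pCore p G)
  {T : Sylow p G} {E : Subgroup G} (hE : IsBaumannBlock p (T : Subgroup G) E) (hEs : E.IsSubnormal)
include hG hE hEs

set_option maxHeartbeats 400000 in
theorem maxEA_le_normalizer (T' : Sylow p G) {A : Subgroup G} (hA : ThompsonJ.IsMaxEA p (T' : Subgroup G) A) :
    A ≤ Subgroup.normalizer (E : Set G) := by
  classical
  have hF := facts_of_block hG T hE hEs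
  set U := coreU p G
  haveI : U.Normal := coreU_normal
  have hUN : ∀ g : G, ∀ u ∈ U, g * u * g⁻¹ ∈ U := fun g u hu => Subgroup.Normal.conj_mem inferInstance u hu g
  have hUe : IsElementaryAbelian p U :=
    ThompsonJ.isElementaryAbelian_omegaOne (ThompsonJ.inf_centralizer_le_centralizer_self _)
  have hUT : U ≤ (T' : Subgroup G) := coreU_le.trans (Cores.pCore_le_sylow T')
  have hbo := ThompsonJ.isBestOffenderOn_of_isMaxEA hUe hUT hA
  have hAU : A ≤ Subgroup.normalizer (U : Set G) := fun a _ => by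
    rw [Subgroup.normalizer_eq_top]; exact Subgroup.mem_top a
  have hAc : ∀ {a b : G}, a ∈ A → b ∈ A → a * b = b * a := fun ha hb =>
    (Subgroup.mem_centralizer_iff.1 (ThompsonJ.isElementaryAbelian_le_centralizer hA.elem hb) _ ha)
  set WE := blockWE p E
  have hWU : WE ≤ U := hF.omega_le
  have hWEE : WE ≤ E := WE_le_E hE
  set A1 := A ⊓ Subgroup.normalizer (E : Set G)
  set C := Subgroup.centralizer (E : Set G)
  have hWN : ∀ {g : G}, g ∈ Subgroup.normalizer (E : Set G) → ∀ {w : G}, w ∈ WE → g * w * g⁻¹ ∈ WE := fun hg w hw =>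
    (Subgroup.mem_normalizer_iff.1 (hF.le_normalizer_WE hg) w).1 hw
  have houtC : ∀ {g : G}, g ∉ Subgroup.normalizer (E : Set G) → ∀ {w : G}, w ∈ WE → g * w * g⁻¹ ∈ C :=
    fun hg w hw => Subgroup.mem_centralizer_iff.2 fun e he => conj_comm hG hE hEs hg he (hWEE hw)
  have hnC : ¬ WE ≤ C := fun h => hF.moduleFacts.2.2.1 (by
    rw [← hF.moduleFacts.1, Subgroup.commutator_eq_bot_iff_le_centralizer]; exact h)
  intro a₁ ha₁
  by_contra ha₁N
  set V : Subgroup G := ⨆ g : A, WE.map (MulAut.conj (g : G)).toMonoidHom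
  have hWV : ∀ {g : G}, g ∈ A → ∀ {w : G}, w ∈ WE → g * w * g⁻¹ ∈ V := fun {g} hg {w} hw =>
    Subgroup.mem_iSup_of_mem (⟨g, hg⟩ : A) ⟨w, hw, rfl⟩
  have hWV1 : WE ≤ V := fun w hw => by simpa using hWV (one_mem A) hw
  have hVU : V ≤ U := iSup_le fun g => by rintro _ ⟨w, hw, rfl⟩; exact hUN g w (hWU hw)
  obtain ⟨-, hX, -⟩ := ThompsonJ.timmesfeld_replacement hUe hAU hbo hVU
  set A0 := A ⊓ Subgroup.centralizer ((⁅V, A⁆ : Subgroup G) : Set G)
  have hfix : ∀ {a0 : G}, a0 ∈ A0 → ∀ {a w : G}, a ∈ A → w ∈ WE →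
      a0 * ⁅w, a⁆ * a0⁻¹ = ⁅w, a⁆ := fun {a0} ha0 {a w} ha hw => by
    rw [← Subgroup.mem_centralizer_iff.1 ha0.2 _ (Subgroup.commutator_mem_commutator (hWV1 hw) ha),
      mul_inv_cancel_right]
  by_cases hA0 : A0 ≤ Subgroup.normalizer (E : Set G)
  · -- the sum over the orbit
    have hA0W : A0 ≤ Subgroup.centralizer (WE : Set G) := fun a0 ha0 =>
      centralizes_of_trivial hE (hA0 ha0) fun w hw => by
        have h := hfix ha0 ha₁ hw
        have hc1 : a₁ * w⁻¹ * a₁⁻¹ ∈ C := houtC ha₁N (inv_mem hw)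
        have hc2 : a0 * (a₁ * w⁻¹ * a₁⁻¹) * a0⁻¹ ∈ C :=
          (Subgroup.mem_normalizer_iff.1 (TwoGroupTricks.normalizer_le_normalizer_centralizer' _ (hA0 ha0)) _).1 hc1
        have he : w⁻¹ * (a0 * w * a0⁻¹) = (a₁ * w⁻¹ * a₁⁻¹) * (a0 * (a₁ * w⁻¹ * a₁⁻¹) * a0⁻¹)⁻¹ := by
          rw [eq_mul_inv_iff_mul_eq]
          calc w⁻¹ * (a0 * w * a0⁻¹) * (a0 * (a₁ * w⁻¹ * a₁⁻¹) * a0⁻¹) = w⁻¹ * (a0 * ⁅w, a₁⁆ * a0⁻¹) := by
                rw [commutatorElement_def]; group
            _ = _ := by rw [h, commutatorElement_def]; group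
        rw [he]
        exact mul_mem hc1 (inv_mem hc2)
    have hWX : WE ≤ ⁅V, A⁆ ⊔ (U ⊓ Subgroup.centralizer (A : Set G)) := by
      rw [← hX]
      exact le_inf hWU (Subgroup.le_centralizer_iff.1 hA0W)
    set M : Subgroup G := ⁅WE, A1⁆ ⊔ (U ⊓ C)
    set D : Subgroup G := V ⊔ (U ⊓ Subgroup.centralizer (A : Set G))
    have hDU : D ≤ U := sup_le hVU inf_le_left
    letI : CommGroup U := { (inferInstance : Group U) with mul_comm := coreU_comm' }
    have hUc : ∀ {x y : G}, x ∈ U → y ∈ U → x * y = y * x := fun hx hy =>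
      congrArg Subtype.val (coreU_comm' (⟨_, hx⟩ : U) ⟨_, hy⟩)
    -- `[A1, D] ≤ M`
    have hDM : ∀ a ∈ A1, ∀ d ∈ D, d⁻¹ * (a * d * a⁻¹) ∈ M := by
      intro a ha
      let S : Subgroup G :=
        { carrier := {d | d ∈ U ∧ d⁻¹ * (a * d * a⁻¹) ∈ M}
          one_mem' := ⟨one_mem _, by simp⟩
          mul_mem' := fun {x y} hx hy => ⟨mul_mem hx.1 hy.1, by
            rw [show (x * y)⁻¹ * (a * (x * y) * a⁻¹) = y⁻¹ * ((x⁻¹ * (a * x * a⁻¹)) * (a * y * a⁻¹)) by group,
              hUc (mul_mem (inv_mem hx.1) (hUN a x hx.1)) (hUN a y hy.1), ← mul_assoc]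
            exact mul_mem hy.2 hx.2⟩
          inv_mem' := fun {x} hx => ⟨inv_mem hx.1, by
            rw [show x⁻¹⁻¹ * (a * x⁻¹ * a⁻¹) = x * (a * x⁻¹ * a⁻¹) by group,
              hUc hx.1 (hUN a _ (inv_mem hx.1)), show a * x⁻¹ * a⁻¹ * x = (x⁻¹ * (a * x * a⁻¹))⁻¹ by group]
            exact inv_mem hx.2⟩ }
      suffices hD : D ≤ S from fun d hd => (hD hd).2
      refine sup_le (iSup_le fun g => ?_) fun c hc => ⟨hc.1, ?_⟩
      · rintro _ ⟨w, hw, rfl⟩
        refine ⟨hUN g w (hWU hw), ?_⟩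
        show ((g : G) * w * (g : G)⁻¹)⁻¹ * (a * ((g : G) * w * (g : G)⁻¹) * a⁻¹) ∈ M
        by_cases hg : (g : G) ∈ Subgroup.normalizer (E : Set G)
        · refine Subgroup.mem_sup_left ?_
          have := Subgroup.commutator_mem_commutator (inv_mem (hWN hg hw)) ha
          convert this using 1
          rw [commutatorElement_def]; group
        · refine Subgroup.mem_sup_right (Subgroup.mem_inf.2 ⟨mul_mem (inv_mem (hUN _ w (hWU hw)))
            (hUN a _ (hUN _ w (hWU hw))), mul_mem (inv_mem (houtC hg hw)) ?_⟩)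
          exact (Subgroup.mem_normalizer_iff.1 (TwoGroupTricks.normalizer_le_normalizer_centralizer' _ ha.2) _).1
            (houtC hg hw)
      · rw [← Subgroup.mem_centralizer_iff.1 (Subgroup.le_centralizer_iff.1 (le_refl _) ha.1) c hc.2]
        simp
    have hDA : ∀ {g : G}, g ∈ A → ∀ {d : G}, d ∈ D → g * d * g⁻¹ ∈ D := by
      intro g hg d hd
      have h : D ≤ D.comap (MulAut.conj g).toMonoidHom := by
        refine sup_le (iSup_le fun a => ?_) fun c hc => ?_
        · rintro _ ⟨w, hw, rfl⟩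
          refine Subgroup.mem_sup_left ?_
          show g * ((a : G) * w * (a : G)⁻¹) * g⁻¹ ∈ V
          rw [show g * ((a : G) * w * (a : G)⁻¹) * g⁻¹ = (g * a) * w * (g * a)⁻¹ by group]
          exact hWV (mul_mem hg a.2) hw
        · show g * c * g⁻¹ ∈ D
          rw [Subgroup.mem_centralizer_iff.1 hc.2 g hg, mul_inv_cancel_right]
          exact Subgroup.mem_sup_right hc
      exact h hd
    set R : Subgroup A := A1.subgroupOf A
    letI : Fintype (A ⧸ R) := Fintype.ofFinite _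
    let π : U →* U ⧸ M.subgroupOf U := QuotientGroup.mk' _
    let f : D → A ⧸ R → U ⧸ M.subgroupOf U := fun d => Quotient.lift
      (fun g : A => π ⟨g * d * (g : G)⁻¹, hUN g d (hDU d.2)⟩)
      fun x y hxy => QuotientGroup.eq.2 (by
        have hs0 : x⁻¹ * y ∈ R := QuotientGroup.leftRel_apply.1 hxy
        obtain ⟨z, hz, hy⟩ : ∃ z ∈ A1, (y : G) = z * x :=
          ⟨(x : G)⁻¹ * y, hs0, by rw [hAc (mul_mem (inv_mem x.2) y.2) x.2, mul_inv_cancel_left]⟩
        rw [Subgroup.mem_subgroupOf, Subgroup.coe_mul, Subgroup.coe_inv]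
        convert hDM z hz _ (hDA x.2 d.2) using 1
        simp only [hy]
        group)
    let Φ : D →* U ⧸ M.subgroupOf U := MonoidHom.mk' (fun d => ∏ c : A ⧸ R, f d c) fun d d' => by
      rw [← Finset.prod_mul_distrib]
      refine Finset.prod_congr rfl fun c _ => ?_
      obtain ⟨g, rfl⟩ := QuotientGroup.mk_surjective c
      show π _ = π _ * π _
      rw [← map_mul]
      exact congrArg π (Subtype.ext (by simp only [Subgroup.coe_mul]; group))
    have hk : ∃ l : ℕ, Nat.card (A ⧸ R) = p ^ (l + 1) := by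
      obtain ⟨k, hk⟩ := ((ThompsonJ.isPGroup_of_isElementaryAbelian hA.elem).index R)
      rcases k with _ | l
      · exfalso
        rw [pow_zero, Subgroup.index_eq_one, Subgroup.subgroupOf_eq_top] at hk
        exact ha₁N (hk ha₁).2
      · exact ⟨l, by rw [← Subgroup.index_eq_card, hk]⟩
    have hker : ⁅V, A⁆ ⊔ (U ⊓ Subgroup.centralizer (A : Set G)) ≤ Φ.ker.map D.subtype := by
      refine sup_le (Subgroup.commutator_le.2 fun v hv a ha => ?_) fun c hc => ?_
      · have hvD : v ∈ D := Subgroup.mem_sup_left hv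
        have hconj : a * v⁻¹ * a⁻¹ ∈ D := hDA ha (inv_mem hvD)
        have hmem : ⁅v, a⁆ ∈ D := by
          rw [commutatorElement_def, show v * a * v⁻¹ * a⁻¹ = v * (a * v⁻¹ * a⁻¹) by group]
          exact mul_mem hvD hconj
        refine ⟨⟨_, hmem⟩, MonoidHom.mem_ker.2 ?_, rfl⟩
        have e : (⟨_, hmem⟩ : D) = ⟨v, hvD⟩ * ⟨_, hconj⟩ :=
          Subtype.ext (by simp only [commutatorElement_def, Subgroup.coe_mul]; group)
        rw [e, map_mul]
        have e2 : Φ ⟨_, hconj⟩ = Φ ⟨v⁻¹, inv_mem hvD⟩ := by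
          refine Fintype.prod_equiv (MulAction.toPerm (⟨a, ha⟩ : A)) _ _ fun c => ?_
          obtain ⟨g, rfl⟩ := QuotientGroup.mk_surjective c
          refine congrArg π (Subtype.ext ?_)
          show (g : G) * (a * v⁻¹ * a⁻¹) * (g : G)⁻¹ = a * (g : G) * v⁻¹ * (a * (g : G))⁻¹
          rw [hAc ha g.2]; group
        rw [e2, ← map_mul, show (⟨v, hvD⟩ * ⟨v⁻¹, inv_mem hvD⟩ : D) = 1 from Subtype.ext (mul_inv_cancel v), map_one]
      · refine ⟨⟨c, Subgroup.mem_sup_right hc⟩, MonoidHom.mem_ker.2 ?_, rfl⟩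
        show ∏ c', f _ c' = 1
        have hall : ∀ c', f ⟨c, Subgroup.mem_sup_right hc⟩ c' = π ⟨c, hc.1⟩ := fun c' => by
          obtain ⟨g, rfl⟩ := QuotientGroup.mk_surjective c'
          refine congrArg π (Subtype.ext ?_)
          show (g : G) * c * (g : G)⁻¹ = c
          rw [Subgroup.mem_centralizer_iff.1 hc.2 g g.2, mul_inv_cancel_right]
        obtain ⟨l, hl⟩ := hk
        rw [Finset.prod_congr rfl fun c' _ => hall c', Finset.prod_const, Finset.card_univ,
          ← Nat.card_eq_fintype_card, hl, ← map_pow,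
          show (⟨c, hc.1⟩ : U) ^ p ^ (l + 1) = 1 from Subtype.ext (by
            rw [SubgroupClass.coe_pow, pow_succ', pow_mul, omegaOneCenter_pow _ hc.1, one_pow, OneMemClass.coe_one]),
          map_one]
    have hWM : WE ≤ M := by
      intro w hw
      obtain ⟨⟨d, hd⟩, hdk, hdw⟩ := hker (hWX hw)
      have hdw' : d = w := hdw
      subst hdw'
      rw [SetLike.mem_coe, MonoidHom.mem_ker] at hdk
      change ∏ c, f ⟨d, hd⟩ c = 1 at hdk
      rw [Finset.prod_eq_single (QuotientGroup.mk (1 : A))] at hdk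
      · have h1 := (QuotientGroup.eq_one_iff _).1 hdk
        simpa [Subgroup.mem_subgroupOf] using h1
      · intro c _ hc
        obtain ⟨g, rfl⟩ := QuotientGroup.mk_surjective c
        refine (QuotientGroup.eq_one_iff _).2 (Subgroup.mem_sup_right (Subgroup.mem_inf.2 ⟨hUN g d (hWU hw), ?_⟩))
        refine houtC (fun hg => hc (QuotientGroup.eq.2 ?_)) hw
        simpa [R, A1, Subgroup.mem_subgroupOf] using inv_mem hg
      · simp
    refine hnC ?_
    have hW0 : WE ≤ ⁅WE, A1⁆ ⊔ (WE ⊓ C) := by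
      intro w hw
      have hn : ⁅WE, A1⁆ ≤ Subgroup.normalizer ((U ⊓ C : Subgroup G) : Set G) :=
        Replacement.Block.le_normalizer_of_comm ((CoprimeAction.commutator_le_left
          (fun a (ha : a ∈ A1) => hF.le_normalizer_WE ha.2)).trans hWU) (B := U ⊓ C) fun x hx y hy => hUc hx hy.1
      have hw' : w ∈ ((⁅WE, A1⁆ ⊔ (U ⊓ C) : Subgroup G) : Set G) := hWM hw
      rw [Subgroup.coe_mul_of_left_le_normalizer_right _ _ hn] at hw'
      obtain ⟨x, hx, y, hy, rfl⟩ := hw'
      have hxW : x ∈ WE := CoprimeAction.commutator_le_left (fun a (ha : a ∈ A1) => hF.le_normalizer_WE ha.2) hx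
      refine mul_mem (Subgroup.mem_sup_left hx) (Subgroup.mem_sup_right (Subgroup.mem_inf.2 ⟨?_, hy.2⟩))
      simpa using mul_mem (inv_mem hxW) hw
    exact (Replacement.Block.le_of_le_commutator_sup (isPGroup_coreU.to_le hWU)
      ((ThompsonJ.isPGroup_of_isElementaryAbelian hA.elem).to_le inf_le_left)
      (fun a (ha : a ∈ A1) => hF.le_normalizer_WE ha.2)
      (fun a ha => TwoGroupTricks.normalizer_inf_le ⟨hF.le_normalizer_WE ha.2,
        TwoGroupTricks.normalizer_le_normalizer_centralizer' _ ha.2⟩)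
      (Replacement.Block.le_normalizer_of_comm hWU (B := WE ⊓ C) fun x hx y hy => hUc hx (hWU hy.1))
      inf_le_left hW0).trans inf_le_right
  · -- an element outside swaps two blocks
    obtain ⟨a0, ha0, ha0N⟩ := SetLike.not_le_iff_exists.1 hA0
    obtain ⟨w₀, hw₀, hw₀C⟩ := SetLike.not_le_iff_exists.1 hnC
    have hcoset : ∀ {a : G}, a ∈ A → a ∉ Subgroup.normalizer (E : Set G) → a0 * a ∈ A1 := by
      intro a ha haN
      refine Subgroup.mem_inf.2 ⟨mul_mem ha0.1 ha, ?_⟩
      by_contra h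
      refine hw₀C ?_
      have hc : ⁅w₀, a⁆ ∈ C := by
        rw [← hfix ha0 ha hw₀, show a0 * ⁅w₀, a⁆ * a0⁻¹ =
          (a0 * w₀ * a0⁻¹) * ((a0 * a) * w₀⁻¹ * (a0 * a)⁻¹) by rw [commutatorElement_def]; group]
        exact mul_mem (houtC ha0N hw₀) (houtC h (inv_mem hw₀))
      rw [show w₀ = ⁅w₀, a⁆ * (a * w₀⁻¹ * a⁻¹)⁻¹ by rw [commutatorElement_def]; group]
      exact mul_mem hc (inv_mem (houtC haN (inv_mem hw₀)))
    have hA1W : A1 ≤ Subgroup.centralizer (WE : Set G) := fun a ha =>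
      centralizes_of_trivial hE ha.2 fun w hw => by
        have hm : ⁅w⁻¹, a⁆ ∈ WE := CoprimeAction.commutator_le_left (fun x hx => hF.le_normalizer_WE hx)
          (Subgroup.commutator_mem_commutator (inv_mem hw) ha.2)
        rw [show w⁻¹ * (a * w * a⁻¹) = ⁅w⁻¹, a⁆ by rw [commutatorElement_def]; group,
          ← hfix ha0 ha.1 (inv_mem hw)]
        exact houtC ha0N hm
    have hcard : Nat.card A ≤ 2 * Nat.card A1 := by
      have hmap : ∀ x : A, ∃ y : Bool × A1, (x : G) = if y.1 then (y.2 : G) else a0⁻¹ * y.2 := fun x => by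
        by_cases hx : (x : G) ∈ Subgroup.normalizer (E : Set G)
        · exact ⟨(true, ⟨x, x.2, hx⟩), rfl⟩
        · exact ⟨(false, ⟨_, hcoset x.2 hx⟩), by simp⟩
      choose g hg using hmap
      have := Nat.card_le_card_of_injective g fun x y h => Subtype.ext (by rw [hg x, hg y, h])
      simpa [Nat.card_prod] using this
    have hAA1 := hbo.1 A1 inf_le_left
    set UA := U ⊓ Subgroup.centralizer (A : Set G)
    have hle : WE ⊔ UA ≤ U ⊓ Subgroup.centralizer (A1 : Set G) :=
      sup_le (le_inf hWU (Subgroup.le_centralizer_iff.1 hA1W))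
        (inf_le_inf_left _ (Subgroup.centralizer_le inf_le_left))
    have hprod := ThompsonJ.card_sup_mul_card_inf WE UA (Replacement.Block.le_normalizer_of_comm hWU
      (B := UA) fun x hx y hy => congrArg Subtype.val (coreU_comm' (⟨x, hx⟩ : U) ⟨y, hy.1⟩))
    have hsmall : Nat.card ↥(WE ⊓ UA) ≤ Nat.card ↥(WE ⊓ C) := Subgroup.card_le_of_le fun w hw => by
      refine Subgroup.mem_inf.2 ⟨hw.1, ?_⟩
      have h := houtC ha0N hw.1
      rwa [Subgroup.mem_centralizer_iff.1 hw.2.2 a0 ha0.1, mul_inv_cancel_right] at h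
    have h2 : Nat.card WE ≤ 2 * Nat.card ↥(WE ⊓ C) := by
      have h3 : Nat.card ↥(WE ⊔ UA) ≤ 2 * Nat.card UA := by
        have h4 := (Nat.mul_le_mul (le_refl (Nat.card A1)) (Subgroup.card_le_of_le hle)).trans
          (hAA1.trans (Nat.mul_le_mul hcard le_rfl))
        rw [show 2 * Nat.card A1 * Nat.card UA = Nat.card A1 * (2 * Nat.card UA) by ring] at h4
        exact Nat.le_of_mul_le_mul_left h4 Nat.card_pos
      have h5 : Nat.card WE * Nat.card UA ≤ 2 * Nat.card ↥(WE ⊓ C) * Nat.card UA :=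
        calc Nat.card WE * Nat.card UA = Nat.card ↥(WE ⊔ UA) * Nat.card ↥(WE ⊓ UA) := by rw [hprod]
          _ ≤ (2 * Nat.card UA) * Nat.card ↥(WE ⊓ C) := Nat.mul_le_mul h3 hsmall
          _ = _ := by ring
      exact Nat.le_of_mul_le_mul_right h5 Nat.card_pos
    set Y : Subgroup WE := (WE ⊓ C).subgroupOf WE
    have hY : Y.index = 2 := by
      have h6 := Subgroup.card_mul_index Y
      rw [Nat.card_congr (Subgroup.subgroupOfEquivOfLe (inf_le_left : WE ⊓ C ≤ WE)).toEquiv] at h6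
      have h7 : Y.index ≤ 2 := by
        by_contra h
        push Not at h
        have := Nat.mul_le_mul (le_refl (Nat.card ↥(WE ⊓ C))) h
        have := Nat.card_pos (α := ↥(WE ⊓ C))
        omega
      have h8 : Y.index ≠ 1 := fun h => hnC (by
        rw [Subgroup.index_eq_one, Subgroup.subgroupOf_eq_top] at h
        exact h.trans inf_le_right)
      have := Subgroup.index_ne_zero_of_finite (H := Y)
      omega
    refine hF.moduleFacts.2.2.1 ?_
    rw [← hF.moduleFacts.1, Subgroup.commutator_eq_bot_iff_le_centralizer]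
    refine fun w hw => Subgroup.mem_centralizer_iff.2 fun e he => ?_
    have hQ : e ∈ pCoreOf p E := mem_pCoreOf_of_trivial hE he fun v hv => by
      have hiff := Subgroup.mul_mem_iff_of_index_two hY
        (a := (⟨v⁻¹, inv_mem hv⟩ : WE)) (b := ⟨e * v * e⁻¹, hWN (Subgroup.le_normalizer he) hv⟩)
      have key : (⟨v⁻¹, inv_mem hv⟩ : WE) ∈ Y ↔ (⟨e * v * e⁻¹, hWN (Subgroup.le_normalizer he) hv⟩ : WE) ∈ Y := by
        constructor
        · intro h
          have hv' : v ∈ C := inv_mem_iff.1 h.2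
          refine Subgroup.mem_inf.2 ⟨hWN (Subgroup.le_normalizer he) hv, ?_⟩
          show e * v * e⁻¹ ∈ C
          rw [Subgroup.mem_centralizer_iff.1 hv' e he, mul_inv_cancel_right]; exact hv'
        · intro h
          refine Subgroup.mem_inf.2 ⟨inv_mem hv, Subgroup.inv_mem _ (Subgroup.mem_centralizer_iff.2 fun x hx => ?_)⟩
          have hx' : e * x * e⁻¹ * (e * v * e⁻¹) = e * v * e⁻¹ * (e * x * e⁻¹) :=
            Subgroup.mem_centralizer_iff.1 h.2 (e * x * e⁻¹) (mul_mem (mul_mem he hx) (inv_mem he))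
          calc x * v = e⁻¹ * ((e * x * e⁻¹) * (e * v * e⁻¹)) * e := by group
            _ = e⁻¹ * ((e * v * e⁻¹) * (e * x * e⁻¹)) * e := by rw [hx']
            _ = v * x := by group
      exact (hiff.2 key).2
    exact (Replacement.Block.blockW_comm hQ (WE_le hE hw))

/-- The Thompson subgroup of every Sylow subgroup normalises a subnormal block. -/
theorem thompson_le_normalizer (T' : Sylow p G) :
    thompsonSubgroupOf p (T' : Subgroup G) ≤ Subgroup.normalizer (E : Set G) :=
  ThompsonJ.thompsonSubgroupOf_le_iff.2 fun _ hA => maxEA_le_normalizer hG hE hEs T' hA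

end CfsgLib.FFModules.BlockNormal
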