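import Cfsg.Agent.Lib.TwoGroupTricks.BlockFacts
import Cfsg.Agent.Lib.PGroups.Frattini

/-!
Blocks are preserved by isomorphisms.
-/

set_option autoImplicit false

open scoped commutatorElement MatrixGroups

namespace CfsgLib.FFModules.BlockNormal

open Cfsg

variable {G H : Type*} [Group G] [Group H] {p : ℕ} (α : G ≃* H)

local notation "α'" => α.toMonoidHom

theorem map_omegaOneCenter (X : Subgroup G) :
    (omegaOneCenter p X).map α' = omegaOneCenter p (X.map α') := by
  rw [omegaOneCenter, omegaOneCenter, ThompsonJ.map_omegaOne α.injective,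
    ThompsonJ.map_inf_centralizer α.injective]

theorem map_pCoreOf (X : Subgroup G) : (pCoreOf p X).map α' = pCoreOf p (X.map α') := by
  rw [pCoreOf, pCoreOf, ← Cores.map_pCore_equiv (X.equivMapOfInjective α' α.injective), Subgroup.map_map,
    Subgroup.map_map]
  rfl

theorem map_pResidualOf (X : Subgroup G) : (pResidualOf p X).map α' = pResidualOf p (X.map α') := by
  set e := X.equivMapOfInjective α' α.injective
  have h : (pResidual p X).map e.toMonoidHom = pResidual p (X.map α') := by
    rw [pResidual, pResidual, MonoidHom.map_closure]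
    congr 1
    ext y
    obtain ⟨x, rfl⟩ := e.surjective y
    show _ ↔ Nat.Coprime (orderOf (e x)) p
    rw [MulEquiv.orderOf_eq]
    exact ⟨fun ⟨x', hx', hxx⟩ => e.injective hxx ▸ hx', fun hx => ⟨x, hx, rfl⟩⟩
  rw [pResidualOf, pResidualOf, ← h, Subgroup.map_map, Subgroup.map_map]
  rfl

theorem map_centralizer (X : Subgroup G) :
    (Subgroup.centralizer (X : Set G)).map α' = Subgroup.centralizer (X.map α' : Set H) := by
  ext y
  obtain ⟨x, rfl⟩ := α.surjective y
  show α' x ∈ _ ↔ _
  rw [Subgroup.mem_map_iff_mem α.injective, Subgroup.mem_centralizer_iff, Subgroup.mem_centralizer_iff]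
  constructor
  · rintro h _ ⟨z, hz, rfl⟩
    show α z * α x = α x * α z
    rw [← map_mul, ← map_mul, h z hz]
  · intro h z hz
    exact α.injective (by simpa using h _ ⟨z, hz, rfl⟩)

theorem map_baumannSubgroupOf (T : Subgroup G) :
    (baumannSubgroupOf p T).map α' = baumannSubgroupOf p (T.map α') := by
  rw [baumannSubgroupOf, baumannSubgroupOf, centerThompsonOf, centerThompsonOf,
    Subgroup.map_inf _ _ _ α.injective, map_centralizer, ThompsonJ.map_omegaOne α.injective,
    ThompsonJ.map_inf_centralizer α.injective, ThompsonJ.map_thompsonSubgroupOf α.injective]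

theorem actsAsSL2_map {F : Type*} [Field F] {R : Subgroup SL(2, F)} {E U U₀ : Subgroup G}
    (h : ActsAsSL2OnSection F R E U U₀) :
    ActsAsSL2OnSection F R (E.map α') (U.map α') (U₀.map α') := by
  obtain ⟨hn, hle, ρ, ψ, hR, hs, hk, hc⟩ := h
  set eE := E.equivMapOfInjective α' α.injective
  set eU := U.equivMapOfInjective α' α.injective
  refine ⟨(Subgroup.map_mono hn).trans (Subgroup.le_normalizer_map _), Subgroup.map_mono hle,
    ρ.comp eE.symm.toMonoidHom, ψ.comp eU.symm.toMonoidHom, ?_, hs.comp eU.symm.surjective,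
    fun u => ?_, fun e u => ?_⟩
  · rw [MonoidHom.range_comp, MonoidHom.range_eq_top.2 eE.symm.surjective, ← MonoidHom.range_eq_map, hR]
  · obtain ⟨v, rfl⟩ := eU.surjective u
    show ψ (eU.symm (eU v)) = 1 ↔ α' v ∈ U₀.map α'
    rw [MulEquiv.symm_apply_apply, hk, Subgroup.mem_map_iff_mem α.injective]
  · obtain ⟨e, rfl⟩ := eE.surjective e
    obtain ⟨u, rfl⟩ := eU.surjective u
    obtain ⟨w, hw, hψ⟩ := hc e u
    refine ⟨eU w, ?_, ?_⟩
    · show α' w = α' e * α' u * (α' e)⁻¹
      rw [hw, map_mul, map_mul, map_inv]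
    · show Multiplicative.toAdd (ψ (eU.symm (eU w))) = _
      rw [MulEquiv.symm_apply_apply, hψ]
      show _ = ((ρ (eE.symm (eE e)) : SL(2, F)) : Matrix (Fin 2) (Fin 2) F).mulVec
        (Multiplicative.toAdd (ψ (eU.symm (eU u))))
      rw [MulEquiv.symm_apply_apply, MulEquiv.symm_apply_apply]

theorem actsAsPerm_map {n : ℕ} {R : Subgroup (Equiv.Perm (Fin n))} {E U U₀ : Subgroup G}
    (h : ActsAsOddPermModuleOnSection n R E U U₀) :
    ActsAsOddPermModuleOnSection n R (E.map α') (U.map α') (U₀.map α') := by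
  obtain ⟨hn, hle, ρ, ψ, hR, hev, hs, hk, hc⟩ := h
  set eE := E.equivMapOfInjective α' α.injective
  set eU := U.equivMapOfInjective α' α.injective
  refine ⟨(Subgroup.map_mono hn).trans (Subgroup.le_normalizer_map _), Subgroup.map_mono hle,
    ρ.comp eE.symm.toMonoidHom, ψ.comp eU.symm.toMonoidHom, ?_, fun u => hev _, fun v hv => ?_,
    fun u => ?_, fun e u => ?_⟩
  · rw [MonoidHom.range_comp, MonoidHom.range_eq_top.2 eE.symm.surjective, ← MonoidHom.range_eq_map, hR]
  · obtain ⟨u, hu⟩ := hs v hv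
    exact ⟨eU u, by rw [← hu]; show Multiplicative.toAdd (ψ (eU.symm (eU u))) = _; rw [MulEquiv.symm_apply_apply]⟩
  · obtain ⟨v, rfl⟩ := eU.surjective u
    show ψ (eU.symm (eU v)) = 1 ↔ α' v ∈ U₀.map α'
    rw [MulEquiv.symm_apply_apply, hk, Subgroup.mem_map_iff_mem α.injective]
  · obtain ⟨e, rfl⟩ := eE.surjective e
    obtain ⟨u, rfl⟩ := eU.surjective u
    obtain ⟨w, hw, hψ⟩ := hc e u
    refine ⟨eU w, ?_, fun i => ?_⟩
    · show α' w = α' e * α' u * (α' e)⁻¹
      rw [hw, map_mul, map_mul, map_inv]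
    · show Multiplicative.toAdd (ψ (eU.symm (eU w))) i = _
      rw [MulEquiv.symm_apply_apply, hψ]
      show _ = Multiplicative.toAdd (ψ (eU.symm (eU u))) ((ρ (eE.symm (eE e)))⁻¹ i)
      rw [MulEquiv.symm_apply_apply, MulEquiv.symm_apply_apply]

/-- Blocks are preserved by isomorphisms. -/
theorem isBaumannBlock_map [Finite G] [Fact p.Prime] {T E : Subgroup G} (h : IsBaumannBlock p T E) :
    IsBaumannBlock p (T.map α') (E.map α') := by
  obtain ⟨h1, h2, h3, h4, h5⟩ := h
  have hW : (omegaOneCenter p (pCoreOf p E)).map α' = omegaOneCenter p (pCoreOf p (E.map α')) := by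
    rw [map_omegaOneCenter, map_pCoreOf]
  have hC : (E ⊓ Subgroup.centralizer (E : Set G)).map α' =
      E.map α' ⊓ Subgroup.centralizer (E.map α' : Set H) := ThompsonJ.map_inf_centralizer α.injective E
  have hZ : (omegaOneCenter p (pCoreOf p E) ⊓ Subgroup.centralizer (E : Set G)).map α' =
      omegaOneCenter p (pCoreOf p (E.map α')) ⊓ Subgroup.centralizer (E.map α' : Set H) := by
    rw [Subgroup.map_inf _ _ _ α.injective, hW, map_centralizer]
  set eE := E.equivMapOfInjective α' α.injective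
  let eQ : E ⧸ pCore p E ≃* (E.map α' : Subgroup H) ⧸ pCore p (E.map α' : Subgroup H) :=
    QuotientGroup.congr _ _ eE (Cores.map_pCore_equiv eE)
  refine ⟨by rw [← map_pResidualOf, h1],
    by rw [← map_baumannSubgroupOf, ← Subgroup.map_commutator, h2],
    by rw [← map_pCoreOf, ← Subgroup.map_commutator, h3],
    fun hb => h4 ((Subgroup.map_eq_bot_iff_of_injective _ (show Function.Injective α' from α.injective)).1
      (by rw [Subgroup.map_commutator, map_omegaOneCenter, hb])), ?_⟩
  rcases h5 with ⟨F, iF, iFt, n, hF, ⟨φ⟩, hact, hd⟩ | ⟨hp, m, ⟨φ⟩, hact, hq⟩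
  · refine Or.inl ⟨F, iF, iFt, n, hF, ⟨eQ.symm.trans φ⟩, ?_, ?_⟩
    · rw [← hZ, ← hW]; exact actsAsSL2_map α hact
    rcases hd with hd | ⟨hp, ha, hQQ, hΦ, hEC, hcard, hnq⟩
    · refine Or.inl ?_
      rw [← hW, ← map_pCoreOf, ← hd]
    refine Or.inr ⟨hp, ?_, ?_, ?_, ?_, ?_, ?_⟩
    · rw [← hW, ← map_pCoreOf]; exact actsAsSL2_map α ha
    · rw [← hZ, ← map_pCoreOf, ← Subgroup.map_commutator, hQQ]
    · rw [← hZ, ← map_pCoreOf, ← hΦ, ← PGroups.map_frattini_eq
        (((Cores.isPGroup_pCore p E).map E.subtype : IsPGroup p (pCoreOf p E)))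
        ((pCoreOf p E).equivMapOfInjective α' α.injective).toMonoidHom
        ((pCoreOf p E).equivMapOfInjective α' α.injective).surjective]
      refine (Subgroup.map_map _ _ _).trans (Eq.trans ?_ (Subgroup.map_map _ _ _).symm)
      rfl
    · rw [← hC, ← hZ, hEC]
    · rw [← hC, Subgroup.card_map_of_injective α.injective, hcard]
    · intro b hb hbW hle
      obtain ⟨b, rfl⟩ := α.surjective b
      rw [← map_baumannSubgroupOf] at hb
      refine hnq b ((Subgroup.mem_map_iff_mem α.injective).1 hb) (fun hc => hbW ?_) ?_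
      · rw [← hW, ← map_centralizer]; exact Subgroup.mem_map_of_mem _ hc
      · rw [← map_pCoreOf, ← hC, show α b = α' b from rfl, ← MonoidHom.map_zpowers,
          ← Subgroup.map_commutator, ← Subgroup.map_commutator,
          Subgroup.map_le_map_iff_of_injective α.injective] at hle
        exact hle
  · refine Or.inr ⟨hp, m, ⟨eQ.symm.trans φ⟩, ?_, ?_⟩
    · rw [← hZ, ← hW]; exact actsAsPerm_map α hact
    · rw [← hW, ← map_pCoreOf, ← hq]

end CfsgLib.FFModules.BlockNormal
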